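import Cfsg.Agent.SFP.A1a

/-! SFP/A1b: case A, the sets `DD` cannot partition `Ω`. -/

namespace Cfsg.Agent.SFP
open Subgroup MulAction Cfsg.Agent.PLocal.Amb
open scoped Pointwise

universe u v

variable {G : Type u} [Group G] {Ω : Type v} [MulAction G Ω] [Finite G] [Finite Ω] {p : ℕ}
  [hp : Fact p.Prime] {S : Subgroup G}

/-- Every `x` lies in exactly one `DD p U Ω`, `U ∈ HH` (`exists_mem_dd`; uniqueness: `hu` for fixed
points, `mem_dd_iff` for moved ones); call it `φ x`.  `Y = {g | ∀ x y, φ x = φ y ↔ φ (g • x) =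
φ (g • y)}` is a subgroup.  Fix `α` with `Fx S α`.  `R_α ≤ Y` since `φ (g • x) = φ x` for `g ∈ R_α`
(`orb_subset`; `g • α = α`), `𝐍[S] ≤ Y` since `φ (n • x) = cj(n, φ x)` (`hh_cj`, `dd_cj`,
`cj_inj`), so `stabilizer α ≤ Y` (`IsSyl.frattini` for `S` Sylow in `R_α`,
`stab_le_normalizer_ra`).  `Prm.max` (`R = ⊤`, `PS.orb_top`): `Y` does not fix `α` (`exists_ne`,
`exists_norm`), so `Y = ⊤`.  `Prm.inj_or_const φ`: not injective (`φ (s • σ) = φ σ` for `σ`
moved by `s ∈ S`, `CA.inv`); constant `= U` means `U` fixes every point, `U = ⊥`, against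
`CA.ne_bot`. -/
theorem CA.a1b (hA : CA p S Ω) (h : P5 p S Ω) (hc : Nat.card S ≠ p)
    (hu : ∀ β : Ω, Fx S β → ∀ U ∈ HH S Ω, ∀ U' ∈ HH S Ω, β ∈ DD p U Ω → β ∈ DD p U' Ω → U = U') :
    False := by
  choose φ hH hD using hA.exists_mem_dd h
  have un : ∀ x, ∀ U ∈ HH S Ω, x ∈ DD p U Ω → φ x = U := fun x U hU hx => by
    by_cases f : Fx S x
    · exact hu x f _ (hH x) _ hU (hD x) hx
    · exact ((hA.mem_dd_iff h (hH x) f).1 (hD x)).symm.trans ((hA.mem_dd_iff h hU f).1 hx)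
  let Y : Subgroup G :=
    { carrier := {g | ∀ x y, φ x = φ y ↔ φ (g • x) = φ (g • y)}
      one_mem' := fun x y => by rw [one_smul, one_smul]
      mul_mem' := fun {a b} ha hb x y => by rw [mul_smul, mul_smul, ← ha, ← hb]
      inv_mem' := fun {a} ha x y => by rw [ha (a⁻¹ • x), smul_inv_smul, smul_inv_smul] }
  obtain ⟨α, hα⟩ := h.f1
  have hR : Ra p G α ≤ Y := fun g hg x y => by
    have k : ∀ z, φ (g • z) = φ z := fun z => by
      by_cases e : z = α
      · rw [e, fx_ra_self p α g hg]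
      · obtain ⟨U, hU, hs⟩ := hA.orb_subset h hα e
        rw [un _ U hU (hs (mem_orb_self _ _)), un _ U hU (hs (smul_mem_orb hg (mem_orb_self _ _)))]
    rw [k, k]
  have hN : 𝐍[S] ≤ Y := fun n hn x y => by
    have k : ∀ z, φ (n • z) = cj(n, φ z) := fun z => un _ _ (hh_cj (hH z) hn)
      (by rw [dd_cj]; exact Set.smul_mem_smul_set (hD z))
    rw [k, k, cj_inj]
  have hY : ⊤ ⊓ stabilizer G α ≤ Y := fun g hg => by
    obtain ⟨n, hn, x, hx, rfl⟩ := (gn_ra h.gn.syl hα).syl.frattini (stab_le_normalizer_ra p α hg.2)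
    exact mul_mem (hR hn) (hN hx)
  rcases Prm.max (h.toPS.orb_top α ▸ h.prm) hY le_top with f | f
  · obtain ⟨y, hy, fy⟩ := h.exists_ne α
    obtain ⟨n, hn, e⟩ := h.toPS.exists_norm hα fy
    exact hy (e.symm.trans (f n (hN hn)))
  rcases h.prm.inj_or_const φ (fun g hg x _ y _ => (f hg x y).1) with k | k
  · obtain ⟨σ, hσ⟩ := h.toPS.exists_moved
    exact hσ fun s hs => k trivial trivial (un _ _ (hH σ) (hA.inv h (hH σ) s hs σ (hD σ)))
  · exact hA.ne_bot h hc (hH α) (h.toPS.eq_bot fun x => k x trivial α trivial ▸ (hD x).1)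

end Cfsg.Agent.SFP
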