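import Cfsg.Agent.SFP.A1a

/-! SFP/A1c: case A, two sets `DD` cannot share a fixed point. -/

namespace Cfsg.Agent.SFP
open Subgroup MulAction Cfsg.Agent.PLocal.Amb
open scoped Pointwise

universe u v

variable {G : Type u} [Group G] {Ω : Type v} [MulAction G Ω] [Finite G] [Finite Ω] {p : ℕ}
  [hp : Fact p.Prime] {S U U' V : Subgroup G} {β : Ω}

/-- Numerical part.  `H` = the finset of `HH S Ω`, `c V = fx S (DD V)`, `q V = qq p S (DD V) ≥ 1`,
`∑ q V = q` (`sum_qq`); `card S ≠ p` (`CA.eq_bot`) so `c V ≤ (p-1) q V` (`ne_bot`, `ee_dd`).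
Every fixed point `γ = n • β` (`exists_norm`) lies in `DD cj(n,U)` and `DD cj(n,U')`, two different
members, so double counting gives `2 f ≤ ∑ c V ≤ (p-1) q = e + f`.  With `bad`, `f_ge`, `t_pos`:
`f < 2p`, `f = p + t`, `q = 3`.  So `|H| ≤ 3`; `|H| = 2` is impossible (both `DD` contain all fixed
points, `c V = f > p - 1`, `q V ≥ 2`, `q ≥ 4`); so `|H| = 3`, all `q V = 1`, and the largest `c V`
has `3 c V ≥ 2 f`. -/
theorem CA.a1c_num (hA : CA p S Ω) (h : P5 p S Ω) (hβ : Fx S β) (hU : U ∈ HH S Ω)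
    (hU' : U' ∈ HH S Ω) (hne : U ≠ U') (h1 : β ∈ DD p U Ω) (h2 : β ∈ DD p U' Ω) :
    (∀ V ∈ HH S Ω, qq p S (DD p V Ω) = 1) ∧
      ∃ V ∈ HH S Ω, 2 * fx S (Set.univ : Set Ω) ≤ 3 * fx S (DD p V Ω) ∧ fx S (DD p V Ω) < p := by
  classical
  have := Fintype.ofFinite Ω
  obtain ⟨H, hH⟩ : ∃ H : Finset (Subgroup G), ∀ V, V ∈ H ↔ V ∈ HH S Ω :=
    ⟨(Set.toFinite _).toFinset, fun _ => Set.Finite.mem_toFinset _⟩
  have hc : Nat.card S ≠ p := fun e => hne ((hA.eq_bot h e hU).trans (hA.eq_bot h e hU').symm)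
  have p5 := h.p5
  have cq : ∀ V ∈ H, fx S (DD p V Ω) ≤ (p - 1) * qq p S (DD p V Ω) := fun V hV => by
    have := hA.ee_dd h ((hH V).1 hV) (hA.ne_bot h hc ((hH V).1 hV))
    rw [ee] at this
    zify [show 1 ≤ p by omega]
    linarith
  have sq := hA.sum_qq h H hH
  set f := fx S (Set.univ : Set Ω) with hf
  set q := qq p S (Set.univ : Set Ω) with hq
  have dc : 2 * f ≤ ∑ V ∈ H, fx S (DD p V Ω) := by
    let F : Finset Ω := Finset.univ.filter (Fx S)
    have e := Finset.sum_card_bipartiteAbove_eq_sum_card_bipartiteBelow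
      (s := F) (t := H) (fun γ V => γ ∈ DD p V Ω)
    have e1 : ∀ Γ : Set Ω, fx S Γ = (F.filter (· ∈ Γ)).card := fun Γ => by
      rw [fx, ← Set.ncard_coe_finset]; congr 1; ext x; simp [F, and_comm]
    have e2 : f = F.card := by rw [hf, e1]; simp
    calc 2 * f = ∑ _γ ∈ F, 2 := by rw [Finset.sum_const, smul_eq_mul, e2, mul_comm]
      _ ≤ _ := Finset.sum_le_sum fun γ hγ => ?_
      _ = _ := e
      _ = _ := Finset.sum_congr rfl fun V _ => by
        rw [e1]; congr 1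
    obtain ⟨n, hn, rfl⟩ := h.toPS.exists_norm hβ (Finset.mem_filter.1 hγ).2
    refine Finset.one_lt_card.2 ⟨cj(n, U), ?_, cj(n, U'), ?_, mt cj_inj.1 hne⟩
    · rw [Finset.mem_bipartiteAbove, hH, dd_cj]
      exact ⟨hh_cj hU hn, Set.smul_mem_smul_set h1⟩
    · rw [Finset.mem_bipartiteAbove, hH, dd_cj]
      exact ⟨hh_cj hU' hn, Set.smul_mem_smul_set h2⟩
  have s1 : ∑ V ∈ H, fx S (DD p V Ω) ≤ (p - 1) * q := by
    rw [← sq, Finset.mul_sum]; exact Finset.sum_le_sum cq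
  have b := h.bad
  have t1 := h.t_pos
  have t2 := h.f_ge
  rw [ee, ← hf, ← hq] at b
  rw [← hf] at t1 t2
  have q3 : q = 3 := by
    have s2 : 2 * (f : ℤ) ≤ ((p : ℤ) - 1) * q := by
      have := dc.trans s1
      zify [show 1 ≤ p by omega] at this
      exact this
    have f2 : f < 2 * p := by zify; linarith
    have ft : f = p + f % p := by
      rw [Nat.mod_eq_sub_mod (by omega), Nat.mod_eq_of_lt (by omega)]; omega
    generalize f % p = t at *
    have ft' : (f : ℤ) = p + t := by exact_mod_cast ft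
    have p5' : (5 : ℤ) ≤ p := by exact_mod_cast p5
    have t1' : (1 : ℤ) ≤ t := by exact_mod_cast t1
    have a1 : (q : ℤ) < 4 := by nlinarith
    have a2 : (2 : ℤ) < q := by nlinarith
    omega
  have one : ∀ V ∈ H, qq p S (DD p V Ω) = 1 := fun V hV => by
    have l := hA.one_le_qq h ((hH V).1 hV)
    by_contra n
    rw [← Finset.add_sum_erase _ _ hV] at sq dc
    have a1 : ∑ W ∈ H.erase V, fx S (DD p W Ω) ≤ (p - 1) * ∑ W ∈ H.erase V, qq p S (DD p W Ω) := by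
      rw [Finset.mul_sum]; exact Finset.sum_le_sum fun W hW => cq W (Finset.mem_of_mem_erase hW)
    have a2 : fx S (DD p V Ω) ≤ f := fx_mono S (Set.subset_univ _)
    have a3 := Nat.mul_le_mul_left (p - 1) (show ∑ W ∈ H.erase V, qq p S (DD p W Ω) ≤ 1 by omega)
    omega
  refine ⟨fun V hV => one V ((hH V).2 hV), ?_⟩
  rw [Finset.sum_congr rfl one, Finset.sum_const, smul_eq_mul, mul_one, q3] at sq
  obtain ⟨V, hV, l⟩ := Finset.exists_le_of_sum_le (s := H) (f := fun _ => 2 * f)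
    (g := fun V => 3 * fx S (DD p V Ω)) ⟨U, (hH U).2 hU⟩ (by
      rw [Finset.sum_const, smul_eq_mul, sq, ← Finset.mul_sum]; omega)
  have := cq V hV
  rw [one V hV] at this
  exact ⟨V, (hH V).1 hV, l, by omega⟩

/-- Geometric part.  `D = DD V`, `c = fx S D`, `|D| = c + p`; `W = og p 𝐍[V]` is transitive on `D`
(each `W`-orbit has a point moved by `S` (`Gn.exists_moved`), `mem_orb_of_mv`).  Let `α` be fixed
by `S`, `α ∉ D`: then `W` fixes `α`, `W = og W ≤ R_α` (`og_og`, `og_mono`), so for `σ ∈ D` moved,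
`D ⊆ orb R_α σ ⊆ DD V'` (`orb_subset`) with `V' = S ⊓ stabilizer σ = V` (`mem_dd_iff`):
`orb R_α σ = D`.  Any other orbit `Γ' = orb R_α y` (`y ≠ α`, `y ∉ D`) lies in some `DD V'`, so
`qq Γ' ≤ 1`, and is disjoint from `D ∪ {α}`, so `fx Γ' + c + 1 ≤ f`, `fx Γ' < c`, `|Γ'| < c + p`.
Hence `Z x = {y | y ≠ x ∧ c + p ≤ (orb (Ra p G x) y).ncard}` (equivariant by `orb_ra_smul`,
`Set.ncard_smul_set`) has `Z α = D`.  There are `f - c ≥ 2` such `α` (`f_ge`, `t_pos`), against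
`PS.eq_inj`. -/
theorem CA.a1c_geo (hA : CA p S Ω) (h : P5 p S Ω) (hq : ∀ V ∈ HH S Ω, qq p S (DD p V Ω) = 1)
    (hV : V ∈ HH S Ω) (h1 : 2 * fx S (Set.univ : Set Ω) ≤ 3 * fx S (DD p V Ω))
    (h2 : fx S (DD p V Ω) < p) : False := by
  have pg := h.toPS.isPGroup
  have iD := hA.inv h hV
  have gW := hA.gn h hV
  obtain ⟨σ, σD, σm⟩ := (one_le_qq_iff pg iD).1 (hA.one_le_qq h hV)
  have mD : mv S (DD p V Ω) = p := by rw [mv_eq pg iD, hq V hV, mul_one]
  have nD : (DD p V Ω).ncard = fx S (DD p V Ω) + p := by rw [← fx_add_mv S, mD]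
  have tr : DD p V Ω ⊆ orb (og p 𝐍[V]) σ := fun y hy => by
    obtain ⟨z, z1, z2⟩ := gW.exists_moved hy.2
    have zD := SFP.orb_subset ((inv_dd V).mono (og_le p _)) hy z1
    exact mem_orb_trans (orb_mono gW.syl.le σ (mem_orb_of_mv pg iD mD σD zD σm z2)) (mem_orb_symm z1)
  set c := fx S (DD p V Ω) with hc
  let Z : Ω → Set Ω := fun x => {y | y ≠ x ∧ c + p ≤ (orb (Ra p G x) y).ncard}
  have key : ∀ α, α ∉ DD p V Ω → Fx S α → Z α = DD p V Ω := fun α a1 a2 => by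
    have fW : Fx (og p 𝐍[V]) α := by
      by_contra n; exact a1 ⟨a2.mono (hh_le hV), n⟩
    have l : og p 𝐍[V] ≤ Ra p G α := by
      rw [← og_og]; exact og_mono (fx_iff_le.1 fW)
    have ne : σ ≠ α := fun e => σm (e ▸ a2)
    have o : orb (Ra p G α) σ = DD p V Ω := by
      obtain ⟨V', v1, v2⟩ := hA.orb_subset h a2 ne
      have := ((hA.mem_dd_iff h v1 σm).1 (v2 (mem_orb_self _ _))).symm.trans
        ((hA.mem_dd_iff h hV σm).1 σD)
      subst this
      exact v2.antisymm (tr.trans (orb_mono l σ))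
    ext y
    refine ⟨fun ⟨y1, y2⟩ => by_contra fun n => ?_, fun hy => ⟨fun e => a1 (e ▸ hy), ?_⟩⟩
    · obtain ⟨V', v1, v2⟩ := hA.orb_subset h a2 y1
      have q1 := (qq_mono (p := p) S v2).trans (hq V' v1).le
      have d : Disjoint (DD p V Ω) (orb (Ra p G α) y) := by
        rw [← o] at n ⊢; exact disjoint_orb n
      have u := fx_mono S (Set.union_subset (Set.subset_compl_singleton_iff.2 a1)
        (orb_ra_subset (G := G) (p := p) y1))
      have := fx_compl_singleton a2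
      rw [fx_union S d] at u
      rw [ncard_eq pg ((inv_orb _ y).mono (le_ra pg a2))] at y2
      have := Nat.mul_le_mul_left p q1
      omega
    · rw [orb_eq_of_mem (o ▸ hy : y ∈ orb (Ra p G α) σ), o, nD]
  have f2 : 1 < fx S (DD p V Ω)ᶜ := by
    have := fx_union S (disjoint_compl_right (a := DD p V Ω))
    have t1 := h.t_pos
    have t2 := h.f_ge
    rw [Set.union_compl_self] at this
    omega
  obtain ⟨a, ⟨a1, a2⟩, b, ⟨b1, b2⟩, ab⟩ := (Set.one_lt_ncard (Set.toFinite _)).1 f2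
  refine ab (h.toPS.eq_inj Z (fun g x => ?_) (fun x hx => hx.1 rfl) (key a a1 a2 ▸ ⟨σ, σD⟩)
    ((key a a1 a2).trans (key b b1 b2).symm))
  ext y
  obtain ⟨y, rfl⟩ := MulAction.surjective g y
  rw [Set.smul_mem_smul_set_iff]
  simp only [Z, Set.mem_ofPred_eq, orb_ra_smul, Set.ncard_smul_set, ne_eq, smul_left_cancel_iff]

end Cfsg.Agent.SFP
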