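import Cfsg.Agent.SFP.J
import Cfsg.Agent.S0713

/-! SFP/J3: bases with at least three fixed points carry the alternating group. -/

namespace Cfsg.Agent.SFP
open Subgroup MulAction Cfsg.Agent.PLocal.Amb
open scoped Pointwise

variable {G : Type*} [Group G] {Ω : Type*} [MulAction G Ω] {Ω' : Type*} [MulAction G Ω']
  [Finite G] [Finite Ω] [Finite Ω'] {p : ℕ} [hp : Fact p.Prime] {R S Y : Subgroup G}
  {B Γ : Set Ω} {B' : Set Ω'}

/-- `R` is generated by elements of odd order, so acts by even permutations: the kernel of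
`sign ∘ toPermHom` (mapped to `G` by `R.subtype`) contains every Sylow `p`-subgroup
(`u ^ p ^ k = 1` in `ℤˣ`, `p` odd); `og_le_iff`. -/
theorem range_le_alt (hg : Gn p R S) (hp2 : p ≠ 2) (h : Inv R Γ) [Fintype ↥(sub h)]
    [DecidableEq ↥(sub h)] :
    (MulAction.toPermHom ↥R ↥(sub h)).range ≤ alternatingGroup ↥(sub h) := by
  rintro _ ⟨g, rfl⟩
  obtain ⟨k, hk, e⟩ := (og_le_iff (K := ((Equiv.Perm.sign.comp
    (MulAction.toPermHom ↥R ↥(sub h))).ker).map R.subtype)).2 (fun T hT t ht => by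
      obtain ⟨k, e⟩ := pe_of_mem hT.pgrp ht
      refine ⟨⟨t, hT.le ht⟩, (Int.units_eq_one_or _).resolve_right fun e1 => ?_, rfl⟩
      have := congrArg (· ^ p ^ k) e1
      simp only [← map_pow] at this
      rw [show (⟨t, hT.le ht⟩ : R) ^ p ^ k = 1 from Subtype.ext e, map_one,
        ((hp.out.odd_of_ne_two hp2).pow).neg_one_pow] at this
      exact absurd this (by decide)) (hg.gen.ge g.2)
  exact Subtype.ext e ▸ hk

/-- A transitive subgroup containing `S` is primitive on `B` (as `2 p > |B|`).  Let `r` be an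
invariant equivalence relation, `Σ = orb S σ` the `p` moved points; `S` is primitive on `Σ`
(`prm_of_prime`).  If `r` is total on `Σ`, the class `C` of `σ` in `B` has more than `|B|/2`
points, so for `y ∈ Y`, `y • C` (the class of `y • σ`) meets `C`, so `r` is total on `B`.  If `r` is
trivial on `Σ` and `r a σ` with `a ∈ B` fixed by `S` then `r a (s • σ)`, so `s • σ = σ` for all
`s ∈ S`, absurd; so the class of `σ` is `{σ}` and by transitivity `r` is trivial. -/
theorem Bs.prm_of_le (h : Bs p R S B) (hSY : S ≤ Y) (hY : Y ≤ R)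
    (htr : ∀ y ∈ B, ∀ z ∈ B, z ∈ orb Y y) : Prm Y B := fun r hr H => by
  obtain ⟨σ, hσ, hm⟩ := h.exists_moved
  have hs : orb S σ ⊆ B := orb_subset (h.inv.mono h.gn.syl.le) hσ
  have hc := h.ncard_orb hσ hm
  have h0 := mem_orb_self S σ
  refine (prm_of_prime (hc ▸ hp.out) r hr fun g hg x hx y hy => H g (hSY hg) x (hs hx) y (hs hy)).imp
    (fun k x hx y hy e => ?_) fun k => ?_
  · obtain ⟨g, hg, rfl⟩ := htr y hy σ hσ
    have e1 := H g hg x hx y hy e
    have hx' := h.inv g (hY hg) x hx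
    refine MulAction.injective g (k _ (h.mem_orb hσ hx' hm fun f => hm fun s hs => ?_) _ h0 e1)
    have := H s (hSY hs) _ hx' _ hσ e1
    rw [f s hs] at this
    exact k _ (smul_mem_orb hs h0) _ h0 (hr.trans (hr.symm this) e1)
  · have k2 : ∀ z ∈ B, r σ z := fun z hz => by
      obtain ⟨g, hg, rfl⟩ := htr σ hσ z hz
      obtain ⟨a, ha, b, hb, rfl⟩ := Set.not_disjoint_iff.1 fun d : Disjoint (orb S σ) (g • orb S σ) => by
        have := Set.ncard_le_ncard (Set.union_subset hs (h.inv.smul_set (hY hg) ▸ Set.smul_set_mono hs :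
          g • orb S σ ⊆ B))
        rw [Set.ncard_union_eq d, Set.ncard_smul_set, hc, h.ncard] at this
        have := h.fx_lt
        omega
      exact hr.trans (k _ h0 _ ha) (H g hg _ (hs hb) _ hσ (k _ hb _ h0))
    exact fun x hx y hy => hr.trans (hr.symm (k2 x hx)) (k2 y hy)

theorem Bs.alt_le (h : Bs p R S B) (h3 : 3 ≤ fx S B) (hSY : S ≤ Y) (hY : Y ≤ R)
    (htr : ∀ y ∈ B, ∀ z ∈ B, z ∈ orb Y y) [Fintype ↥(sub h.inv)] [DecidableEq ↥(sub h.inv)] :
    alternatingGroup ↥(sub h.inv) ≤ (Y.subgroupOf R).map (MulAction.toPermHom ↥R ↥(sub h.inv)) := by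
  obtain ⟨σ, hσ, hm⟩ := h.exists_moved
  obtain ⟨s, hs, s1, sp⟩ := exists_pcycle h.gn.syl.pgrp hm
  have hP := h.prm_of_le hSY hY htr
  obtain rfl : B = orb Y σ := Set.Subset.antisymm (htr σ hσ) (orb_subset (h.inv.mono hY) hσ)
  have := hP.isPreprimitive
  have c := (Nat.card_eq_fintype_card.symm.trans (card_sub h.inv)).trans h.ncard
  have := h.fx_lt
  let s' : R := ⟨s, h.gn.syl.le hs⟩
  have o : orderOf (MulAction.toPermHom ↥R ↥(sub h.inv) s') = p := orderOf_eq_prime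
    (by rw [← map_pow]; exact (ker_toPermHom h.inv).ge ((h.j0 hσ hm).le ⟨pow_mem hs p, sp⟩).2)
    fun e => s1 (congrArg Subtype.val (Equiv.ext_iff.1 e (⟨σ, hσ⟩ : ↥(sub h.inv))))
  have c2 : (MulAction.toPermHom ↥R ↥(sub h.inv) s').support.card = p := by
    rw [← Set.ncard_coe_finset, ← Set.ncard_image_of_injective _ Subtype.val_injective]
    refine Eq.trans (congrArg _ (Set.ext fun a => ⟨?_, fun ha => ⟨⟨a, ha.1⟩, Equiv.Perm.mem_support.2 fun e =>
      s1 ((mem_kr.1 ((h.j0 ha.1 ha.2).le ⟨hs, congrArg Subtype.val e⟩).2).2 σ hσ), rfl⟩⟩)) h.mv_eq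
    rintro ⟨a, ha, rfl⟩
    exact ⟨a.2, fun f => Equiv.Perm.mem_support.1 ha (Subtype.ext (f s hs))⟩
  refine S0713.result _ (IsPreprimitive.of_surjective (M := Y) (α := ↥(sub (inv_orb Y σ)))
    (φ := fun y => ⟨_, ⟨y, hY y.2⟩, y.2, rfl⟩) (f := ⟨fun a => ⟨a.1, a.2⟩, fun _ _ => rfl⟩)
    fun a => ⟨⟨a.1, a.2⟩, rfl⟩) hp.out (by omega) (by omega)
    (Equiv.Perm.isCycle_of_prime_order (by rw [o]; exact hp.out) (by omega)) c2 ⟨s', hSY hs, rfl⟩

/-- J3.  `φ = toPermHom ↥R ↥(sub h.inv)`; the image `X_Y` of `Y.subgroupOf R` is primitive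
(`Bs.prm_of_le`, `Prm.isPreprimitive` transported, or prove `IsPreprimitive` for the subgroup of
`Perm` directly from `Prm Y B`), and contains the image of `s ∈ S` moving a point, which is a
`p`-cycle (it moves every point of `Σ` by `Bs.j0`, support `Σ` has `p` points, its order is a
power of `p`: `Equiv.Perm.isCycle_of_prime_order''`/`IsCycle` via `cycleType`, or directly since
`zpowers s` is transitive on `Σ` by `mem_orb_of_mv`).  `Cfsg.Agent.S0713.result` (`|B| = p + f ≥ 5`)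
gives `alternatingGroup ≤ X_Y`; with `range_le_alt`, `φ g = φ y` for some `y ∈ Y`. -/
theorem Bs.j3 (h : Bs p R S B) (hp2 : p ≠ 2) (h3 : 3 ≤ fx S B) (hSY : S ≤ Y) (hY : Y ≤ R)
    (htr : ∀ y ∈ B, ∀ z ∈ B, z ∈ orb Y y) {g : G} (hg : g ∈ R) :
    ∃ y ∈ Y, y⁻¹ * g ∈ kr R B := by
  classical
  have := Fintype.ofFinite ↥(sub h.inv)
  obtain ⟨y, hy, e⟩ := h.alt_le h3 hSY hY htr (range_le_alt h.gn hp2 h.inv ⟨⟨g, hg⟩, rfl⟩)
  refine ⟨y, hy, ((ker_toPermHom h.inv).le (x := y⁻¹ * ⟨g, hg⟩) ?_ :)⟩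
  rw [MonoidHom.mem_ker, map_mul, map_inv, e, inv_mul_cancel]

/-- the range of `φ` is the alternating group (same proof with `Y = R`); `relIndex_kr_eq`,
`two_mul_card_alternatingGroup`/`card_alternatingGroup`, `card_sub`, `Bs.ncard`. -/
theorem Bs.j3' (h : Bs p R S B) (hp2 : p ≠ 2) (h3 : 3 ≤ fx S B) :
    2 * (kr R B).relIndex R = (p + fx S B).factorial := by
  classical
  have := Fintype.ofFinite ↥(sub h.inv)
  have c := (card_sub h.inv).trans h.ncard
  have : Nontrivial ↥(sub h.inv) := Finite.one_lt_card_iff_nontrivial.1 (by omega)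
  rw [relIndex_kr_eq h.inv, (range_le_alt h.gn hp2 h.inv).antisymm ((h.alt_le h3 h.gn.syl.le le_rfl
    fun y hy z hz => h.eq_orb hy ▸ hz).trans (map_le_range _ _)), two_mul_nat_card_alternatingGroup,
    Nat.card_perm, c]

/-- `kr R B' ≤ kr R B` (`Bs.cmp`), so `|R : kr B| ∣ |R : kr B'| ∣ (p + f')!`
(`relIndex_dvd_of_le_left`, `relIndex_kr_dvd`); if `f' < f` then `(p+f)! ≤ 2 (p+f-1)!`, absurd. -/
theorem Bs.cmp3 (hc : Nat.card S = p) (hp2 : p ≠ 2) (h : Bs p R S B) (h' : Bs p R S B')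
    (h3 : 3 ≤ fx S B) : fx S B ≤ fx S B' := by
  by_contra! k
  have h1 := Nat.le_of_dvd (Nat.factorial_pos _)
    ((relIndex_dvd_of_le_left R (Bs.cmp hc h h' (by omega))).trans (relIndex_kr_dvd h'.inv))
  have h2 := h.j3' hp2 h3
  obtain ⟨n, e⟩ : ∃ n, p + fx S B = n + 1 := ⟨p + fx S B - 1, by omega⟩
  have h4 := Nat.factorial_le (h'.ncard ▸ by omega : B'.ncard ≤ n)
  have h5 := Nat.factorial_pos n
  rw [e, Nat.factorial_succ] at h2
  have : 3 ≤ n + 1 := by omega
  nlinarith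

/-- `7 = |B| ∣ |R : kr B| ∣ |R : kr B'| ∣ (5 + f')!` (`ncard_dvd_relIndex_kr`) forces `f' ≥ 2`. -/
theorem Bs.cmp5 (hp5 : p = 5) (hc : Nat.card S = p) (h : Bs p R S B) (h' : Bs p R S B')
    (h2 : fx S B = 2) : 2 ≤ fx S B' := by
  by_contra! k
  obtain ⟨x, rfl⟩ := h.isOrb
  have h1 := (ncard_dvd_relIndex_kr R x).trans
    ((relIndex_dvd_of_le_left R (Bs.cmp hc h h' h2.ge)).trans (relIndex_kr_dvd h'.inv))
  rw [h.ncard, h'.ncard, h2, hp5] at h1
  generalize fx S B' = n at k h1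
  interval_cases n <;> exact absurd h1 (by decide)

end Cfsg.Agent.SFP
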