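import Cfsg.Agent.SFP.Lin
import Cfsg.Agent.SFP.J3

/-! SFP/A2b: case A, `|S| = p`, a base with at least three fixed points (part 1). -/

namespace Cfsg.Agent.SFP
open Subgroup MulAction Cfsg.Agent.PLocal.Amb
open scoped Pointwise

universe u v

variable {G : Type u} [Group G] {Ω : Type v} [MulAction G Ω] [Finite G] [Finite Ω] {p : ℕ}
  [hp : Fact p.Prime] {S : Subgroup G} {α β β₁ : Ω}
  {Ω₁ : Type*} [MulAction G Ω₁] [Finite Ω₁] {π₁ : Ω → Ω₁}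
  {Ω₂ : Type*} [MulAction G Ω₂] [Finite Ω₂] {π₂ : Ω → Ω₂} {R : Subgroup G} {Γ₁ Γ₂ : Set Ω}

/-- `Bs.cmp3` twice -/
theorem Sd.fx_eq (hc : Nat.card S = p) (hp2 : p ≠ 2) (h₁ : Sd p R S Γ₁ π₁) (h₂ : Sd p R S Γ₂ π₂)
    (h3 : 3 ≤ fx S (π₁ '' Γ₁)) : fx S (π₂ '' Γ₂) = fx S (π₁ '' Γ₁) := by
  have a := h₁.bs.cmp3 hc hp2 h₂.bs h3
  exact le_antisymm (h₂.bs.cmp3 hc hp2 h₁.bs (h3.trans a)) a

/-- `PS.eqp` with `M = f'`, `N = p + f'` (`Sd.count`, `Sd.fx_eq`) -/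
theorem CA.eqp (hA : CA p S Ω) (h : P5 p S Ω) (hc : Nat.card S = p) (hα : Fx S α)
    (h₁ : Sd p (Ra p G α) S Γ₁ π₁) (h3 : 3 ≤ fx S (π₁ '' Γ₁)) : EqP p G Ω := by
  have hp2 : p ≠ 2 := by have := h.p5; omega
  refine h.toPS.eqp hα (fx S (π₁ '' Γ₁)) (p + fx S (π₁ '' Γ₁)) (by omega) fun β hβ => ?_
  obtain ⟨Ω', _, _, π, h₂⟩ := hA α hα β hβ
  obtain ⟨-, a, b, -⟩ := h₂.count
  rw [a, b, h₁.fx_eq hc hp2 h₂ h3]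
  ring

/-- `R = R_α`; the orbit `Γ` of `β` is standard via some `π₂` with `f'' = f' ≥ 3`, so contains
`β₀` fixed by `S` (`Sd.count`), `β = g • β₀`, `g ∈ R`; by `smul_mem_ln` (`g • α = α`, `Sd.inv`) it
suffices to treat `β₀`.  `W = og p (R ⊓ stabilizer β₀)`, `Gn p W S`.  If `W` fixes no point of
`π₁ '' Γ₁` then `Bs.jtr`, `Bs.j3`: each `g ∈ R` is `y * k`, `y ∈ W`,
`k ∈ kr R (π₁ '' Γ₁) ≤ kr R (π₂ '' Γ)` (`Bs.cmp`), so `R` fixes `π₂ β₀`, against `Bs.not_fx`.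
So `W` fixes `π₁ γ`, `γ ∈ Γ₁`; each `T ∈ SS α β₀` is a `p`-subgroup of `R ⊓ stabilizer β₀`
(`le_ra`), so `T ≤ W` (`le_og_of_isPGroup`) fixes `π₁ γ`, so `γ` (`Pm.fx_iff`). -/
theorem CA.exists_mem_ln (hA : CA p S Ω) (h : P5 p S Ω) (hc : Nat.card S = p) (hα : Fx S α)
    (h₁ : Sd p (Ra p G α) S Γ₁ π₁) (h3 : 3 ≤ fx S (π₁ '' Γ₁)) (hβ : β ≠ α) :
    ∃ γ ∈ Γ₁, γ ∈ Ln p G α β := by
  have hp2 : p ≠ 2 := by have := h.p5; omega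
  obtain ⟨Ω', _, _, π, h₂⟩ := hA α hα β hβ
  have e := h₁.fx_eq hc hp2 h₂ h3
  obtain ⟨q1, a, -⟩ := h₂.count
  obtain ⟨β₀, hβ₀, f0⟩ := fx_ne_zero_iff.1 (show fx S (orb (Ra p G α) β) ≠ 0 by
    rw [a]; exact Nat.mul_ne_zero (by omega) (by omega))
  obtain ⟨g, hg, rfl⟩ := mem_orb_symm hβ₀
  suffices H : ∃ γ ∈ Γ₁, γ ∈ Ln p G α β₀ by
    obtain ⟨γ, h1, h2⟩ := H
    refine ⟨g • γ, h₁.inv g hg γ h1, ?_⟩
    have := (smul_mem_ln g).2 h2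
    rwa [fx_ra_self p α g hg] at this
  have hS := h₁.bs.gn.syl
  have hS' : IsSyl p S (Ra p G α ⊓ stabilizer G β₀) :=
    hS.mono (le_inf hS.le (fx_iff_le.1 f0)) inf_le_left
  have hW := og_le p (Ra p G α ⊓ stabilizer G β₀)
  by_cases hy : ∃ y ∈ π₁ '' Γ₁, Fx (og p (Ra p G α ⊓ stabilizer G β₀)) y
  · obtain ⟨_, ⟨γ, hγ, rfl⟩, hf⟩ := hy
    refine ⟨γ, hγ, fun T hT => ?_⟩
    have hTR := le_ra hT.1.pgrp hT.2.1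
    exact (h₁.pm.fx_iff hT.1.pgrp hTR hγ).1
      (hf.mono (le_og_of_isPGroup hT.1.pgrp (le_inf hTR (fx_iff_le.1 hT.2.2))))
  · exfalso
    have tr := h₁.bs.jtr (gn_og hS') (hW.trans inf_le_left) fun y a b => hy ⟨y, a, b⟩
    refine h₂.bs.not_fx (Set.mem_image_of_mem π hβ₀) fun k hk => ?_
    obtain ⟨y, hy, hk'⟩ := h₁.bs.j3 hp2 h3 (le_og hS') (hW.trans inf_le_left) tr hk
    have h4 := (mem_kr.1 (Bs.cmp hc h₂.bs h₁.bs (by omega) hk')).2 _ (Set.mem_image_of_mem π hβ₀)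
    have h5 : y • π β₀ = π β₀ := by
      rw [← h₂.pm.eqv y (hW hy).1 β₀ hβ₀, mem_stabilizer_iff.1 (hW hy).2]
    rw [mul_smul, inv_smul_eq_iff, h5] at h4
    exact h4

/-- Transport to `x = α` (`tr`, `smul_mem_ln`).  Let `Γ = orb R β`, standard via `π₂`.  If
`qq Γ ≥ 2` the fibre of `β` has another point `γ` (`Sd.count`), and `T ∈ SS α β` (`T ≤ R`) fixes
`π₂ β = π₂ γ`, so `γ` (`Pm.fx_iff`); `γ ≠ α` (`ne_of_mem_orb_ra`).  If `qq Γ = 1` there is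
`γ₀ ≠ α` outside `Γ` (else `q = qq {α}ᶜ ≤ 1`, `qq_mono`, `q2`); `exists_mem_ln` for the standard
orbit of `γ₀` (`f ≥ 3` by `Sd.fx_eq`) gives a point of `Ln α β` in `orb R γ₀`, which is `≠ α, β`. -/
theorem CA.third (hA : CA p S Ω) (h : P5 p S Ω) (hc : Nat.card S = p) (hα : Fx S α)
    (h₁ : Sd p (Ra p G α) S Γ₁ π₁) (h3 : 3 ≤ fx S (π₁ '' Γ₁)) {x y : Ω} (hxy : x ≠ y) :
    ∃ z ∈ Ln p G x y, z ≠ x ∧ z ≠ y := by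
  have hp2 : p ≠ 2 := by have := h.p5; omega
  obtain ⟨g, hg⟩ := h.tr x α
  have hβ : g • y ≠ α := fun e => hxy (smul_left_cancel g (hg.trans e.symm))
  suffices H : ∃ z ∈ Ln p G α (g • y), z ≠ α ∧ z ≠ g • y by
    obtain ⟨z, h1, h2, h3⟩ := H
    refine ⟨g⁻¹ • z, (smul_mem_ln g).1 (by rwa [smul_inv_smul, hg]), fun e => h2 ?_, fun e => h3 ?_⟩
    · rw [← hg, ← e, smul_inv_smul]
    · rw [← e, smul_inv_smul]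
  generalize g • y = β at hβ
  obtain ⟨Ω', _, _, π, h₂⟩ := hA α hα β hβ
  by_cases hq : 2 ≤ qq p S (orb (Ra p G α) β)
  · obtain ⟨γ, ⟨h1, h2⟩, h4⟩ := Set.exists_ne_of_one_lt_ncard
      (s := {y | y ∈ orb (Ra p G α) β ∧ π y = π β}) (by rw [h₂.count.2.2.2.2 β (mem_orb_self _ _)]; omega) β
    refine ⟨γ, fun T hT => ?_, ne_of_mem_orb_ra hβ h1, h4⟩
    have hTR := le_ra hT.1.pgrp hT.2.1
    refine (h₂.pm.fx_iff hT.1.pgrp hTR h1).1 ?_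
    rw [h2]
    exact (h₂.pm.fx_iff hT.1.pgrp hTR (mem_orb_self _ _)).2 hT.2.2
  · obtain ⟨γ₀, h1, h2⟩ : ∃ γ₀, γ₀ ≠ α ∧ γ₀ ∉ orb (Ra p G α) β := by
      by_contra hn
      have : ({α}ᶜ : Set Ω) ⊆ orb (Ra p G α) β := fun z hz => by_contra fun r => hn ⟨z, hz, r⟩
      have h4 := qq_mono (p := p) S this
      rw [qq_compl_singleton hα] at h4
      exact hq (h.q2.trans h4)
    obtain ⟨Ω'', _, _, ρ, h₃⟩ := hA α hα γ₀ h1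
    obtain ⟨γ, h4, h5⟩ := hA.exists_mem_ln h hc hα h₃ ((h₁.fx_eq hc hp2 h₃ h3).symm ▸ h3) hβ
    exact ⟨γ, h5, ne_of_mem_orb_ra h1 h4, fun e => h2 (mem_orb_symm (e ▸ h4))⟩

/-- Take `β γ ∈ Γ₁` with `π₁ β ≠ π₁ γ` (`|π₁ '' Γ₁| ≥ p`), `β, γ ≠ α`, and `δ ∈ Ln β γ`,
`δ ≠ β, γ` (`third`).  (i) For `a b ∈ Γ₁`, `π₁ a ≠ π₁ b`: `b ∉ Ln α a` (`Bs.syl2` gives a Sylow `T` of
`R` (so of `G`, fixing `α`: `isSyl_ra`) fixing `π₁ a`, so `a`, moving `π₁ b`, so `b`).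
(ii) `α ∉ Ln β γ` (else `Ln α β = Ln β γ ∋ γ` by `EqP.ln_eq`), so `δ ≠ α`.  (iii)
`exists_mem_ln`: `δ' ∈ Γ₁ ∩ Ln α δ`, `Ln α δ' = Ln α δ`.  If `π₁ δ' = π₁ β` then `SS α δ' = SS α β`
(`Pm.fx_iff`), so `β, δ ∈ Ln α δ`, `Ln β δ = Ln α δ ∋ α` and `Ln β δ = Ln β γ`, against (ii);
likewise `π₁ δ' ≠ π₁ γ`.  (iv) `Bs.syl3`: `T` fixes `π₁ β, π₁ γ` and moves `π₁ δ'`; `T` fixes
`β, γ`, so `δ`, so `T ∈ SS α δ` fixes `δ'`, so `π₁ δ'`. -/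
theorem CA.a2b (hA : CA p S Ω) (h : P5 p S Ω) (hc : Nat.card S = p) (hα : Fx S α) (hβ : β₁ ≠ α)
    (h₁ : Sd p (Ra p G α) S (orb (Ra p G α) β₁) π₁)
    (h3 : 3 ≤ fx S (π₁ '' orb (Ra p G α) β₁)) : False := by
  have E := hA.eqp h hc hα h₁ h3
  obtain ⟨_, ⟨β, hb, rfl⟩, _, ⟨γ, hg, rfl⟩, hne⟩ := (Set.one_lt_ncard (Set.toFinite _)).1
    (show 1 < (π₁ '' orb (Ra p G α) β₁).ncard by rw [h₁.bs.ncard]; omega)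
  have fx' : ∀ {T : Subgroup G} {a : Ω}, IsSyl p T ⊤ → Fx T α → a ∈ orb (Ra p G α) β₁ →
      (Fx T (π₁ a) ↔ Fx T a) := fun a b c => h₁.pm.fx_iff a.pgrp (le_ra a.pgrp b) c
  have bg : β ≠ γ := fun e => hne (e ▸ rfl)
  have k2 : α ∉ Ln p G β γ := fun r => by
    obtain ⟨T, h1, h2, h4⟩ := h₁.bs.syl2 (by omega) (Set.mem_image_of_mem π₁ hb)
      (Set.mem_image_of_mem π₁ hg) hne
    obtain ⟨h5, h6⟩ := h.toPS.isSyl_ra.1 h1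
    have : γ ∈ Ln p G α β := by
      rw [E.ln_eq bg r (mem_ln_left β γ) (ne_of_mem_orb_ra hβ hb).symm]
      exact mem_ln_right β γ
    exact h4 ((fx' h5 h6 hg).2 (this T ⟨h5, h6, (fx' h5 h6 hb).1 h2⟩))
  obtain ⟨δ, hδ, d1, d2⟩ := hA.third h hc hα h₁ h3 bg
  have dα : δ ≠ α := fun e => k2 (e ▸ hδ)
  obtain ⟨ε, he, hε⟩ := hA.exists_mem_ln h hc hα h₁ h3 dα
  have k3 : ∀ b ∈ orb (Ra p G α) β₁, b ∈ Ln p G β γ → b ≠ δ → π₁ b ≠ π₁ ε := fun b h1 h2 h4 e => by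
    have h5 : b ∈ Ln p G α δ := fun T hT =>
      (fx' hT.1 hT.2.1 h1).1 (e ▸ (fx' hT.1 hT.2.1 he).2 (hε T hT))
    refine k2 ?_
    rw [← E.ln_eq bg h2 hδ h4, E.ln_eq dα.symm h5 (mem_ln_right α δ) h4]
    exact mem_ln_left α δ
  obtain ⟨T, h1, h2, h4, h5⟩ := h₁.bs.syl3 (by omega) (Set.mem_image_of_mem π₁ hb)
    (Set.mem_image_of_mem π₁ hg) (Set.mem_image_of_mem π₁ he) hne (k3 β hb (mem_ln_left β γ) d1.symm)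
    (k3 γ hg (mem_ln_right β γ) d2.symm)
  obtain ⟨h6, h7⟩ := h.toPS.isSyl_ra.1 h1
  exact h5 ((fx' h6 h7 he).2 (hε T ⟨h6, h7, hδ T ⟨h6, (fx' h6 h7 hb).1 h2, (fx' h6 h7 hg).1 h4⟩⟩))

end Cfsg.Agent.SFP
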