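import Cfsg.Agent.SFP.J3

/-! SFP/Cy: Sylow subgroup of prime order. -/

set_option linter.unusedSectionVars false

namespace Cfsg.Agent.SFP
open Subgroup MulAction Cfsg.Agent.PLocal.Amb
open scoped Pointwise

variable {G : Type*} [Group G] {Ω : Type*} [MulAction G Ω] [Finite G] [Finite Ω] {p : ℕ}
  [hp : Fact p.Prime] {R S N : Subgroup G} {B : Set Ω} {x y : Ω} {a b c : G}

theorem cy_card (hc : Nat.card S = p) : Nat.card (MulAut S) = p - 1 := by
  have := isCyclic_of_prime_card hc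
  rw [IsCyclic.card_mulAut, hc, Nat.totient_prime hp.out]

theorem cy_cyc (hc : Nat.card S = p) : IsCyclic (MulAut S) := by
  have := isCyclic_of_prime_card hc
  subst hc
  exact isCyclic_of_surjective _ (IsCyclic.mulAutMulEquiv S).symm.surjective

omit [Finite G] in
theorem cy_ker (ha : a ∈ 𝐍[S]) : S.normalizerMonoidHom ⟨a, ha⟩ = 1 ↔ a ∈ 𝐂[S] := by
  rw [← MonoidHom.mem_ker, normalizerMonoidHom_ker, mem_subgroupOf]

omit [Finite G] in
theorem cy_rel (hN : N ≤ 𝐍[S]) :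
    (𝐂[S]).relIndex N = Nat.card (S.normalizerMonoidHom.comp (inclusion hN)).range := by
  rw [← index_ker, relIndex]
  congr 1
  ext a
  exact (cy_ker (hN a.2)).symm

/-- `N / (N ⊓ C(S))` embeds in `MulAut S` (`Subgroup.normalizerMonoidHom`, its kernel
`normalizerMonoidHom_ker`), of order `φ(p) = p - 1` (`IsCyclic.card_mulAut`). -/
theorem relIndex_cent_dvd (hc : Nat.card S = p) (hN : N ≤ 𝐍[S]) :
    (𝐂[S]).relIndex N ∣ p - 1 := by
  rw [cy_rel hN, ← cy_card hc]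
  exact card_subgroup_dvd_card _

/-- `MulAut S` is commutative (`IsCyclic.mulAutMulEquiv`) -/
theorem comm_mem_cent (hc : Nat.card S = p) (ha : a ∈ 𝐍[S]) (hb : b ∈ 𝐍[S]) :
    a * b * a⁻¹ * b⁻¹ ∈ 𝐂[S] := by
  have := cy_cyc hc
  rw [← cy_ker (mul_mem (mul_mem (mul_mem ha hb) (inv_mem ha)) (inv_mem hb))]
  change S.normalizerMonoidHom (⟨a, ha⟩ * ⟨b, hb⟩ * ⟨a, ha⟩⁻¹ * ⟨b, hb⟩⁻¹) = 1
  simp only [map_mul, map_inv]
  rw [IsCyclic.isMulCommutative.is_comm.comm (S.normalizerMonoidHom ⟨a, ha⟩)]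
  group

/-- the image of `a` in `MulAut S` has order dividing both `l ^ k` and `p - 1` -/
theorem mem_cent_of_pe (hc : Nat.card S = p) {l : ℕ} (hl : l.Coprime (p - 1)) (ha : a ∈ 𝐍[S])
    (hpe : PE l a) : a ∈ 𝐂[S] := by
  obtain ⟨k, hk⟩ := hpe
  rw [← cy_ker ha, ← orderOf_eq_one_iff]
  refine Nat.eq_one_of_dvd_coprimes (hl.pow_left k) (orderOf_dvd_of_pow_eq_one ?_)
    (cy_card hc ▸ orderOf_dvd_natCard _)
  rw [← map_pow, ← map_one S.normalizerMonoidHom]
  exact congrArg _ (Subtype.ext hk)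

theorem le_cent_self (hc : Nat.card S = p) : S ≤ 𝐂[S] := by
  have := isCyclic_of_prime_card hc
  exact fun a ha b hb => congrArg Subtype.val (IsCyclic.isMulCommutative.is_comm.comm (⟨b, hb⟩ : S) ⟨a, ha⟩)

/-- `c • x = s • x`; for `z = t • x`: `c • z = t • c • x = t • s • x = s • z` -/
theorem exists_eq_smul_of_cent (hc : Nat.card S = p) (hcc : c ∈ 𝐂[S]) (hx : c • x ∈ orb S x) :
    ∃ s ∈ S, ∀ z ∈ orb S x, c • z = s • z := by
  obtain ⟨s, hs, e⟩ := hx
  refine ⟨s, hs, ?_⟩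
  rintro _ ⟨t, ht, rfl⟩
  rw [← mul_smul, ← hcc t ht, mul_smul, ← e, ← mul_smul, le_cent_self hc hs t ht, mul_smul]

/-- induction: `c ^ k • z = s ^ k • z` on the orbit; `s ^ p = 1` -/
theorem pow_smul_eq_of_cent (hc : Nat.card S = p) (hcc : c ∈ 𝐂[S]) (hx : c • x ∈ orb S x) :
    c ^ p • x = x := by
  obtain ⟨s, hs, e⟩ := exists_eq_smul_of_cent hc hcc hx
  have : ∀ k : ℕ, c ^ k • x = s ^ k • x := fun k => by
    induction k with
    | zero => simp
    | succ k ih => rw [pow_succ', mul_smul, ih, e _ ⟨_, pow_mem hs k, rfl⟩, ← mul_smul, ← pow_succ']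
  have h1 : s ^ p = 1 := congrArg Subtype.val (hc ▸ pow_card_eq_one' (x := (⟨s, hs⟩ : S)))
  rw [this, h1, one_smul]

theorem ncard_orb_of_card (hc : Nat.card S = p) (hx : ¬ Fx S x) : (orb S x).ncard = p := by
  refine Nat.dvd_antisymm ?_ (dvd_ncard_orb (.of_card (n := 1) (by rw [hc, pow_one])) hx)
  rw [ncard_orb, ← hc]
  exact index_dvd_card _


/-- The sign argument.  Suppose `|N : N ⊓ C(S)| = p - 1`.  Then `N → MulAut S ≃ (ZMod p)ˣ` is onto,
so some `n ∈ N` has `n * t * n⁻¹ = t ^ a` for all `t ∈ S`, with `a` a generator of `(ZMod p)ˣ`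
(equivalently: the powers `n ^ i` induce every automorphism of `S`, so for `t, t' ∈ S \ {1}` there is
`i` with `n ^ i * t * (n ^ i)⁻¹ = t'`).  Let `σ ∈ B` be moved by `S`; `n • σ` is moved, so
`n • σ = s • σ`, `s ∈ S` (`Bs.mem_orb`); replace `n` by `m = s⁻¹ * n ∈ R` (same action on `S`, `S`
abelian; still fixes the `S`-fixed points): `m • σ = σ`, `m ^ i • (t • σ) = (m^i t m^{-i}) • σ`.
`t ↦ t • σ` is a bijection `S → Σ` (`S ⊓ stabilizer σ = ⊥`).  So the permutation `τ` of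
`↥(sub h.inv)` induced by `m` has support `Σ \ {σ}` (card `p - 1`, even; `m` moves `t • σ`, `t ≠ 1`,
since otherwise all `m ^ i` fix it, but `p ≥ 3` gives `t' ∉ {1, t}`) and is a cycle, so
`sign τ = -1` (`Equiv.Perm.IsCycle.sign`), contradicting `range_le_alt`. -/
theorem Bs.sgn (h : Bs p R S B) (hp2 : p ≠ 2) (hc : Nat.card S = p) (hNR : N ≤ R)
    (hN : N ≤ 𝐍[S]) (hfix : ∀ y ∈ B, Fx S y → Fx N y) : (𝐂[S]).relIndex N ≠ p - 1 := by
  classical
  intro e
  have := Fintype.ofFinite S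
  have := Fintype.ofFinite ↥(sub h.inv)
  have SR := h.gn.syl.le
  obtain ⟨γ, hγ⟩ := (cy_cyc hc).exists_zpow_surjective
  obtain ⟨n, hn⟩ : γ ∈ (S.normalizerMonoidHom.comp (inclusion hN)).range := by
    rw [eq_top_of_card_eq _ ((cy_rel hN).symm.trans (e.trans (cy_card hc).symm))]; trivial
  obtain ⟨σ, hσ, mσ⟩ := h.exists_moved
  obtain ⟨s, hs, es⟩ := h.mem_orb hσ (h.inv _ (hNR n.2) _ hσ) mσ
    (mt (fx_smul_iff_of_mem_normalizer (hN n.2)).1 mσ)
  have mN := mul_mem (inv_mem (le_normalizer hs)) (hN n.2)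
  have hm : S.normalizerMonoidHom ⟨_, mN⟩ = γ := by
    rw [← hn, ← one_mul (MonoidHom.comp _ _ n), ← (cy_ker (inv_mem (le_normalizer hs))).2
      (inv_mem (le_cent_self hc hs))]
    exact map_mul S.normalizerMonoidHom ⟨s⁻¹, _⟩ ⟨n, hN n.2⟩
  let m : R := ⟨s⁻¹ * n, mul_mem (inv_mem (SR hs)) (hNR n.2)⟩
  let τ := MulAction.toPermHom R (sub h.inv) m
  let φ : S → sub h.inv := fun t => ⟨(t : G) • σ, h.inv _ (SR t.2) _ hσ⟩
  have gen : ∀ t : S, t ≠ 1 → ∀ u, u ∈ zpowers t := fun t ht u => mem_zpowers_of_prime_card hc ht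
  have inj : Function.Injective φ := fun t u k => by
    by_contra r
    refine mσ fun g hg => ?_
    have : (u⁻¹ * t) ∈ stabilizer S σ := by
      rw [mem_stabilizer_iff, mul_smul, inv_smul_eq_iff]; exact congrArg Subtype.val k
    exact zpowers_le.2 this (gen _ (fun q => r (inv_mul_eq_one.1 q).symm) ⟨g, hg⟩)
  have k1 : ∀ t, τ (φ t) = φ (γ t) := fun t => Subtype.ext (by
    change (s⁻¹ * n) • (t : G) • σ = ((γ t : S) : G) • σ
    rw [← hm]
    change _ = ((s⁻¹ * n) * t * (s⁻¹ * n)⁻¹) • σ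
    rw [mul_smul _ _ σ, mul_inv_rev, inv_inv, mul_smul _ s, es, inv_smul_smul, mul_smul _ (t : G)])
  have k2 : ∀ (i : ℕ) t, (τ ^ i) (φ t) = φ ((γ ^ i) t) := fun i t => by
    induction i with
    | zero => rfl
    | succ i ih => rw [pow_succ', pow_succ', Equiv.Perm.mul_apply, ih, k1]; rfl
  have k3 : ∀ t u : S, t ≠ 1 → u ≠ 1 → ∃ i : ℕ, (γ ^ i) t = u := fun t u ht hu => by
    obtain ⟨i, hi⟩ := mem_powers_iff_mem_zpowers.2 (hγ (mulEquivOfOrderOfEq (gen t ht) (gen u hu) (by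
      rw [orderOf_eq_card_of_forall_mem_zpowers (gen t ht), orderOf_eq_card_of_forall_mem_zpowers (gen u hu)])))
    exact ⟨i, (DFunLike.congr_fun hi t).trans (mulEquivOfOrderOfEq_apply_gen _ _ _)⟩
  have p3 : 2 < Fintype.card S := by
    rw [← Nat.card_eq_fintype_card, hc]; exact lt_of_le_of_ne hp.out.two_le hp2.symm
  have k4 : ∀ t : S, t ≠ 1 → τ (φ t) ≠ φ t := fun t ht k => by
    obtain ⟨u, -, h1⟩ := Finset.exists_mem_notMem_of_card_lt_card (s := {1, t}) (t := Finset.univ)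
      (Finset.card_le_two.trans_lt p3)
    obtain ⟨i, hi⟩ := k3 t u ht fun r => h1 (by simp [r])
    exact h1 (by simp [inj ((hi ▸ k2 i t).symm.trans (Equiv.Perm.pow_apply_eq_self_of_apply_eq_self k i))])
  have sup : τ.support = (Finset.univ.erase 1).image φ := by
    ext z
    simp only [Equiv.Perm.mem_support, Finset.mem_image, Finset.mem_erase, Finset.mem_univ, and_true]
    refine ⟨fun hz => ?_, by rintro ⟨t, ht, rfl⟩; exact k4 t ht⟩
    obtain ⟨t, ht, e⟩ := h.mem_orb hσ z.2 mσ fun r => hz (Subtype.ext (by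
      change (s⁻¹ * n) • (z : Ω) = z
      rw [mul_smul, hfix _ z.2 r _ n.2, r _ (inv_mem hs)]))
    obtain rfl : φ ⟨t, ht⟩ = z := Subtype.ext e
    exact ⟨_, fun r => hz (by rw [r, k1, map_one]), rfl⟩
  have cyc : τ.IsCycle := by
    obtain ⟨t, ht⟩ := Fintype.exists_ne_of_one_lt_card (by omega) (1 : S)
    refine ⟨φ t, k4 t ht, fun z hz => ?_⟩
    obtain ⟨u, hu, rfl⟩ := Finset.mem_image.1 (sup ▸ Equiv.Perm.mem_support.2 hz)
    obtain ⟨i, hi⟩ := k3 t u ht (Finset.mem_erase.1 hu).1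
    exact ⟨i, by rw [zpow_natCast, k2, hi]⟩
  have := Equiv.Perm.mem_alternatingGroup.1 (range_le_alt h.gn hp2 h.inv ⟨m, rfl⟩)
  rw [cyc.sign, sup, Finset.card_image_of_injective _ inj, Finset.card_erase_of_mem (Finset.mem_univ _),
    Finset.card_univ, ← Nat.card_eq_fintype_card, hc, (hp.out.even_sub_one hp2).neg_one_pow] at this
  exact absurd this (by decide)


end Cfsg.Agent.SFP
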