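import Cfsg.Agent.SFP.Loc
import Cfsg.Agent.SFP.Cy

/-! SFP/A2n: case A, `|S| = p`, all bases have at most two fixed points. -/

namespace Cfsg.Agent.SFP
open Subgroup MulAction Cfsg.Agent.PLocal.Amb
open scoped Pointwise

universe u v

variable {G : Type u} [Group G] {Ω : Type v} [MulAction G Ω] [Finite G] [Finite Ω] {p : ℕ}
  [hp : Fact p.Prime] {S : Subgroup G} {α : Ω}

/-- degree 22.  `F` = fixed points of `S` `= orb 𝐍[S] α` (`exists_norm`, `inv_fixed`) has 7 points,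
so some 7-element `x ∈ 𝐍[S]` moves `α` (`exists_pe_moving` for the prime 7); `x ∈ 𝐂[S]`
(`mem_cent_of_pe`).  `Q = zpowers x`, `M = Fᶜ` (15 points, `Q`-invariant): `fx Q M + 7 k = 15`
(`ncard_eq`), and `M' = {y ∈ M | Fx Q y}` is `S`-invariant (`inv_fixed`, `S ≤ 𝐍[Q]`) without
`S`-fixed points, so `5 ∣ fx Q M` (`dvd_mv`): `fx Q M = 15`, `Q` fixes `M` pointwise.
`orb Q α ⊆ F` has `≥ 7` points (`le_ncard_orb`), so `= F`.  `jord` (`R = ⊤`, `A = M`) gives
`Ktr ⊤ univ 16`; `Ktr.mono`, `not_ktr` (`5 ≤ 7`). -/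
theorem PS.a2s (h : PS p S Ω) (h5 : p = 5) (hc : Nat.card S = p)
    (hq : qq p S (Set.univ : Set Ω) = 3) (hf : fx S (Set.univ : Set Ω) = 7) : False := by
  subst h5
  have h7 : Fact (Nat.Prime 7) := ⟨by norm_num⟩
  obtain ⟨α, hα⟩ := h.f1
  have hF : orb 𝐍[S] α = {y | Fx S y} :=
    (orb_subset (inv_fixed le_rfl) hα).antisymm fun y hy => h.exists_norm hα hy
  have cF : {y : Ω | Fx S y}.ncard = 7 := by rw [← hf, fx]; simp
  have cU : (Set.univ : Set Ω).ncard = 22 := by rw [ncard_eq h.isPGroup (inv_univ S), hq, hf]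
  have cM : {y : Ω | Fx S y}ᶜ.ncard = 15 := by
    have := Set.ncard_add_ncard_compl {y : Ω | Fx S y}
    rw [← Set.ncard_univ, cU, cF] at this
    omega
  obtain ⟨x, xN, xp, xm⟩ := exists_pe_moving (p := 7) (N := 𝐍[S]) (x := α) (by rw [hF, cF])
  have xC := mem_cent_of_pe hc (l := 7) (by norm_num) xN xp
  have hQ := xp.isPGroup_zpowers
  have QN : zpowers x ≤ 𝐍[S] := zpowers_le.2 xN
  have iF : Inv (zpowers x) {y : Ω | Fx S y} := inv_fixed QN
  have e1 := ncard_eq hQ iF.compl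
  have iM : Inv S ({y : Ω | Fx S y}ᶜ ∩ {y | Fx (zpowers x) y}) := (inv_fixed le_normalizer).compl.inter
    (inv_fixed ((le_centralizer_iff.1 (zpowers_le.2 xC)).trans (centralizer_le_normalizer' _)))
  have e2 : 5 ∣ fx (zpowers x) {y : Ω | Fx S y}ᶜ := by
    have := dvd_mv h.isPGroup iM
    rwa [mv, show {y | y ∈ {y : Ω | Fx S y}ᶜ ∩ {y | Fx (zpowers x) y} ∧ ¬ Fx S y} =
      {y | y ∈ {y : Ω | Fx S y}ᶜ ∧ Fx (zpowers x) y} from Set.ext fun y => and_iff_left_of_imp fun k => k.1] at this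
  have e3 : mv (zpowers x) {y : Ω | Fx S y}ᶜ = 0 := by
    have := fx_add_mv (zpowers x) {y : Ω | Fx S y}ᶜ
    omega
  have e4 : ∀ y ∈ {y : Ω | Fx S y}ᶜ, Fx (zpowers x) y := fun y hy =>
    by_contra fun n => mv_ne_zero_iff.2 ⟨y, hy, n⟩ e3
  have e5 : orb (zpowers x) α = {y | Fx S y} := Set.eq_of_subset_of_ncard_le (orb_subset iF hα)
    (cF.trans_le (le_ncard_orb hQ fun k => xm (k x (mem_zpowers x))))
  have d : orb (⊤ : Subgroup G) α \ {y : Ω | Fx S y}ᶜ = {y | Fx S y} := by rw [h.orb_top]; simp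
  have k := jord (R := ⊤) (x := α) (A := {y : Ω | Fx S y}ᶜ) (by rw [h.orb_top]; exact h.prm)
    (by rw [h.orb_top]; exact Set.subset_univ _) (by rw [d, cF]; exact h7.out) fun y hy z hz => by
      rw [d, ← e5] at hy hz
      obtain ⟨g, hg, e⟩ := exists_smul_of_mem_orb hy hz
      exact ⟨g, trivial, fun a ha => e4 a ha g hg, e⟩
  rw [h.orb_top, cM] at k
  exact not_ktr h.gn.syl (inv_univ _) (by rw [mv_eq h.isPGroup (inv_univ S), hq]; norm_num) (by omega)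
    (k.mono (by norm_num))

/-- `sum_orbits` on `{α}ᶜ` gives `f - 1 ≤ 2 q`; with `bad`, `f_ge`, `t_pos`, `p5`:
`(p-3) q ≤ e + 1 ≤ 2p - 2 - t`, `2 q ≥ p + t - 1`, so `p = 5` (`p = 6` is not prime; `p ≥ 7` gives
`q ≥ 4`, `4 (p-3) ≤ 2p - 3`), `q = 3`, `f ∈ {6, 7}`.  `f = 7`: `a2s`.  `f = 6`: some orbit has
`qq < fx` (else `sum_orbits` gives `5 ≤ 3`) and some orbit has `fx < 2 qq` (else `6 ≤ 5`); by
`Sd.count` their bases have `f' = 2` and `f'' ≤ 1`, against `Bs.cmp5`. -/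
theorem CA.a2n (hA : CA p S Ω) (h : P5 p S Ω) (hc : Nat.card S = p) (hα : Fx S α)
    (H : ∀ β, β ≠ α → fx S (orb (Ra p G α) β) ≤ 2 * qq p S (orb (Ra p G α) β)) : False := by
  have so := fun a b => sum_orbits h.isPGroup (le_ra h.isPGroup hα) (inv_ra_compl p α) a b
  simp only [qq_compl_singleton hα] at so
  have f1 := fx_compl_singleton hα
  have h1 := so 2 (-1) fun β hβ => by have := H β hβ; omega
  have h2 := h.bad
  have h3 := h.f_ge
  have h4 := h.t_pos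
  have h5 := h.p5
  rw [ee] at h2
  have h6 : p = 5 := by
    by_contra n
    have : p ≠ 6 := fun e => absurd (e ▸ hp.out) (by norm_num)
    have a : (7 : ℤ) ≤ p := by omega
    have b : (4 : ℤ) ≤ qq p S (Set.univ : Set Ω) := by omega
    nlinarith [mul_nonneg (sub_nonneg.2 a) (sub_nonneg.2 b)]
  have st : ∀ β, β ≠ α → ∃ (Ω' : Type v) (_ : MulAction G Ω') (_ : Finite Ω') (B : Set Ω'),
      Bs p (Ra p G α) S B ∧ 1 ≤ qq p S (orb (Ra p G α) β) ∧
        fx S (orb (Ra p G α) β) = qq p S (orb (Ra p G α) β) * fx S B := fun β hβ =>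
    let ⟨Ω', i, j, _, k⟩ := hA α hα β hβ
    ⟨Ω', i, j, _, k.bs, k.count.1, k.count.2.1⟩
  have hq : qq p S (Set.univ : Set Ω) = 3 := by subst h6; omega
  have hf : fx S (Set.univ : Set Ω) = 6 := by
    have : fx S (Set.univ : Set Ω) ≠ 7 := h.toPS.a2s h6 hc hq
    subst h6; omega
  obtain ⟨β, hβ, b⟩ : ∃ β, β ≠ α ∧ qq p S (orb (Ra p G α) β) < fx S (orb (Ra p G α) β) := by
    by_contra! n
    have := so 1 (-1) fun β hβ => by have := n β hβ; omega
    omega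
  obtain ⟨γ, hγ, c⟩ : ∃ β, β ≠ α ∧ fx S (orb (Ra p G α) β) < 2 * qq p S (orb (Ra p G α) β) := by
    by_contra! n
    have := so (-2) 1 fun β hβ => by have := n β hβ; omega
    omega
  obtain ⟨_, _, _, B, b1, b2, b3⟩ := st β hβ
  obtain ⟨_, _, _, C, c1, c2, c3⟩ := st γ hγ
  have b4 := H β hβ
  have := Bs.cmp5 h6 hc b1 c1 (by
    rw [b3] at b b4
    exact le_antisymm (by nlinarith) (by nlinarith))
  nlinarith

end Cfsg.Agent.SFP
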