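import Cfsg.Agent.SFP.Jor

/-! SFP/J: structure of bases `Bs` and standard orbits `Sd`. -/

namespace Cfsg.Agent.SFP
open Subgroup MulAction Cfsg.Agent.PLocal.Amb
open scoped Pointwise

variable {G : Type*} [Group G] {Ω : Type*} [MulAction G Ω] {Ω' : Type*} [MulAction G Ω']
  [Finite G] [Finite Ω] [Finite Ω'] {p : ℕ} [hp : Fact p.Prime] {R S W D : Subgroup G}
  {B Γ : Set Ω} {B' : Set Ω'} {x y z σ : Ω} {π : Ω → Ω'}

theorem Bs.inv (h : Bs p R S B) : Inv R B := by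
  obtain ⟨x, rfl⟩ := h.isOrb
  exact inv_orb R x
theorem Bs.eq_orb (h : Bs p R S B) (hy : y ∈ B) : B = orb R y := by
  obtain ⟨x, rfl⟩ := h.isOrb
  exact (orb_eq_of_mem hy).symm
theorem Bs.ncard (h : Bs p R S B) : B.ncard = p + fx S B := by
  rw [← fx_add_mv S B, h.mv_eq, add_comm]
theorem Bs.exists_moved (h : Bs p R S B) : ∃ σ ∈ B, ¬ Fx S σ :=
  mv_ne_zero_iff.1 (by rw [h.mv_eq]; exact hp.out.ne_zero)
theorem Bs.not_fx (h : Bs p R S B) (hy : y ∈ B) : ¬ Fx R y := fun k => by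
  obtain ⟨σ, hσ, hm⟩ := h.exists_moved
  rw [h.eq_orb hy, fx_iff_orb.1 k] at hσ
  exact hm (hσ ▸ k.mono h.gn.syl.le)
theorem Bs.mem_orb (h : Bs p R S B) (hx : x ∈ B) (hy : y ∈ B) (hx' : ¬ Fx S x) (hy' : ¬ Fx S y) :
    y ∈ orb S x :=
  mem_orb_of_mv h.gn.syl.pgrp (h.inv.mono h.gn.syl.le) h.mv_eq hx hy hx' hy'
theorem Bs.ncard_orb (h : Bs p R S B) (hσ : σ ∈ B) (hm : ¬ Fx S σ) : (orb S σ).ncard = p := by
  have e : orb S σ = {x | x ∈ B ∧ ¬ Fx S x} := Set.ext fun y =>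
    ⟨fun hy => ⟨orb_subset (h.inv.mono h.gn.syl.le) hσ hy, not_fx_of_mem_orb hm hy⟩,
      fun hy => h.mem_orb hσ hy.1 hm hy.2⟩
  rw [e]
  exact h.mv_eq
/-- J0.  `U = S ⊓ stabilizer σ` has index `p` in the `p`-group `S` (`ncard_orb`), so it is normal in
`S` (`lt_inf_normalizer` + prime index, or `Subgroup.normal_of_index_eq_minFac_card`), hence
fixes `orb S σ` = all moved points of `B` (`inv_fixed`), hence all of `B`. -/
theorem Bs.j0 (h : Bs p R S B) (hσ : σ ∈ B) (hm : ¬ Fx S σ) :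
    S ⊓ stabilizer G σ = S ⊓ kr R B := by
  refine le_antisymm (le_inf inf_le_left (le_kr_iff.2 ⟨inf_le_left.trans h.gn.syl.le,
    fun y hy => ?_⟩)) (inf_le_inf_left _ (fx_iff_le.1 (fx_kr hσ)))
  by_cases k : Fx S y
  · exact k.mono inf_le_left
  have f : Fx (S ⊓ stabilizer G σ) σ := fx_iff_le.2 inf_le_right
  by_cases e : y = σ
  · exact e ▸ f
  refine fx_of_small (h.gn.syl.pgrp.to_le inf_le_left)
    (((inv_orb S σ).mono inf_le_left).diff f.inv_singleton) ?_ ⟨h.mem_orb hσ hy hm k, e⟩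
  rw [← h.ncard_orb hσ hm]
  exact Set.ncard_sdiff_singleton_lt_of_mem (mem_orb_self S σ)
theorem Bs.relIndex_kr (h : Bs p R S B) : (S ⊓ kr R B).relIndex S = p := by
  obtain ⟨σ, hσ, hm⟩ := h.exists_moved
  rw [← h.j0 hσ hm, inf_relIndex_left, ← SFP.ncard_orb, h.ncard_orb hσ hm]
/-- every `W`-orbit in `B` contains a point moved by `S` (`Gn.exists_moved`), and these form one
`S`-orbit -/
theorem Bs.jtr (h : Bs p R S B) (hW : Gn p W S) (hWR : W ≤ R) (hno : ∀ y ∈ B, ¬ Fx W y) :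
    ∀ y ∈ B, ∀ z ∈ B, z ∈ orb W y := fun y hy z hz => by
  obtain ⟨y', h1, h2⟩ := hW.exists_moved (hno y hy)
  obtain ⟨z', h3, h4⟩ := hW.exists_moved (hno z hz)
  have i := h.inv.mono hWR
  exact mem_orb_trans (mem_orb_trans h1 (orb_mono hW.syl.le _
    (h.mem_orb (orb_subset i hy h1) (orb_subset i hz h3) h2 h4))) (mem_orb_symm h3)
/-- map (fixed point, moved point) to `(x, y)` by `Ktr.two`, `T = cj(g, S)` -/
theorem Bs.syl2 (h : Bs p R S B) (h1 : 1 ≤ fx S B) (hx : x ∈ B) (hy : y ∈ B) (hxy : x ≠ y) :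
    ∃ T, IsSyl p T R ∧ Fx T x ∧ ¬ Fx T y := by
  obtain ⟨σ, hσ, hm⟩ := h.exists_moved
  obtain ⟨a, ha, hf⟩ := fx_ne_zero_iff.1 (by omega : fx S B ≠ 0)
  obtain ⟨g, hg, rfl, rfl⟩ := h.ktr.two (by omega) (fun e : a = σ => hm (e ▸ hf)) hxy ha hσ hx hy
  exact ⟨_, h.gn.syl.cj_of_mem hg, fx_cj.2 hf, mt fx_cj.1 hm⟩
theorem Bs.syl3 (h : Bs p R S B) (h2 : 2 ≤ fx S B) (hx : x ∈ B) (hy : y ∈ B) (hz : z ∈ B)
    (hxy : x ≠ y) (hxz : x ≠ z) (hyz : y ≠ z) :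
    ∃ T, IsSyl p T R ∧ Fx T x ∧ Fx T y ∧ ¬ Fx T z := by
  obtain ⟨σ, hσ, hm⟩ := h.exists_moved
  obtain ⟨a, ha, b, hb, hab⟩ := (Set.one_lt_ncard (s := {x | x ∈ B ∧ Fx S x})).1 h2
  obtain ⟨g, hg, rfl, rfl, rfl⟩ := h.ktr.three (by omega) hab (fun e : a = σ => hm (e ▸ ha.2))
    (fun e : b = σ => hm (e ▸ hb.2)) hxy hxz hyz ha.1 hb.1 hσ hx hy hz
  exact ⟨_, h.gn.syl.cj_of_mem hg, fx_cj.2 ha.2, fx_cj.2 hb.2, mt fx_cj.1 hm⟩
/-- J2.  By `Prm.normal` assume `D` transitive on `B`.  Let `F` = fixed points of `S` in `B`,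
`f = |F| ≥ 2`, `Σ = orb S σ` the `p` moved points.  (1) `c ∈ D ⊓ 𝐂[S]` fixes `Σ` pointwise:
`zpowers c` has order prime to `p` and preserves `Σ`; the `zpowers c`-orbits on `Σ` are permuted
by `S`; simplest: `D' = D ⊓ 𝐂[S]`, `|orb D' σ|` divides `card D` and equals `1` or `p`
(`Prm.normal` for the group `D' ⊔ S` on `Σ`, primitive by `prm_of_prime`; transitive would give
`p ∣ card D'`), so `D'` fixes `Σ`.  (2) by `cot`, for `a b ∈ F` some `c ∈ D` fixes `B \ F`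
pointwise and maps `a` to `b`.  (3) for `u v ∈ Σ` choose `A ⊆ Σ`, `u, v ∈ A`, `|A| = f` (`f ≤ p`),
`g ∈ R` with `g • F = A` (`Ktr.set`, `Bs.ktr`); conjugating (2) by `g` gives `c ∈ D` fixing
`B \ A ⊇ F` with `c • u = v`.  So `D₁ = kr D F` has `orb D₁ σ = Σ` of size `p`, and
`p ∣ card D₁ ∣ card D` (`ncard_orb`, `relIndex_dvd_card`), contradiction. -/
theorem Bs.j2 (h : Bs p R S B) (h2 : 2 ≤ fx S B) (hD : D ≤ R) (hn : R ≤ 𝐍[D])
    (hc : ¬ p ∣ Nat.card D) : D ≤ kr R B := by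
  refine (h.prm.normal h.inv hD hn).resolve_right fun tr => hc ?_
  have hS := h.gn.syl
  -- (1)
  have k1 : ∀ c ∈ D, c ∈ 𝐂[S] → ∀ u ∈ B, ¬ Fx S u → c • u = u := fun c hcD hcS u hu hm => by
    obtain ⟨s, hs, e⟩ := h.mem_orb hu (h.inv c (hD hcD) u hu) hm
      (mt (fx_smul_iff_of_mem_normalizer (centralizer_le_normalizer' S hcS)).1 hm)
    have e2 : ∀ n : ℕ, c ^ n • u = s ^ n • u := fun n => by
      induction n with
      | zero => simp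
      | succ n ih =>
        rw [pow_succ' c, mul_smul, ih, ← mul_smul,
          ← mem_centralizer_iff.1 hcS _ (pow_mem hs n), mul_smul, ← e, ← mul_smul, pow_succ]
    obtain ⟨m, hm⟩ := pe_of_mem hS.pgrp hs
    refine mem_stabilizer_iff.1 (mem_of_pow_mem_of_coprime (n := p ^ m) ?_ ?_)
    · rw [mem_stabilizer_iff, e2, hm, one_smul]
    · exact (((Nat.Prime.coprime_iff_not_dvd hp.out).2 fun k =>
        hc (k.trans (D.orderOf_dvd_natCard hcD))).symm).pow_right m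
  -- (3)
  obtain ⟨σ, hσ, hm⟩ := h.exists_moved
  have k2 : ∀ v ∈ B, ¬ Fx S v → v ∈ orb (kr D {x | x ∈ B ∧ Fx S x}) σ := fun v hv hm' => by
    obtain ⟨A, a1, a2, a3⟩ := Set.exists_subsuperset_card_eq (s := {σ, v})
      (t := {x | x ∈ B ∧ ¬ Fx S x}) (n := fx S B)
      (Set.insert_subset ⟨hσ, hm⟩ (Set.singleton_subset_iff.2 ⟨hv, hm'⟩))
      (((Set.ncard_insert_le _ _).trans (by rw [Set.ncard_singleton])).trans h2)
      (h.fx_lt.le.trans h.mv_eq.ge)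
    obtain ⟨g, hg, e⟩ := h.ktr.set (A := {x | x ∈ B ∧ Fx S x}) (B := A) (fun _ k => k.1)
      (fun _ k => (a2 k).1) a3.symm (Nat.le_succ _)
    have m : ∀ y, y ∈ A ↔ g⁻¹ • y ∈ B ∧ Fx S (g⁻¹ • y) := fun y => by
      rw [← e, Set.mem_smul_set_iff_inv_smul_mem]; rfl
    have m1 := (m σ).1 (a1 (Set.mem_insert _ _))
    have m2 := (m v).1 (a1 (Set.mem_insert_of_mem _ rfl))
    obtain ⟨c, c1, c2, c3⟩ := cot hS.pgrp (hS.le.trans hn) hc m1.2 m2.2 (tr _ m1.1 _ m2.1)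
    refine ⟨g * c * g⁻¹, mem_kr.2 ⟨conj_mem_of_mem_normalizer (hn hg) c1, fun y hy => ?_⟩, ?_⟩
    · have b := h.inv _ (inv_mem hg) y hy.1
      rw [mul_smul, mul_smul, k1 c c1 c2 _ b fun k => (a2 ((m y).2 ⟨b, k⟩)).2 hy.2, smul_inv_smul]
    · rw [mul_smul, mul_smul, c3, smul_inv_smul]
  have k3 : orb (kr D {x | x ∈ B ∧ Fx S x}) σ = {x | x ∈ B ∧ ¬ Fx S x} := by
    refine Set.ext fun v => ⟨fun hv => ?_, fun hv => k2 v hv.1 hv.2⟩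
    have b := orb_subset (h.inv.mono ((kr_le _ _).trans hD)) hσ hv
    refine ⟨b, fun k => hm ?_⟩
    rw [(fx_kr (R := D) (Γ := {x | x ∈ B ∧ Fx S x}) ⟨b, k⟩).eq_of_mem_orb hv]
    exact k
  have k4 := SFP.ncard_orb (kr D {x | x ∈ B ∧ Fx S x}) σ
  rw [k3] at k4
  have k5 : p = _ := h.mv_eq.symm.trans k4
  rw [k5]
  exact (relIndex_dvd_card _ _).trans (card_dvd_of_le (kr_le _ _))
/-- `S ⊓ kr R Γ` is a proper subgroup of `S` (prime order), so `⊥`; `isSyl_kr`, `IsSyl.eq_bot_iff` -/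
theorem not_dvd_kr (hc : Nat.card S = p) (hS : IsSyl p S R) (h : Inv R Γ) (hm : mv S Γ ≠ 0) :
    ¬ p ∣ Nat.card (kr R Γ) := by
  refine (isSyl_kr hS h).eq_bot_iff.1 ?_
  have d : Nat.card ↥(S ⊓ kr R Γ) ∣ p := hc ▸ card_dvd_of_le inf_le_left
  rcases (Nat.dvd_prime hp.out).1 d with k | k
  · exact card_eq_one.1 k
  · obtain ⟨x, hx, hx'⟩ := mv_ne_zero_iff.1 hm
    have e : S ⊓ kr R Γ = S := eq_of_le_of_card_ge inf_le_left (by rw [k, hc])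
    exact (hx' ((fx_kr hx).mono (e.ge.trans inf_le_right))).elim
theorem Bs.cmp (hc : Nat.card S = p) (h : Bs p R S B) (h' : Bs p R S B') (h2 : 2 ≤ fx S B) :
    kr R B' ≤ kr R B :=
  h.j2 h2 (kr_le _ _) (le_normalizer_kr h'.inv)
    (not_dvd_kr hc h.gn.syl h'.inv (by rw [h'.mv_eq]; exact hp.out.ne_zero))

/-- J4 (`Pm.fx_iff`) -/
theorem Sd.j4 (h : Sd p R S Γ π) (hx : x ∈ Γ) : Fx (S ⊓ kr R (π '' Γ)) x :=
  (h.pm.fx_iff (h.bs.gn.syl.pgrp.to_le inf_le_left) (inf_le_left.trans h.bs.gn.syl.le) hx).1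
    ((fx_kr (Set.mem_image_of_mem π hx)).mono inf_le_right)
/-- `≥`: J4; `≤`: `π σ` is moved by `S` (`Pm.fx_iff`), equivariance and `Bs.j0` -/
theorem Sd.stab (h : Sd p R S Γ π) (hσ : σ ∈ Γ) (hm : ¬ Fx S σ) :
    S ⊓ stabilizer G σ = S ⊓ kr R (π '' Γ) := by
  refine le_antisymm ?_ (le_inf inf_le_left (fx_iff_le.1 (h.j4 hσ)))
  rw [← h.bs.j0 (Set.mem_image_of_mem π hσ)
    (mt (h.pm.fx_iff h.bs.gn.syl.pgrp h.bs.gn.syl.le hσ).1 hm)]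
  refine fun g hg => mem_inf.2 ⟨hg.1, mem_stabilizer_iff.2 ?_⟩
  rw [← h.pm.eqv g (h.bs.gn.syl.le hg.1) σ hσ, mem_stabilizer_iff.1 hg.2]
/-- Frattini.  `K = kr R (π '' Γ)`, `U = S ⊓ K` Sylow in `K` (`isSyl_kr`).  Let `τ ∈ π '' Γ` be
moved by `S`, `g • τ = π x`, `g = k * n` with `k ∈ K`, `n ∈ 𝐍[U]` (`IsSyl.frattini`), `n ∈ R`;
`π x = k • n • τ = n • τ` is moved by `cj(n,S)` (`fx_cj`), hence so is `x` (`Pm.fx_iff`). -/
theorem Sd.fratt (h : Sd p R S Γ π) (hx : x ∈ Γ) :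
    ∃ n ∈ R, n ∈ 𝐍[S ⊓ kr R (π '' Γ)] ∧ ¬ Fx cj(n, S) x := by
  have hS := h.bs.gn.syl
  obtain ⟨τ, hτ, hm⟩ := h.bs.exists_moved
  have hx' := Set.mem_image_of_mem π hx
  rw [h.bs.eq_orb hτ] at hx'
  obtain ⟨g, hg, e⟩ := hx'
  obtain ⟨k, hk, n, hn, rfl⟩ := (isSyl_kr hS h.bs.inv).frattini (le_normalizer_kr h.bs.inv hg)
  have nR : n ∈ R := (R.mul_mem_cancel_left (kr_le _ _ hk)).1 hg
  refine ⟨n, nR, hn, fun f => hm ?_⟩
  have hT := hS.cj_of_mem nR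
  have f' := (h.pm.fx_iff hT.pgrp hT.le hx).2 f
  rw [← e, mul_smul, (mem_kr.1 hk).2 _ (h.bs.inv n nR τ hτ)] at f'
  exact fx_cj.1 f'

end Cfsg.Agent.SFP
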