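import Cfsg.Agent.SFP.Loc
import Cfsg.Agent.SFP.J

/-! SFP/B1a: case B (one non-standard orbit), the Sylow subgroup has order `p`. -/

namespace Cfsg.Agent.SFP
open Subgroup MulAction Cfsg.Agent.PLocal.Amb
open scoped Pointwise

universe u v

variable {G : Type u} [Group G] {Ω : Type v} [MulAction G Ω] [Finite G] [Finite Ω] {p : ℕ}
  [hp : Fact p.Prime] {S : Subgroup G} {α β : Ω}

omit [Finite G] in
theorem b1a_max {U V : Subgroup G} (hU : U.relIndex S = p) (h1 : U ≤ V) (h2 : V ≤ S) :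
    V = U ∨ V = S := by
  have e := relIndex_mul_relIndex U V S h1 h2
  rw [hU] at e
  rcases hp.out.eq_one_or_self_of_dvd _ ⟨_, e.symm⟩ with k | k
  · exact .inl ((relIndex_eq_one.1 k).antisymm h1)
  · rw [k] at e
    exact .inr (h2.antisymm (relIndex_eq_one.1 (Nat.eq_of_mul_eq_mul_left hp.out.pos
      (e.trans (mul_one p).symm))))

/-- `U' = S ⊓ kr R' (π '' Γ')` has index `p` in `S` (`Bs.relIndex_kr`) and fixes `Γ' ⊇ Γ₀`
(`Sd.j4`), so `U' ≤ K₀ = kr R Γ₀`, `U' ≠ U`, so `U ⊔ U' = S` (prime index), `S ≤ L ⊔ K₀`, and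
`R ≤ L ⊔ K₀` (`Gn.le_of_normal`, `le_normalizer_sup`, `le_normalizer_kr`).  Each `g ∈ R` is
`l * k` (`mem_sup_of_le_normalizer_right`), so `π (g • x) = l • π x` on `Γ₀`, and
`Prm.inj_or_const π`: constant gives `S` fixes `π x` so `x` for all `x ∈ Γ₀` (`Pm.fx_iff`), but
`qq ≥ 2`; injective maps the `≥ 2p` moved points of `Γ₀` into the `p` moved points of
`π '' Γ'`. -/
theorem b1ns {Ω' : Type*} [MulAction G Ω'] [Finite Ω'] {π : Ω → Ω'} {R R' L U : Subgroup G}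
    {Γ₀ Γ' : Set Ω} (hg : Gn p R S) (hprm : Prm R Γ₀) (hinv : Inv R Γ₀) (hq : 2 ≤ qq p S Γ₀)
    (hL : L ≤ R) (hLn : R ≤ 𝐍[L]) (hL' : L ≤ R') (hUL : U ≤ L) (hUS : U ≤ S)
    (hU : U.relIndex S = p) (hmv : ∃ x ∈ Γ₀, ¬ Fx U x) (hsub : Γ₀ ⊆ Γ')
    (hs : Sd p R' S Γ' π) : False := by
  have pg := hg.syl.pgrp
  have SR := hg.syl.le
  have SR' := hs.bs.gn.syl.le
  have iS := hinv.mono SR
  have fU : ∀ x ∈ Γ₀, Fx (S ⊓ kr R' (π '' Γ')) x := fun x hx => hs.j4 (hsub hx)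
  have a : S ≤ L ⊔ kr R Γ₀ := by
    rcases b1a_max hs.bs.relIndex_kr (le_sup_right (a := U)) (sup_le hUS inf_le_left) with k | k
    · obtain ⟨x, x1, x2⟩ := hmv
      exact (x2 ((fU x x1).mono (le_sup_left.trans k.le))).elim
    · exact k.ge.trans (sup_le_sup hUL (le_kr_iff.2 ⟨inf_le_left.trans SR, fU⟩))
  have b := hg.le_of_normal (le_normalizer_sup hLn (le_normalizer_kr hinv)) a
  rcases hprm.inj_or_const π (fun g hg x hx y hy e => by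
    obtain ⟨l, hl, k, hk, rfl⟩ :=
      (mem_sup_of_le_normalizer_right (hL.trans (le_normalizer_kr hinv))).1 (b hg)
    rw [mul_smul, mul_smul, fx_kr hx k hk, fx_kr hy k hk, hs.pm.eqv l (hL' hl) x (hsub hx),
      hs.pm.eqv l (hL' hl) y (hsub hy), e]) with k | k
  · have c : mv S Γ₀ ≤ mv S (π '' Γ') := Set.ncard_le_ncard_of_injOn π
      (fun x hx => ⟨⟨x, hsub hx.1, rfl⟩, mt (hs.pm.fx_iff pg SR' (hsub hx.1)).1 hx.2⟩)
      (k.mono fun x hx => hx.1) (Set.toFinite _)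
    rw [hs.bs.mv_eq, mv_eq pg iS] at c
    have := Nat.mul_le_mul_left p hq
    have := hp.out.pos
    omega
  · obtain ⟨x, x1, x2⟩ := (one_le_qq_iff pg iS).1 (by omega)
    exact x2 ((hs.pm.fx_iff pg SR' (hsub x1)).1 fun s hs' => by
      rw [← hs.pm.eqv s (SR' hs') x (hsub x1), k _ (iS s hs' x x1) x x1])

/-- the equivariant map of the first case -/
def b1aZ (p : ℕ) (G : Type u) [Group G] {Ω : Type v} [MulAction G Ω] (x : Ω) : Set Ω :=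
  {y | y ≠ x ∧ ∃ T : Subgroup G, IsSyl p T ⊤ ∧ Fx T x ∧ (p : ℤ) - 1 ≤ ee p T (orb (Ra p G x) y)}

omit [Finite G] [Finite Ω] hp in
theorem b1aZ_mem (g : G) {x y : Ω} (h : y ∈ b1aZ p G x) : g • y ∈ b1aZ p G (g • x) := by
  obtain ⟨a, T, b, c, d⟩ := h
  refine ⟨mt (smul_left_cancel_iff g).1 a, cj(g, T), cj_top g ▸ b.cj g, fx_cj.2 c, ?_⟩
  rwa [orb_ra_smul, ee_cj]

omit [Finite G] [Finite Ω] hp in
theorem b1aZ_smul (g : G) (x : Ω) : b1aZ p G (g • x) = g • b1aZ p G x := by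
  ext y
  obtain ⟨y, rfl⟩ := MulAction.surjective g y
  rw [Set.smul_mem_smul_set_iff]
  exact ⟨fun h => by simpa using b1aZ_mem g⁻¹ h, b1aZ_mem g⟩

theorem P5.b1aZ_eq (h : P5 p S Ω) (hα : Fx S α) (hβ : β ≠ α)
    (he : (p : ℤ) - 1 ≤ ee p S (orb (Ra p G α) β)) : b1aZ p G α = orb (Ra p G α) β := by
  ext y
  refine ⟨fun ⟨a, T, b, c, d⟩ => h.mem_of_big hα hβ a he ?_, fun hy =>
    ⟨ne_of_mem_orb_ra hβ hy, S, h.gn.syl, hα, by rwa [orb_eq_of_mem hy]⟩⟩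
  rwa [ee_syl_eq (gn_ra h.gn.syl hα).syl (gn_ra b c).syl (inv_orb _ _)] at d

theorem P5.b1a_key (h : P5 p S Ω) (hα : Fx S α) (hβ : β ≠ α)
    (hP : PT p (Ra p G α) S (orb (Ra p G α) β)) {γ₁ : Ω} (h1 : γ₁ ≠ α)
    (h2 : γ₁ ∉ orb (Ra p G α) β) :
    ∃ U ≤ S, U.relIndex S = p ∧ Fx U γ₁ ∧ ∀ x ∈ orb (Ra p G α) β, Fx U x := by
  obtain ⟨⟨Ω', _, _, π, hs⟩, hn⟩ := h.bnum hα hβ hP h1 h2
  refine ⟨_, inf_le_left, hs.bs.relIndex_kr, hs.j4 (mem_orb_self _ _), ?_⟩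
  by_contra! mv
  have pg := h.toPS.isPGroup
  set K := kr (Ra p G α) (π '' orb (Ra p G α) γ₁) with hK
  have LR : og p K ≤ Ra p G α := (og_le p K).trans (kr_le _ _)
  have Ln : Ra p G α ≤ 𝐍[og p K] :=
    (le_normalizer_kr hs.bs.inv).trans (normalizer_le_normalizer_og p K)
  have UL : S ⊓ K ≤ og p K := le_og_of_isPGroup (pg.to_le inf_le_left) inf_le_right
  obtain k | tr := hP.prm.normal (inv_orb _ _) LR Ln
  · obtain ⟨x, x1, x2⟩ := mv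
    exact x2 ((fx_kr x1).mono (UL.trans k))
  obtain ⟨γ, g1, g2⟩ : ∃ γ ∈ orb (Ra p G α) γ₁, Fx S γ := by
    obtain ⟨c1, c2, -, c3, -⟩ := hs.count
    rw [← fx_ne_zero_iff, c2]
    refine mul_ne_zero (by omega) fun e => ?_
    have t1 := h.t_pos
    have t2 := Nat.mod_lt (fx S (orb (Ra p G α) β)) hp.out.pos
    have t3 := h.p5
    rw [c3, e] at hn
    zify at t1 t2 t3 c1
    push_cast at hn t1 t2
    nlinarith
  have ga := ne_of_mem_orb_ra h1 g1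
  have bg : β ≠ γ := fun e => h2 (mem_orb_symm (e ▸ g1))
  have Lg : og p K ≤ Ra p G γ := og_le_iff.2 fun T hT => le_ra hT.pgrp
    ((hs.pm.fx_iff hT.pgrp (hT.le.trans (kr_le _ _)) g1).1 ((fx_kr (Set.mem_image_of_mem π g1)).mono hT.le))
  have sub : orb (Ra p G α) β ⊆ orb (Ra p G γ) β := fun y hy =>
    orb_mono Lg β (tr β (mem_orb_self _ _) y hy)
  obtain ⟨Ω'', _, _, ρ, hr⟩ | hP' := h.res g2 bg
  · exact b1ns (gn_ra h.gn.syl hα) hP.prm (inv_orb _ _) hP.two_le LR Ln Lg UL inf_le_left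
      hs.bs.relIndex_kr mv sub hr
  have e1 := h.b1aZ_eq hα hβ hP.le_ee
  have e2 := h.b1aZ_eq g2 bg hP'.le_ee
  refine ga (h.toPS.eq_inj (b1aZ p G) b1aZ_smul (fun x hx => hx.1 rfl)
    (e1 ▸ ⟨β, mem_orb_self _ _⟩) ?_).symm
  rw [← e1, ← e2] at sub
  obtain ⟨g, rfl⟩ := h.tr α γ
  exact Set.eq_of_subset_of_ncard_le sub (by rw [b1aZ_smul, Set.ncard_smul_set]) (Set.toFinite _)

/-- `R = R_α`, `Γ₀ = orb R β`.  For `γ₁ ≠ α` outside `Γ₀` the orbit `Γ₁` is standard (`bnum`), via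
`π₁`, with `U₁ = S ⊓ K₁`, `K₁ = kr R (π₁ '' Γ₁)`, of index `p` in `S`, fixing `Γ₁` pointwise.
* If some `U₁` moves a point of `Γ₀`: `L = og p K₁` is normalized by `R`, contains `U₁`, so is
  transitive on `Γ₀` (`Prm.normal`).  `ee Γ₁ ≤ p - 2` (`bnum`, `t_pos`), so `f' ≥ 1` and `Γ₁` has a
  point `γ` fixed by `S` (`Sd.count`).  Each Sylow of `K₁` fixes `γ` (`Pm.fx_iff`), so `L ≤ R_γ`
  (`le_ra`, `og_le_iff`) and `Γ₀ ⊆ Γ' = orb R_γ β`, `β ≠ γ`.  `P5.res` at `γ`: not standard by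
  `b1ns`, so `p - 1 ≤ ee Γ'` (`PT.le_ee`).
  `Z x = {y | y ≠ x ∧ ∃ T, IsSyl p T ⊤ ∧ Fx T x ∧ p - 1 ≤ ee p T (orb (Ra p G x) y)}` is equivariant
  (`orb_ra_smul`, `ee_cj`, `fx_cj`, `IsSyl.cj`); `Z α = Γ₀`, `Z γ = Γ'` (`isSyl_ra`, `ee_syl_eq`,
  `mem_of_big`); `γ = g • α` so `|Γ'| = |Γ₀|`, `Γ' = Γ₀`, and `eq_inj` gives `α = γ`, absurd.
* Otherwise `U₀ = S ⊓ kr R Γ₀ < S` (`qq Γ₀ ≥ 2`) contains every `U₁`, so equals it (prime index);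
  so `U₀` fixes `α`, `Γ₀` and every other orbit: `U₀ = ⊥` (`PS.eq_bot`).  `caseC` gives one
  `γ₁`, `U₁ = ⊥`, `card S = (⊥).relIndex S = p`. -/
theorem P5.b1a (h : P5 p S Ω) (hα : Fx S α) (hβ : β ≠ α)
    (hP : PT p (Ra p G α) S (orb (Ra p G α) β)) : Nat.card S = p := by
  have pg := h.toPS.isPGroup
  have SR := le_ra pg hα
  have k : ∀ γ, γ ≠ α → γ ∉ orb (Ra p G α) β →
      (S ⊓ kr (Ra p G α) (orb (Ra p G α) β)).relIndex S = p ∧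
        Fx (S ⊓ kr (Ra p G α) (orb (Ra p G α) β)) γ := fun γ h1 h2 => by
    obtain ⟨U, u1, u2, u3, u4⟩ := h.b1a_key hα hβ hP h1 h2
    rcases b1a_max u2 (le_inf u1 (le_kr_iff.2 ⟨u1.trans SR, u4⟩)) inf_le_left with e | e
    · rw [e]; exact ⟨u2, u3⟩
    · obtain ⟨x, x1, x2⟩ := (one_le_qq_iff pg ((inv_orb _ β).mono SR)).1 (h.toPS.one_le_qq hα hβ)
      exact (x2 ((fx_kr x1).mono (e.ge.trans inf_le_right))).elim
  have e : S ⊓ kr (Ra p G α) (orb (Ra p G α) β) = ⊥ := h.toPS.eq_bot fun x => by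
    by_cases a : x = α
    · subst a; exact hα.mono inf_le_left
    by_cases b : x ∈ orb (Ra p G α) β
    · exact (fx_kr b).mono inf_le_right
    exact (k x a b).2
  obtain ⟨γ, h1, h2⟩ := h.caseC hα hβ hP
  have := (k γ h1 h2).1
  rwa [e, relIndex_bot_left] at this

end Cfsg.Agent.SFP
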