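import Cfsg.Agent.SFP.B

/-! SFP/Dv: coprime action, the number of fixed points divides the degree. -/

namespace Cfsg.Agent.SFP
open Subgroup MulAction Cfsg.Agent.PLocal.Amb
open scoped Pointwise

variable {G : Type*} [Group G] {Ω : Type*} [MulAction G Ω] [Finite G] [Finite Ω] {p : ℕ}
  [hp : Fact p.Prime] {S K Q : Subgroup G} {x : Ω}

/-- the conjugation action on subgroups -/
@[reducible] def dvAct (G : Type*) [Group G] : MulAction G (Subgroup G) where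
  smul g Q := cj(g, Q)
  one_smul := cj_one
  mul_smul := cj_mul

theorem dv_inv_syl (hS : IsPGroup p S) (hn : S ≤ 𝐍[K]) (hK : ¬ p ∣ Nat.card K) (l : ℕ) [Fact l.Prime] :
    ∃ P, IsSyl l P K ∧ S ≤ 𝐍[P] := by
  let := dvAct G
  obtain ⟨P, hP⟩ := exists_isSyl l K
  have k : ∀ y ∈ orb K P, IsSyl l y K := by rintro _ ⟨g, hg, rfl⟩; exact hP.cj_of_mem hg
  obtain ⟨y, hy, h⟩ := exists_fx hS (Γ := orb K P)
    (fun s hs y hy => ((k y hy).cj_of_mem_normalizer (hn hs)).exists_cj_eq hP)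
    fun h => hK (h.trans (ncard_orb K P ▸ relIndex_dvd_card _ _))
  exact ⟨y, k y hy, fun s hs => cj_eq_iff.1 (h s hs)⟩

omit [Finite G] in
theorem dv_card (A B : Subgroup G) : A.relIndex B * Nat.card ↥(B ⊓ A) = Nat.card B := by
  rw [← Nat.card_congr (subgroupOfEquivOfLe (inf_le_left : B ⊓ A ≤ B)).toEquiv, inf_subgroupOf_left]
  exact (A.subgroupOf B).index_mul_card

/-- An `S`-invariant `l`-subgroup of `K` lies in an `S`-invariant Sylow `l`-subgroup.  Take `P ⊇ Q`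
maximal among `S`-invariant `l`-subgroups of `K`; `M = K ⊓ 𝐍[P]` is `S`-invariant; `G` acts on
`Subgroup G` by conjugation (`MulAut.conj g • H`, e.g. via `MulAction.compHom` or `ConjAct`), the
Sylow `l`-subgroups of `M` form one `M`-orbit, of size dividing `card K` (`ncard_orb`), so prime
to `p`; `exists_fx` gives an `S`-invariant one `P*`, `P ≤ P*` (`IsSyl.le_of_le_normalizer`), so
`P* = P` and `isSyl_of_isSyl_normalizer`.  (Alternatively use `exists_inv_sylow_ge` of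
`Cfsg.Agent.Solv.ExtAction`.) -/
theorem exists_inv_syl (hS : IsPGroup p S) (hn : S ≤ 𝐍[K]) (hK : ¬ p ∣ Nat.card K) {l : ℕ}
    [Fact l.Prime] (hQ : IsPGroup l Q) (hQK : Q ≤ K) (hQn : S ≤ 𝐍[Q]) :
    ∃ P, IsSyl l P K ∧ Q ≤ P ∧ S ≤ 𝐍[P] := by
  obtain ⟨P, h1, ⟨h2, h3, h4⟩, h5⟩ := exists_maximal_ge_of_wellFoundedGT
    (fun P : Subgroup G => IsPGroup l P ∧ P ≤ K ∧ S ≤ 𝐍[P]) Q ⟨hQ, hQK, hQn⟩
  obtain ⟨T, hT, h6⟩ := dv_inv_syl hS (le_normalizer_inf hn (le_normalizer_normalizer h4))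
    (fun h => hK (h.trans (card_dvd_of_le inf_le_left))) l
  have h7 := hT.le_of_le_normalizer h2 (le_inf h3 le_normalizer) (hT.le.trans inf_le_right)
  obtain rfl := le_antisymm h7 (h5 ⟨hT.pgrp, hT.le.trans inf_le_left, h6⟩ h7)
  exact ⟨_, isSyl_of_isSyl_normalizer hT, h1, h4⟩

/-- two `S`-invariant Sylow `l`-subgroups of `K` are conjugate under `C_K(S)`: `cot` for the
conjugation action on `Subgroup G`. -/
theorem inv_syl_conj (hS : IsPGroup p S) (hn : S ≤ 𝐍[K]) (hK : ¬ p ∣ Nat.card K) {l : ℕ}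
    [Fact l.Prime] {P P' : Subgroup G} (hP : IsSyl l P K) (hP' : IsSyl l P' K) (h : S ≤ 𝐍[P])
    (h' : S ≤ 𝐍[P']) : ∃ c ∈ K, c ∈ 𝐂[S] ∧ cj(c, P') = P :=
  letI := dvAct G
  cot hS hn hK (fun _ hs => cj_eq_iff.2 (h' hs)) (fun _ hs => cj_eq_iff.2 (h hs)) (hP.exists_cj_eq hP')

/-- a Sylow `Q` of `C = K ⊓ 𝐂[S]` lies in an invariant Sylow `P'`, `cj(c,P') = P`, so `cj(c,Q)` is a
Sylow of `C` inside `P ⊓ 𝐂[S]` (`IsSyl.eq`). -/
theorem isSyl_inf_cent (hS : IsPGroup p S) (hn : S ≤ 𝐍[K]) (hK : ¬ p ∣ Nat.card K) {l : ℕ}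
    [Fact l.Prime] {P : Subgroup G} (hP : IsSyl l P K) (h : S ≤ 𝐍[P]) :
    IsSyl l (P ⊓ 𝐂[S]) (K ⊓ 𝐂[S]) := by
  obtain ⟨Q, hQ⟩ := exists_isSyl l (K ⊓ 𝐂[S])
  obtain ⟨P', h1, h2, h3⟩ := exists_inv_syl hS hn hK hQ.pgrp (hQ.le.trans inf_le_left)
    ((le_centralizer_iff.1 (hQ.le.trans inf_le_right)).trans (centralizer_le_normalizer' _))
  obtain ⟨c, h4, h5, rfl⟩ := inv_syl_conj hS hn hK hP h1 h h3
  have h6 := hQ.cj_of_mem (g := c) ⟨h4, h5⟩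
  rwa [h6.eq hP.pgrp.to_inf_left (le_inf (cj_mono c h2) (h6.le.trans inf_le_right)) (inf_le_inf_right _ hP.le)]

/-- `C = K ⊓ 𝐂[S]`, `H = K ⊓ stabilizer x` (normalized by `S`).  By `cot` the fixed points of `S` in
`orb K x` are `orb C x`, so `f = |C : C ⊓ H|`, `d = |K : H|` (`ncard_orb`).  For a prime `l`
take an invariant Sylow `P₀` of `H` and an invariant Sylow `P ⊇ P₀` of `K` (so `P ⊓ H = P₀`);
`P ⊓ C`, `P₀ ⊓ C` are Sylow in `C`, `H ⊓ C`.  So `l^{v_l f} = |P ⊓ C : P₀ ⊓ C| ≤ |P : P₀| =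
l^{v_l d}` (`IsSyl.card_eq_pow`, `relIndex_le_of_le_right`), and `Nat.factorization_le_iff_dvd` /
`Nat.factorization_prime_le_iff_dvd`. -/
theorem fx_dvd_ncard (hS : IsPGroup p S) (hn : S ≤ 𝐍[K]) (hK : ¬ p ∣ Nat.card K) (hx : Fx S x) :
    fx S (orb K x) ∣ (orb K x).ncard := by
  have e : fx S (orb K x) = (orb (K ⊓ 𝐂[S]) x).ncard := congrArg Set.ncard (Set.ext fun y =>
    ⟨fun ⟨h1, h2⟩ => let ⟨c, a, b, d⟩ := cot hS hn hK hx h2 h1; ⟨c, ⟨a, b⟩, d⟩, fun ⟨c, ⟨a, b⟩, d⟩ =>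
      ⟨⟨c, a, d⟩, d ▸ (fx_smul_iff_of_mem_normalizer (centralizer_le_normalizer' _ b)).2 hx⟩⟩)
  rw [e, ncard_orb, ncard_orb]
  have hH := le_normalizer_inf hn ((fx_iff_le.1 hx).trans le_normalizer)
  have hH' : ¬ p ∣ Nat.card ↥(K ⊓ stabilizer G x) := fun h => hK (h.trans (card_dvd_of_le inf_le_left))
  have n0 : ∀ A B : Subgroup G, A.relIndex B ≠ 0 := fun _ _ => index_ne_zero_of_finite
  have c0 : ∀ A : Subgroup G, Nat.card A ≠ 0 := fun _ => Nat.card_pos.ne'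
  refine (Nat.factorization_prime_le_iff_dvd (n0 _ _) (n0 _ _)).1 fun l hl => ?_
  have := Fact.mk hl
  obtain ⟨P₀, h1, h2⟩ := dv_inv_syl hS hH hH' l
  obtain ⟨P, h3, h4, h5⟩ := exists_inv_syl hS hn hK h1.pgrp (h1.le.trans inf_le_left) h2
  have a1 := dv_card P₀ P
  have a2 := dv_card P₀ (P ⊓ 𝐂[S])
  rw [inf_eq_right.2 h4, h1.card_eq_pow, h3.card_eq_pow, ← dv_card (stabilizer G x) K,
    Nat.factorization_mul (n0 _ _) (c0 _), Finsupp.add_apply, pow_add, mul_left_inj' (pow_ne_zero _ hl.ne_zero)] at a1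
  rw [inf_right_comm, inf_eq_right.2 h4, (isSyl_inf_cent hS hH hH' h1 h2).card_eq_pow,
    (isSyl_inf_cent hS hn hK h3 h5).card_eq_pow, ← dv_card (stabilizer G x) (K ⊓ 𝐂[S]), inf_right_comm,
    Nat.factorization_mul (n0 _ _) (c0 _), Finsupp.add_apply, pow_add, mul_left_inj' (pow_ne_zero _ hl.ne_zero)] at a2
  rw [← Nat.pow_le_pow_iff_right hl.one_lt, ← a1, ← a2]
  exact relIndex_le_of_le_right inf_le_left (n0 _ _)

end Cfsg.Agent.SFP
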