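import Cfsg.Agent.SFP.Cy
import Cfsg.Agent.SFP.Dv

/-! SFP/B1b: case B, the kernel on a base is transitive on the primitive orbit. -/

namespace Cfsg.Agent.SFP
open Subgroup MulAction Cfsg.Agent.PLocal.Amb
open scoped Pointwise

universe u v

variable {G : Type u} [Group G] {Ω : Type v} [MulAction G Ω] [Finite G] [Finite Ω] {p : ℕ}
  [hp : Fact p.Prime] {R S : Subgroup G} {β : Ω} {Ω' : Type*} [MulAction G Ω'] [Finite Ω'] {B : Set Ω'}

/-- `c ∈ 𝐂[S]` preserving `Γ`, which has at most 2 fixed points and `2 p` moved points.  Fixed `y`: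
`c` preserves the set of fixed points in `Γ` (card `≤ 2`), so `c ^ 2 • y = y`.  Moved `y`:
`c • orb S y = orb S (c • y)`, orbits of moved points have `p` points (`ncard_orb_of_card`), so
`c ^ 2 • y ∈ orb S y` (otherwise `orb S y`, `orb S (c • y)`, `orb S (c ^ 2 • y)` are pairwise
disjoint), and `pow_smul_eq_of_cent` for `c ^ 2`. -/
theorem pow_two_mul_smul (hc : Nat.card S = p) {Γ : Set Ω} (hS : Inv S Γ) {c : G}
    (hcc : c ∈ 𝐂[S]) (hcΓ : ∀ y ∈ Γ, c • y ∈ Γ) (hf : fx S Γ ≤ 2) (hq : qq p S Γ = 2) {y : Ω}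
    (hy : y ∈ Γ) : c ^ (2 * p) • y = y := by
  have hP : IsPGroup p S := .of_card (n := 1) (by rw [hc, pow_one])
  have fi : ∀ x : Ω, Fx S (c • x) ↔ Fx S x := fun _ =>
    fx_smul_iff_of_mem_normalizer (centralizer_le_normalizer' S hcc)
  have y1 := hcΓ y hy
  have y2 := hcΓ _ y1
  rw [pow_mul]
  by_cases h : Fx S y
  · refine mem_stabilizer_iff.1 (pow_mem (mem_stabilizer_iff.2 ?_) p)
    rw [pow_two, mul_smul]
    by_contra k
    refine hf.not_gt ((Set.two_lt_ncard (s := {x | x ∈ Γ ∧ Fx S x})).2 ⟨y, ⟨hy, h⟩, c • y,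
      ⟨y1, (fi _).2 h⟩, c • c • y, ⟨y2, (fi _).2 ((fi _).2 h)⟩, fun e => k ?_, Ne.symm k,
      fun e => k ?_⟩)
    · rw [← e, ← e]
    · rw [← e, ← (smul_left_cancel_iff c).1 e]
  refine pow_smul_eq_of_cent hc (pow_mem hcc 2) ?_
  rw [pow_two, mul_smul]
  have ob : ∀ u v : Ω, c • v ∈ orb S (c • u) ↔ v ∈ orb S u := fun u v =>
    exists_congr fun s => and_congr_right fun hs => by
      rw [← mul_smul, mem_centralizer_iff.1 hcc s hs, mul_smul, smul_left_cancel_iff]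
  by_contra k2
  have k1 : c • y ∉ orb S y := fun k => k2 (mem_orb_trans k ((ob _ _).2 k))
  have k3 : c • c • y ∉ orb S (c • y) := mt (ob _ _).1 k1
  have m1 := mt (fi _).1 h
  have m2 := mt (fi _).1 m1
  have sb : ∀ u ∈ Γ, ¬ Fx S u → orb S u ⊆ {x | x ∈ Γ ∧ ¬ Fx S x} := fun u hu hm x hx =>
    ⟨orb_subset hS hu hx, not_fx_of_mem_orb hm hx⟩
  have le := Set.ncard_le_ncard
    (Set.union_subset (Set.union_subset (sb _ hy h) (sb _ y1 m1)) (sb _ y2 m2))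
  rw [Set.ncard_union_eq (Set.disjoint_union_left.2 ⟨disjoint_orb k2, disjoint_orb k3⟩),
    Set.ncard_union_eq (disjoint_orb k1), ncard_orb_of_card hc h, ncard_orb_of_card hc m1,
    ncard_orb_of_card hc m2] at le
  have e := mv_eq hP hS
  rw [hq, mv] at e
  have := hp.out.pos
  omega

/-- `K = kr R B` has order prime to `p` (`not_dvd_kr`), `orb K β = Γ₀`, so `f₀ ∣ f₀ + p q₀`
(`fx_dvd_ncard`, `ncard_eq`), `p ∤ f₀` (`f2'`), `f₀ ∣ q₀`, `f₀ ≤ q₀`; `(p-2) q₀ ≤ e₀ ≤ 2p - 3` gives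
`q₀ = 2`, `f₀ ≤ 2`, so `3 ≤ fx S B`.  Take distinct `a b d ∈ B` fixed by `S`; `Bs.ktr`,
`Ktr.three`, `f1'` (`ι = Fin 3`) give `y₁, y₂ ∈ R ⊓ 𝐍[S]` with `y₁ : (a,b,d) ↦ (b,a,d)`,
`y₂ : (a,b,d) ↦ (d,b,a)`; `c = y₁ * y₂ * y₁⁻¹ * y₂⁻¹ ∈ 𝐂[S]` (`comm_mem_cent`) maps
`a ↦ b ↦ d ↦ a`.  `c ^ (2p) ∈ kr R Γ₀ ≤ kr R B` (`pow_two_mul_smul`, `not_dvd_kr`, `Bs.j2`), but
`3 ∤ 2 p` so `c ^ (2p) • a ∈ {b, d}`. -/
theorem Bs.b1b (hb : Bs p R S B) (h5 : 5 ≤ p) (hc : Nat.card S = p) (hβ : Fx S β)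
    (htr : orb R β ⊆ orb (kr R B) β) (hq : 2 ≤ qq p S (orb R β))
    (he : ee p S (orb R β) ≤ 2 * (p : ℤ) - 3) (h3 : fx S (orb R β) ≤ 2 → 3 ≤ fx S B) :
    False := by
  have hS := hb.gn.syl
  have iS : Inv S (orb R β) := (inv_orb R β).mono hS.le
  have d := fx_dvd_ncard hS.pgrp (hS.le.trans (le_normalizer_kr hb.inv))
    (not_dvd_kr hc hS hb.inv (by rw [hb.mv_eq]; exact hp.out.ne_zero)) hβ
  rw [Set.Subset.antisymm (orb_mono (kr_le R B) β) htr, ncard_eq hS.pgrp iS] at d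
  have d2 := Nat.le_of_dvd (by omega) (((Nat.Prime.coprime_iff_not_dvd hp.out).2
    (f2' hS (mem_orb_self R β) hβ)).symm.dvd_of_dvd_mul_left ((Nat.dvd_add_right dvd_rfl).1 d))
  have q2 : qq p S (orb R β) = 2 := by
    refine le_antisymm (not_lt.1 fun k => ?_) hq
    rw [ee] at he
    have a1 : (3 : ℤ) ≤ qq p S (orb R β) := by exact_mod_cast k
    have a2 : (5 : ℤ) ≤ p := by exact_mod_cast h5
    have a3 : (fx S (orb R β) : ℤ) ≤ qq p S (orb R β) := by exact_mod_cast d2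
    nlinarith
  have f3 := h3 (q2 ▸ d2)
  obtain ⟨a, ha, b, hb', d, hd, ab, ad, bd⟩ := (Set.two_lt_ncard (s := {x | x ∈ B ∧ Fx S x})).1 f3
  have key : ∀ {a' b' d' : Ω'}, a' ∈ B ∧ Fx S a' → b' ∈ B ∧ Fx S b' → d' ∈ B ∧ Fx S d' → a' ≠ b' →
      a' ≠ d' → b' ≠ d' → ∃ n ∈ R, n ∈ 𝐍[S] ∧ n • a = a' ∧ n • b = b' ∧ n • d = d' := by
    intro a' b' d' h1 h2 h3 e1 e2 e3
    obtain ⟨g, hg, g1, g2, g3⟩ := hb.ktr.three (by omega) ab ad bd e1 e2 e3 ha.1 hb'.1 hd.1 h1.1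
      h2.1 h3.1
    obtain ⟨n, n1, n2, n3⟩ := f1' (a := ![a, b, d]) (b := ![a', b', d']) hS
      (fun i => by fin_cases i <;> [exact ha.2; exact hb'.2; exact hd.2])
      (fun i => by fin_cases i <;> [exact h1.2; exact h2.2; exact h3.2]) hg
      fun i => by fin_cases i <;> [exact g1; exact g2; exact g3]
    exact ⟨n, n1, n2, n3 0, n3 1, n3 2⟩
  obtain ⟨u, uR, uN, u1, u2, u3⟩ := key hb' ha hd ab.symm bd ad
  obtain ⟨v, vR, vN, v1, v2, v3⟩ := key hd hb' ha bd.symm ad.symm ab.symm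
  have cC := comm_mem_cent hc uN vN
  have cR : u * v * u⁻¹ * v⁻¹ ∈ R := mul_mem (mul_mem (mul_mem uR vR) (inv_mem uR)) (inv_mem vR)
  have c1 : (u * v * u⁻¹ * v⁻¹) • a = b := by
    rw [mul_smul, mul_smul, mul_smul, inv_smul_eq_iff.2 v3.symm, inv_smul_eq_iff.2 u3.symm, v3, u1]
  have c2 : (u * v * u⁻¹ * v⁻¹) • b = d := by
    rw [mul_smul, mul_smul, mul_smul, inv_smul_eq_iff.2 v2.symm, inv_smul_eq_iff.2 u1.symm, v1, u3]
  have c3 : (u * v * u⁻¹ * v⁻¹) • d = a := by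
    rw [mul_smul, mul_smul, mul_smul, inv_smul_eq_iff.2 v1.symm, inv_smul_eq_iff.2 u2.symm, v2, u2]
  generalize u * v * u⁻¹ * v⁻¹ = c at cC cR c1 c2 c3
  have k1 : c ^ (2 * p) ∈ stabilizer G a :=
    (mem_kr.1 (hb.j2 (by omega) (kr_le _ _) (le_normalizer_kr (inv_orb R β))
      (not_dvd_kr hc hS (inv_orb R β) (by
        rw [SFP.mv_eq hS.pgrp iS, q2]; exact mul_ne_zero hp.out.ne_zero two_ne_zero))
      (mem_kr.2 ⟨pow_mem cR _, fun y hy =>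
        pow_two_mul_smul hc iS cC (inv_orb R β c cR) (q2 ▸ d2) q2 hy⟩))).2 a ha.1
  have k2 : c ^ 3 ∈ stabilizer G a := by
    rw [mem_stabilizer_iff, pow_three, mul_smul, mul_smul, c1, c2, c3]
  have p3 : p % 3 ≠ 0 := fun e => by
    have := hp.out.eq_one_or_self_of_dvd 3 (Nat.dvd_of_mod_eq_zero e)
    omega
  obtain ⟨k, hk | hk⟩ : ∃ k, 2 * p = 1 + 3 * k ∨ 2 * p = 2 + 3 * k := ⟨2 * p / 3, by omega⟩
  · rw [hk, pow_add, pow_mul, (stabilizer G a).mul_mem_cancel_right (pow_mem k2 k), pow_one,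
      mem_stabilizer_iff, c1] at k1
    exact ab k1.symm
  · rw [hk, pow_add, pow_mul, (stabilizer G a).mul_mem_cancel_right (pow_mem k2 k), pow_two,
      mem_stabilizer_iff, mul_smul, c1, c2] at k1
    exact ad k1.symm

end Cfsg.Agent.SFP
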