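import Cfsg.Agent.SFP.J

/-! SFP/B2a: case B, the primitive orbit is the action on `j`-subsets of a base. -/

namespace Cfsg.Agent.SFP
open Subgroup MulAction Cfsg.Agent.PLocal.Amb
open scoped Pointwise

universe u v

theorem bin1 {f k : ℕ} (hk : k ≤ f) (n : ℕ) : f.choose (k + 1) + n ≤ (n + f).choose (k + 1) := by
  induction n with
  | zero => simp
  | succ n ih =>
    have := Nat.choose_pos (show k ≤ n + f by omega)
    rw [show n + 1 + f = n + f + 1 by ring, Nat.choose_succ_succ']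
    omega

theorem bin2 {f k : ℕ} (hk : k ≤ f) (n : ℕ) :
    2 * f.choose (k + 2) + 2 * n * f.choose (k + 1) + n * n ≤ 2 * (n + f).choose (k + 2) + n := by
  induction n with
  | zero => simp
  | succ n ih =>
    have := bin1 hk n
    rw [show n + 1 + f = n + f + 1 by ring, Nat.choose_succ_succ' (n + f) (k + 1)]
    nlinarith

/-- Vandermonde (`Nat.add_choose_eq`, keep the three terms `(0,j), (1,j-1), (2,j-2)`):
`p q ≥ p C(f,j-1) + C(p,2) C(f,j-2)`, so `2 q ≥ 2 C(f,j-1) + (p-1)`; and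
`C(f,j) ≤ (p-1) C(f,j-1)` (`Nat.choose_succ_right_eq`). -/
theorem bin {p f j q : ℕ} (h5 : 5 ≤ p) (hj : 2 ≤ j) (hjf : j ≤ f) (hf : f < p)
    (h : (p + f).choose j = f.choose j + p * q) :
    2 * ((p : ℤ) - 1) ≤ ((p : ℤ) - 1) * (q : ℤ) - (f.choose j : ℤ) := by
  obtain ⟨k, rfl⟩ : ∃ k, j = k + 2 := ⟨j - 2, by omega⟩
  have h1 := bin2 (show k ≤ f by omega) p
  rw [h] at h1
  have h2 : 2 * f.choose (k + 1) + p ≤ 2 * q + 1 :=
    Nat.le_of_mul_le_mul_left (by nlinarith) (show 0 < p by omega)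
  have h3 : f.choose (k + 2) ≤ (p - 1) * f.choose (k + 1) := by
    have := Nat.choose_succ_right_eq f (k + 1)
    calc _ ≤ f.choose (k + 1 + 1) * (k + 1 + 1) := Nat.le_mul_of_pos_right _ (by omega)
      _ ≤ _ := by rw [this, mul_comm]; exact Nat.mul_le_mul_right _ (by omega)
  obtain ⟨r, rfl⟩ : ∃ r, p = r + 1 := ⟨p - 1, by omega⟩
  rw [Nat.add_sub_cancel] at h3
  zify at h2 h3 h5
  push_cast
  nlinarith

variable {G : Type u} [Group G] {Ω : Type v} [MulAction G Ω] [Finite G] [Finite Ω] {p : ℕ}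
  [hp : Fact p.Prime] {R S : Subgroup G} {β : Ω} {Ω' : Type*} [MulAction G Ω'] [Finite Ω'] {B : Set Ω'}

/-- `Γ₀ = orb R β`, `φ x = {z ∈ B | Fx (og p (R ⊓ stabilizer G x)) z}`; `φ (g • x) = g • φ x` for
`g ∈ R` (`og_cj`, `cj_inf`, `stabilizer_smul`, `fx_cj`).  `S ≤ og p (R ⊓ stabilizer β)`, so
`φ β ⊆ F'` = fixed points of `S` in `B`, `1 ≤ j = |φ β| ≤ f' < p`.  `Prm.inj_or_const φ`: constant
makes `φ β` `R`-invariant, so `= B`, against `Bs.exists_moved`.  So `φ` is injective on `Γ₀`, with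
image all `j`-subsets of `B` (`Bs.ktr`, `Ktr.set`), so `|Γ₀| = C(p + f', j)`; and `x ∈ Γ₀` is
fixed by `S` iff `φ x ⊆ F'` (`→`: `φ x` is `S`-invariant with `< p` points, `fx_of_small`;
`←`: `φ (s • x) = φ x`, injectivity), so `f₀ = C(f', j)` (count `j`-subsets with
`Finset.card_powersetCard` or `Set.ncard_powerset_ncard`).  `ncard_eq`: `C(p+f',j) = C(f',j) + p q₀`.
`j = 1` gives `q₀ = 1`; `j ≥ 2`: `bin`. -/
theorem Bs.b2a (hb : Bs p R S B) (h5 : 5 ≤ p) (hβ : Fx S β) (hprm : Prm R (orb R β))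
    (hq : 2 ≤ qq p S (orb R β)) (he : ee p S (orb R β) ≤ 2 * (p : ℤ) - 3) {y : Ω'} (hy : y ∈ B)
    (hfy : Fx (og p (R ⊓ stabilizer G β)) y) : False := by
  obtain ⟨φ, hφ⟩ : ∃ φ : Ω → Set Ω', ∀ x z, z ∈ φ x ↔ z ∈ B ∧ Fx (og p (R ⊓ stabilizer G x)) z :=
    ⟨fun x => {z | _}, fun _ _ => Iff.rfl⟩
  have SR := hb.gn.syl.le
  have pS := hb.gn.syl.pgrp
  have eqv : ∀ g ∈ R, ∀ x, φ (g • x) = g • φ x := fun g hg x => by
    ext z
    rw [Set.mem_smul_set_iff_inv_smul_mem, hφ, hφ, hb.inv.smul_mem_iff (inv_mem hg),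
      ← fx_cj (g := g) (x := g⁻¹ • z), smul_inv_smul, ← og_cj, cj_inf, cj_of_mem hg,
      stabilizer_smul]
  have sub : ∀ x, Fx S x → φ x ⊆ {z | z ∈ B ∧ Fx S z} := fun x hx z hz =>
    ⟨((hφ _ _).1 hz).1, ((hφ _ _).1 hz).2.mono
      (le_og_of_isPGroup pS (le_inf SR (fx_iff_le.1 hx)))⟩
  have yβ : y ∈ φ β := (hφ _ _).2 ⟨hy, hfy⟩
  have j1 : 0 < (φ β).ncard := (Set.ncard_pos (Set.toFinite _)).2 ⟨y, yβ⟩
  have j2 : (φ β).ncard ≤ fx S B := Set.ncard_le_ncard (sub β hβ)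
  have inj : Set.InjOn φ (orb R β) := by
    refine (hprm.inj_or_const φ fun g hg x _ x' _ e => by rw [eqv g hg, eqv g hg, e]).resolve_right
      fun c => ?_
    obtain ⟨σ, h1, h2⟩ := hb.exists_moved
    rw [hb.eq_orb hy] at h1
    obtain ⟨g, hg, rfl⟩ := h1
    refine h2 (sub β hβ ?_).2
    rw [c β (mem_orb_self _ _) _ (smul_mem_orb hg (mem_orb_self _ _)), eqv g hg]
    exact Set.smul_mem_smul_set yβ
  have i1 : φ '' orb R β = {t | t ⊆ B ∧ t.ncard = (φ β).ncard} := by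
    ext t
    constructor
    · rintro ⟨_, ⟨g, hg, rfl⟩, rfl⟩
      exact ⟨fun z hz => ((hφ _ _).1 hz).1, by rw [eqv g hg, Set.ncard_smul_set]⟩
    · rintro ⟨h1, h2⟩
      obtain ⟨g, hg, rfl⟩ := hb.ktr.set (fun z hz => ((hφ _ _).1 hz).1) h1 h2.symm (by omega)
      exact ⟨g • β, ⟨g, hg, rfl⟩, eqv g hg β⟩
  have i2 : φ '' {x | x ∈ orb R β ∧ Fx S x} =
      {t | t ⊆ {z | z ∈ B ∧ Fx S z} ∧ t.ncard = (φ β).ncard} := by
    ext t
    constructor
    · rintro ⟨x, hx, rfl⟩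
      exact ⟨sub x hx.2, (i1.le ⟨x, hx.1, rfl⟩).2⟩
    · rintro ⟨h1, h2⟩
      obtain ⟨x, hx, rfl⟩ := i1.ge ⟨fun z hz => (h1 hz).1, h2⟩
      refine ⟨x, ⟨hx, fun s hs => inj (smul_mem_orb (SR hs) hx) hx ?_⟩, rfl⟩
      rw [eqv s (SR hs)]
      exact (Set.image_congr fun z hz => (h1 hz).2 s hs).trans (Set.image_id' _)
  have c1 := congrArg Set.ncard i1
  have c2 := congrArg Set.ncard i2
  rw [Set.InjOn.ncard_image inj, Set.ncard_powerset_ncard (Set.toFinite _), hb.ncard,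
    ncard_eq pS ((inv_orb R β).mono SR)] at c1
  rw [Set.InjOn.ncard_image (inj.mono fun x hx => hx.1),
    Set.ncard_powerset_ncard (Set.toFinite _)] at c2
  change fx S (orb R β) = (fx S B).choose _ at c2
  rw [ee, c2] at he
  rw [c2] at c1
  rcases (show (φ β).ncard = 1 ∨ 2 ≤ (φ β).ncard by omega) with e | e
  · rw [e, Nat.choose_one_right, Nat.choose_one_right] at c1
    nlinarith
  · have := bin h5 e j2 hb.fx_lt c1.symm
    omega

end Cfsg.Agent.SFP
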