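import Cfsg.Agent.SFP.Cy

/-! SFP/B2b: case B, last configuration. -/

namespace Cfsg.Agent.SFP
open Subgroup MulAction Cfsg.Agent.PLocal.Amb
open scoped Pointwise

universe u v

variable {G : Type u} [Group G] {Ω : Type v} [MulAction G Ω] [Finite G] [Finite Ω] {p : ℕ}
  [hp : Fact p.Prime] {R S : Subgroup G} {β : Ω} {Ω' : Type*} [MulAction G Ω'] [Finite Ω'] {B : Set Ω'}

/-- `W = og p (R ⊓ stabilizer β)` (`Gn p W S`, fixes `β`) is transitive on `B` (`Bs.jtr`).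
If `3 ≤ fx S B`: `Bs.j3` writes `g ∈ R` as `y * k`, `k ∈ kr R B ≤ kr R Γ₀`, so `R` fixes `β`.
Otherwise take `b ∈ B` fixed by `S`, `L = R ⊓ stabilizer b`; `orb L β = Γ₀` (for `g ∈ R` pick
`w ∈ W` with `w • b = g⁻¹ • b`, `g * w ∈ L`).  `N = L ⊓ 𝐍[S]`: by `f1` in `L` and `inv_fixed` the
fixed points of `S` in `Γ₀` are `orb N β`, so `f₀ = (stabilizer β).relIndex N` (`ncard_orb`).
`N` fixes every `S`-fixed point of `B` (it permutes these `≤ 2` points and fixes `b`).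
`N ⊓ 𝐂[S] ≤ stabilizer β`: `c • σ ∈ orb S σ` for `σ ∈ B` moved (`Bs.mem_orb`),
`exists_eq_smul_of_cent` gives `s ∈ S` with `s⁻¹ * c ∈ kr R B ≤ kr R Γ₀`.  So
`f₀ ∣ (𝐂[S]).relIndex N ∣ p - 1` (`relIndex_dvd_of_le_left`, `inf_relIndex_right`,
`relIndex_cent_dvd`), `f₀ ≥ p - 2` forces `f₀ = p - 1 = (𝐂[S]).relIndex N`, against `Bs.sgn`. -/
theorem Bs.b2b (hb : Bs p R S B) (h5 : 5 ≤ p) (hc : Nat.card S = p) (hβ : Fx S β)
    (hn : ¬ Fx R β) (hk : kr R B ≤ kr R (orb R β))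
    (hno : ∀ y ∈ B, ¬ Fx (og p (R ⊓ stabilizer G β)) y) (h1 : 1 ≤ fx S B)
    (h2 : fx S B ≤ 2 → p ≤ fx S (orb R β) + 2) : False := by
  have hS := hb.gn.syl
  have hp2 : p ≠ 2 := by omega
  have hSs : S ≤ R ⊓ stabilizer G β := le_inf hS.le (fx_iff_le.1 hβ)
  have hW : Gn p (og p (R ⊓ stabilizer G β)) S := gn_og (hS.mono hSs inf_le_left)
  have hWR : og p (R ⊓ stabilizer G β) ≤ R := (og_le _ _).trans inf_le_left
  have hWβ : Fx (og p (R ⊓ stabilizer G β)) β :=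
    fx_iff_le.2 ((og_le _ _).trans inf_le_right)
  have htr := hb.jtr hW hWR hno
  have hkβ : ∀ k ∈ kr R B, k • β = β := fun k hk' =>
    fx_kr (mem_orb_self R β) k (hk hk')
  rcases le_or_gt 3 (fx S B) with h3 | h3
  · refine hn fun g hg => ?_
    obtain ⟨y, hy, e⟩ := hb.j3 hp2 h3 hW.syl.le hWR htr hg
    have := hkβ _ e
    rw [mul_smul, inv_smul_eq_iff, hWβ y hy] at this
    exact this
  obtain ⟨b, hbB, hbS⟩ := fx_ne_zero_iff.1 (show fx S B ≠ 0 by omega)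
  have hSL : S ≤ R ⊓ stabilizer G b := le_inf hS.le (fx_iff_le.1 hbS)
  have hL : IsSyl p S (R ⊓ stabilizer G b) := hS.mono hSL inf_le_left
  have horb : ∀ x ∈ orb R β, x ∈ orb (R ⊓ stabilizer G b) β := by
    rintro _ ⟨g, hg, rfl⟩
    obtain ⟨w, hw, e⟩ := htr b hbB (g⁻¹ • b) (hb.inv _ (inv_mem hg) _ hbB)
    refine ⟨g * w, mem_inf.2 ⟨mul_mem hg (hWR hw), mem_stabilizer_iff.2 ?_⟩, ?_⟩
    · rw [mul_smul, e, smul_inv_smul]
    · rw [mul_smul, hWβ w hw]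
  obtain ⟨N, hNd⟩ : ∃ N : Subgroup G, N = (R ⊓ stabilizer G b) ⊓ 𝐍[S] := ⟨_, rfl⟩
  have hNR : N ≤ R := hNd ▸ inf_le_left.trans inf_le_left
  have hNb : N ≤ stabilizer G b := hNd ▸ inf_le_left.trans inf_le_right
  have hNN : N ≤ 𝐍[S] := hNd ▸ inf_le_right
  have hF : {x | x ∈ orb R β ∧ Fx S x} = orb N β := by
    ext x
    refine ⟨fun hx => ?_, fun hx => ⟨orb_mono hNR β hx, orb_subset (inv_fixed hNN) hβ hx⟩⟩
    obtain ⟨n, h1, h2, h3⟩ := f1 hL hβ hx.2 (horb x hx.1)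
    exact ⟨n, hNd ▸ mem_inf.2 ⟨h1, h2⟩, h3⟩
  have hf0 : fx S (orb R β) = (stabilizer G β).relIndex N := by rw [fx, hF, SFP.ncard_orb]
  have hfix : ∀ y ∈ B, Fx S y → Fx N y := fun y hy hyS n hn' => by
    by_contra c
    have hnb : n • b = b := hNb hn'
    have hyb : b ≠ y := fun e => c (e ▸ hnb)
    have : 2 < fx S B := (Set.two_lt_ncard_iff (Set.toFinite _)).2
      ⟨b, y, n • y, ⟨hbB, hbS⟩, ⟨hy, hyS⟩, ⟨hb.inv _ (hNR hn') _ hy,
        (fx_smul_iff_of_mem_normalizer (hNN hn')).2 hyS⟩, hyb,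
        fun e => hyb (MulAction.injective n (hnb.trans e)), fun e => c e.symm⟩
    omega
  have hC : N ⊓ 𝐂[S] ≤ stabilizer G β := fun c hc' => by
    obtain ⟨hcN, hcC⟩ := mem_inf.1 hc'
    obtain ⟨σ, hσ, hσm⟩ := hb.exists_moved
    obtain ⟨s, hs, e⟩ := exists_eq_smul_of_cent hc hcC (hb.mem_orb hσ
      (hb.inv _ (hNR hcN) _ hσ) hσm
      (fun k => hσm ((fx_smul_iff_of_mem_normalizer (hNN hcN)).1 k)))
    have h4 : s⁻¹ * c ∈ kr R B := mem_kr.2 ⟨mul_mem (inv_mem (hS.le hs)) (hNR hcN), fun x hx => by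
      by_cases hxS : Fx S x
      · rw [mul_smul, hfix x hx hxS c hcN, hxS _ (inv_mem hs)]
      · rw [mul_smul, e x (hb.mem_orb hσ hx hσm hxS), inv_smul_smul]⟩
    have := hkβ _ h4
    rw [mul_smul, inv_smul_eq_iff, hβ s hs] at this
    exact this
  have d1 : (stabilizer G β).relIndex N ∣ (𝐂[S]).relIndex N := by
    rw [← inf_relIndex_left N 𝐂[S]]
    exact relIndex_dvd_of_le_left N hC
  have d2 := relIndex_cent_dvd hc hNN
  have d3 := hb.sgn hp2 hc hNR hNN hfix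
  have h6 := h2 (by omega)
  rw [hf0] at h6
  obtain ⟨m, hm⟩ := d2
  have hm0 : m ≠ 0 := by
    rintro rfl
    omega
  have hm1 : m ≠ 1 := by
    rintro rfl
    omega
  have hc0 : 0 < (𝐂[S]).relIndex N := Nat.pos_of_ne_zero fun e => by
    rw [e, zero_mul] at hm
    omega
  have h7 := Nat.le_of_dvd hc0 d1
  have h8 : (𝐂[S]).relIndex N * 2 ≤ (𝐂[S]).relIndex N * m := Nat.mul_le_mul_left _ (by omega)
  omega

end Cfsg.Agent.SFP
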