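import Cfsg.Agent.SFP.C

/-! SFP/Imp: the imprimitive step, and the reduction to a faithful transitive group. -/

namespace Cfsg.Agent.SFP
open Subgroup MulAction Cfsg.Agent.PLocal.Amb
open scoped Pointwise

universe u v
variable {G : Type u} [Group G] {Ω : Type v} [MulAction G Ω] [Finite G] [Finite Ω] {p : ℕ}
  [hp : Fact p.Prime] {R S : Subgroup G} {x : Ω}

/-- A non-trivial invariant equivalence relation `r` on `Γ = orb R x` gives the block map
`π y = {z ∈ Γ | r y z} : Set Ω` (pointwise action on `Set Ω`), equivariant on `Γ`, not injective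
and not constant on `Γ`. -/
theorem exists_blocks (hn : ¬ Prm R (orb R x)) :
    ∃ π : Ω → Set Ω, (∀ g ∈ R, ∀ y ∈ orb R x, π (g • y) = g • π y) ∧
      ¬ Set.InjOn π (orb R x) ∧ ¬ Fx R (π x) := by
  simp only [Prm, not_forall, not_or] at hn
  obtain ⟨r, hr, H, ⟨a, ha, b, hb, hab, ne⟩, c, hc, d, hd, hcd⟩ := hn
  have he : ∀ g ∈ R, ∀ y ∈ orb R x,
      {z | z ∈ orb R x ∧ r (g • y) z} = g • {z | z ∈ orb R x ∧ r y z} := fun g hg y hy => by
    ext z
    rw [Set.mem_smul_set_iff_inv_smul_mem]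
    exact ⟨fun h => ⟨smul_mem_orb (inv_mem hg) h.1, by
        simpa using H _ (inv_mem hg) _ (smul_mem_orb hg hy) _ h.1 h.2⟩,
      fun h => ⟨by simpa using smul_mem_orb hg h.1, by simpa using H _ hg _ hy _ h.1 h.2⟩⟩
  refine ⟨fun y => {z | z ∈ orb R x ∧ r y z}, he, fun h => ne (h ha hb (Set.ext fun z =>
    and_congr_right fun _ => ⟨hr.trans (hr.symm hab), hr.trans hab⟩)), fun h => ?_⟩
  have k : ∀ y ∈ orb R x, r x y := by
    rintro _ ⟨g, hg, rfl⟩
    exact (((he g hg x (mem_orb_self R x)).trans (h g hg)).le ⟨⟨g, hg, rfl⟩, hr.refl _⟩).2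
  exact hcd (hr.trans (hr.symm (k c hc)) (k d hd))

/-- the union of the fibres over `A` -/
def impF (Γ : Set Ω) (π : Ω → Set Ω) (A : Set (Set Ω)) : Set Ω := {z | z ∈ Γ ∧ π z ∈ A}

omit [Finite G] [Finite Ω] in
theorem imp_inv {π : Ω → Set Ω} (he : ∀ g ∈ R, ∀ y ∈ orb R x, π (g • y) = g • π y)
    {L : Subgroup G} (hL : L ≤ R) {A : Set (Set Ω)} (hA : Inv L A) : Inv L (impF (orb R x) π A) :=
  fun g hg y hy => ⟨smul_mem_orb (hL hg) hy.1, he g (hL hg) y hy.1 ▸ hA g hg _ hy.2⟩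

theorem imp_fib (hg : Gn p R S) {π : Ω → Set Ω}
    (he : ∀ g ∈ R, ∀ y ∈ orb R x, π (g • y) = g • π y) (hnf : ¬ Fx R (π x))
    (ihE : ∀ (W T : Subgroup G) (y : Ω), Gn p W T → ¬ Fx W y →
      (orb W y).ncard < (orb R x).ncard → 0 ≤ ee p T (orb W y))
    {z : Ω} (hz : z ∈ orb R x) (h1 : Fx S (π z)) (h2 : ¬ Fx S z) {B : Set Ω} (hB : Fx S B) :
    0 ≤ ee p S (impF (orb R x) π {B}) := by
  have hW := gn_og (hg.syl.mono (le_inf hg.syl.le (fx_iff_le.1 hB)) inf_le_left)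
  have hL : Inv (R ⊓ stabilizer G B) (impF (orb R x) π {B}) :=
    imp_inv he inf_le_left (fx_iff_le.2 inf_le_right).inv_singleton
  have hI := hL.mono (og_le p _)
  refine ee_nonneg hg.syl.pgrp hW.syl.le hI fun w hw => ihE _ _ w hW (fun f => h2 ?_) ?_
  · obtain ⟨k, hk, e⟩ := exists_smul_of_mem_orb hz hw.1
    obtain ⟨n, hn, hn', e'⟩ := f1 hg.syl h1 hB ⟨k, hk, by rw [← he k hk z hz, e]; exact hw.2⟩
    obtain ⟨l, hl, e''⟩ := exists_smul_of_mem_orb hw.1 (smul_mem_orb hn hz)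
    refine (fx_smul_iff_of_mem_normalizer hn').1 (Fx.mono ?_ hW.syl.le)
    rw [← e'']
    refine inv_fixed (le_normalizer_og p _) l (mem_inf.2 ⟨hl, ?_⟩) w f
    change l • B = B
    nth_rw 1 [← show π w = B from hw.2]
    rw [← he l hl w hw.1, e'', he n hn z hz, e']
  · refine Set.ncard_lt_ncard ⟨(orb_subset hI hw).trans fun _ h => h.1, fun h => hnf fun g hg' => ?_⟩
    have k : ∀ y ∈ orb R x, π y = B := fun y hy => (orb_subset hI hw (h hy)).2
    rw [← he g hg' x (mem_orb_self R x), k _ (smul_mem_orb hg' (mem_orb_self R x)),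
      k _ (mem_orb_self R x)]

/-- Imprimitive step.  `Γ = orb R x`, `π` from `exists_blocks`, fibres
`Φ y = {z ∈ Γ | π z = π y}`, `g • Φ y = Φ (g • y)`, all of size `b ≥ 2`.  Let `x₀ ∈ Γ` be fixed by `S`.
* Type 1: `S` fixes `Φ x₀` pointwise.  Then `π` is a `P`-map: if `g ∈ R` is a `p`-element fixing
  `π y`, `y = h • x₀`, then `cj(h,S)` fixes `Φ y` pointwise, `g` preserves `Φ y`, F3 (`f3`).
* Type 2: some point of `Φ x₀` is moved by `S`.  Claim: `0 ≤ ee p S (Φ y)` whenever `Fx S (π y)`.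
  By F1 on `Set Ω` (`f1`), `π y = n • π x₀` with `n ∈ R ⊓ 𝐍[S]`, so `Φ y` also has a point moved by
  `S`.  `L = R ⊓ stabilizer G (π y)` is transitive on `Φ y` and normalizes `W = og p L`,
  `Gn p W S` (`gn_og`, `IsSyl.mono`), so `W` fixes no point of `Φ y` (`inv_fixed`); orbits of `W` in
  `Φ y` are smaller than `Γ` (`Φ y ≠ Γ` as `π` is not constant), so `ihE` + `ee_nonneg` give the
  claim.  Let `Γ₁ = {y ∈ Γ | Fx S (π y)}` (a disjoint union of such fibres: `0 ≤ ee p S Γ₁` by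
  induction on card with `ee_union`) and `Γ₂ = Γ \ Γ₁`: no point of `Γ₂` is fixed by `S`, and it
  contains the preimage of `orb S (π y)` for a block `π y` moved by `S` (`Gn.exists_moved` on
  `orb R (π x)`), so `|Γ₂| ≥ p b ≥ 2 p`, `qq p S Γ₂ ≥ 2`, `ee p S Γ₂ ≥ 2 (p-1)`. -/
theorem imp (hg : Gn p R S) (hf : fx S (orb R x) ≠ 0) (hn : ¬ Prm R (orb R x))
    (ihE : ∀ (W T : Subgroup G) (y : Ω), Gn p W T → ¬ Fx W y →
      (orb W y).ncard < (orb R x).ncard → 0 ≤ ee p T (orb W y)) :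
    2 * ((p : ℤ) - 1) ≤ ee p S (orb R x) ∨
      ∃ π : Ω → Set Ω, Pm p R (orb R x) π ∧ ¬ Set.InjOn π (orb R x) ∧ ¬ Fx R (π x) := by
  obtain ⟨π, he, hni, hnf⟩ := exists_blocks hn
  obtain ⟨x₀, hx₀, f₀⟩ := fx_ne_zero_iff.1 hf
  have hS := hg.syl.pgrp
  have hR := hg.syl.le
  have fπ : ∀ y ∈ orb R x, Fx S y → Fx S (π y) := fun y hy f s hs => by
    rw [← he s (hR hs) y hy, f s hs]
  by_cases t : ∀ z ∈ orb R x, π z = π x₀ → Fx S z
  · refine Or.inr ⟨π, ⟨he, fun g hg' pe y hy e => ?_⟩, hni, hnf⟩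
    obtain ⟨h, hh, rfl⟩ := exists_smul_of_mem_orb hx₀ hy
    refine f3 (hg.syl.cj_of_mem hh) (X := impF (orb R x) π {π (h • x₀)}) (fun z hz => ?_) hg' pe
      (fun z hz => ⟨smul_mem_orb hg' hz.1, ?_⟩) ⟨hy, rfl⟩
    · rw [← smul_inv_smul h z, fx_cj]
      refine t _ (smul_mem_orb (inv_mem hh) hz.1) ?_
      rw [he _ (inv_mem hh) z hz.1, show π z = _ from hz.2, he h hh x₀ hx₀, inv_smul_smul]
    · rw [he g hg' z hz.1, show π z = _ from hz.2]; exact e
  left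
  simp only [not_forall] at t
  obtain ⟨z, hz, ez, fz⟩ := t
  have h1 : ∀ A : Set (Set Ω), (∀ B ∈ A, Fx S B) → 0 ≤ ee p S (impF (orb R x) π A) := fun A => by
    induction A, A.toFinite using Set.Finite.induction_on with
    | empty => simp [impF, ee, qq, mv, fx]
    | @insert B A hB _ ih =>
      intro H
      have e : impF (orb R x) π (insert B A) = impF (orb R x) π {B} ∪ impF (orb R x) π A :=
        Set.ext fun _ => and_or_left
      rw [e, ee_union hS (imp_inv he hR (H B (.inl rfl)).inv_singleton)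
        (imp_inv he hR fun g hg C hC => (H C (.inr hC) g hg).symm ▸ hC)
        (Set.disjoint_left.2 fun y h h' => hB (h.2 ▸ h'.2))]
      exact add_nonneg (imp_fib hg he hnf ihE hz (ez ▸ fπ x₀ hx₀ f₀) fz (H B (.inl rfl)))
        (ih fun C hC => H C (.inr hC))
  have i1 : Inv S {B : Set Ω | Fx S B} := inv_fixed le_normalizer
  have i2 := imp_inv he hR i1.compl
  have e : orb R x = impF (orb R x) π {B | Fx S B} ∪ impF (orb R x) π {B | Fx S B}ᶜ :=
    Set.ext fun y => ⟨fun h => (em _).imp (fun k => ⟨h, k⟩) fun k => ⟨h, k⟩,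
      fun h => h.elim (·.1) (·.1)⟩
  have f2 : fx S (impF (orb R x) π {B | Fx S B}ᶜ) = 0 := by
    by_contra c
    obtain ⟨y, hy, f⟩ := fx_ne_zero_iff.1 c
    exact hy.2 (fπ y hy.1 f)
  obtain ⟨_, ⟨g, hg', rfl⟩, fB⟩ := hg.exists_moved hnf
  have gx := smul_mem_orb hg' (mem_orb_self R x)
  rw [← he g hg' x (mem_orb_self R x)] at fB
  generalize g • x = y at gx fB
  have c1 : orb S (π y) ⊆ π '' impF (orb R x) π {B | Fx S B}ᶜ := by
    rintro _ ⟨s, hs, rfl⟩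
    exact ⟨s • y, i2 s hs y ⟨gx, fB⟩, he s (hR hs) y gx⟩
  have c2 : (π '' impF (orb R x) π {B | Fx S B}ᶜ).ncard <
      (impF (orb R x) π {B | Fx S B}ᶜ).ncard := by
    refine lt_of_le_of_ne Set.ncard_image_le fun c => hni fun a ha b hb hab => ?_
    obtain ⟨k, hk, e⟩ := exists_smul_of_mem_orb ha gx
    have e2 : π (k • b) = π y := by rw [he k hk b hb, ← hab, ← he k hk a ha, e]
    exact MulAction.injective k (e.trans (Set.injOn_of_ncard_image_eq c (Set.toFinite _) ⟨gx, fB⟩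
      ⟨smul_mem_orb hk hb, e2 ▸ fB⟩ e2.symm))
  have c3 := ((le_ncard_orb hS fB).trans (Set.ncard_le_ncard c1)).trans_lt c2
  rw [ncard_eq hS i2, f2, zero_add] at c3
  have c4 : (2 : ℤ) ≤ qq p S (impF (orb R x) π {B | Fx S B}ᶜ) := by
    exact_mod_cast (Nat.lt_mul_iff_one_lt_right hp.out.pos).1 c3
  have c5 : (0 : ℤ) ≤ p - 1 := sub_nonneg.2 (by exact_mod_cast hp.out.one_le)
  have := h1 _ fun B (h : B ∈ {B : Set Ω | Fx S B}) => h
  rw [e, ee_union hS (imp_inv he hR i1) i2 (Set.disjoint_left.2 fun y h h' => h'.2 h.2)]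
  rw [ee.eq_1 p S (impF _ _ _ᶜ), f2]
  have := mul_le_mul_of_nonneg_left c4 c5
  push_cast
  linarith

end Cfsg.Agent.SFP
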