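import Cfsg.Agent.SFP.C

/-! SFP/Red: reduction to a faithful transitive group. -/

namespace Cfsg.Agent.SFP
open Subgroup MulAction Cfsg.Agent.PLocal.Amb
open scoped Pointwise

universe u v
variable {G : Type u} [Group G] {Ω : Type v} [MulAction G Ω] [Finite G] [Finite Ω] {p : ℕ}
  [hp : Fact p.Prime] {R S : Subgroup G}

/-- `Ω' = ↥(sub (inv_orb R x))`, `φ = MulAction.toPermHom ↥R Ω'`, `G' = ↥φ.range` (acting through
`Equiv.Perm.applyMulAction` and the subgroup action), `ψ = φ.rangeRestrict` (surjective),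
`S' = (S.subgroupOf R).map ψ`.  Sylow: `IsSyl.exists_sylow`, `isSyl_top`, `IsSyl.map`; every Sylow
`T` of `R` maps into `og p ⊤` (`le_og_of_isPGroup`), so the preimage of `og p ⊤` contains
`og p R = R`.  `Fx S' y ↔ Fx S (y : Ω)`, so the counts agree via `Subtype.val`
(`Set.ncard_image_of_injective`).  For `Prm`: extend a relation `r'` on `Ω'` to
`r a b := a = b ∨ ∃ ha hb, r' ⟨a, ha⟩ ⟨b, hb⟩`. -/
theorem red (hg : Gn p R S) (x : Ω) :
    ∃ (G' : Type v) (_ : Group G') (_ : Finite G') (Ω' : Type v) (_ : MulAction G' Ω')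
      (_ : Finite Ω') (S' : Subgroup G'),
      Gn p ⊤ S' ∧ (∀ g : G', (∀ y : Ω', g • y = y) → g = 1) ∧ (∀ y z : Ω', ∃ g : G', g • y = z) ∧
      Nonempty Ω' ∧ (Set.univ : Set Ω').ncard = (orb R x).ncard ∧
      fx S' (Set.univ : Set Ω') = fx S (orb R x) ∧ mv S' (Set.univ : Set Ω') = mv S (orb R x) ∧
      (Prm R (orb R x) → Prm (⊤ : Subgroup G') (Set.univ : Set Ω')) := by
  classical
  have hI : Inv R (orb R x) := fun g hg _ ⟨k, hk, e⟩ => ⟨g * k, mul_mem hg hk, by rw [mul_smul, e]⟩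
  let φ := MulAction.toPermHom ↥R ↥(sub hI)
  let ψ := φ.rangeRestrict
  have hψ : Function.Surjective ψ := φ.rangeRestrict_surjective
  have act : ∀ (g : R) (y : sub hI), ((ψ g • y : sub hI) : Ω) = (g : G) • (y : Ω) := fun _ _ => rfl
  have syl : ∀ T, IsSyl p T R → IsSyl p ((T.subgroupOf R).map ψ) ⊤ := fun T hT => by
    obtain ⟨P, hP⟩ := hT.exists_sylow
    have := (isSyl_top P).map ψ
    rwa [hP, map_top_of_surjective _ hψ] at this
  have fxi : ∀ y : sub hI, Fx ((S.subgroupOf R).map ψ) y ↔ Fx S (y : Ω) := fun y =>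
    ⟨fun k g hgS => (act ⟨g, hg.syl.le hgS⟩ y).symm.trans
      (congrArg Subtype.val (k _ (mem_map_of_mem ψ (mem_subgroupOf.2 hgS)))), fun k g hgS => by
      obtain ⟨r, hr, rfl⟩ := hgS
      exact Subtype.ext ((act r y).trans (k _ (mem_subgroupOf.1 hr)))⟩
  have img : ∀ P : Ω → Prop, {y : sub hI | y ∈ Set.univ ∧ P y}.ncard = {y | y ∈ orb R x ∧ P y}.ncard :=
    fun P => by
      rw [← Set.ncard_image_of_injective _ Subtype.val_injective]
      congr 1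
      ext y
      exact ⟨fun ⟨z, hz, e⟩ => e ▸ ⟨z.2, hz.2⟩, fun hy => ⟨⟨y, hy.1⟩, ⟨trivial, hy.2⟩, rfl⟩⟩
  refine ⟨↥φ.range, inferInstance, inferInstance, ↥(sub hI), inferInstance, inferInstance,
    (S.subgroupOf R).map ψ, ⟨syl S hg.syl, eq_top_iff.2 fun g _ => ?_⟩, fun g k => ?_,
    fun y z => ?_, ⟨⟨x, 1, one_mem _, one_smul _ _⟩⟩, ?_, ?_, ?_, fun hP r hr hi => ?_⟩
  · obtain ⟨r, rfl⟩ := hψ g
    have k : og p R ≤ ((og p ⊤).comap ψ).map R.subtype := iSup₂_le fun T hT t ht =>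
      ⟨⟨t, hT.le ht⟩, le_iSup₂_of_le (f := fun (T : Subgroup φ.range) (_ : IsSyl p T ⊤) => T) _
        (syl T hT) le_rfl (mem_map_of_mem ψ (mem_subgroupOf.2 ht)), rfl⟩
    obtain ⟨r', hr', e⟩ := k (hg.gen.ge r.2)
    rwa [← (Subtype.ext e : r' = r)]
  · exact Subtype.ext (Equiv.ext k)
  · obtain ⟨a, ha, ea⟩ := y.2
    obtain ⟨b, hb, eb⟩ := z.2
    refine ⟨ψ ⟨b * a⁻¹, mul_mem hb (inv_mem ha)⟩, Subtype.ext ((act _ y).trans ?_)⟩
    rw [← ea, ← eb, ← mul_smul, inv_mul_cancel_right]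
  · simpa using img fun _ => True
  · rw [fx, fx, ← img]
    simp only [fxi]
  · rw [mv, mv, ← img fun y => ¬ Fx S y]
    simp only [fxi]
  · have := hP (fun a b => a = b ∨ ∃ ha hb, r ⟨a, ha⟩ ⟨b, hb⟩) ⟨fun _ => .inl rfl, ?_, ?_⟩ ?_
    · refine this.imp (fun k a _ b _ hab => Subtype.ext (k a a.2 b b.2 (.inr ⟨a.2, b.2, hab⟩)))
        fun k a _ b _ => ?_
      rcases k a a.2 b b.2 with e | ⟨_, _, e⟩
      · rw [Subtype.ext e]
        exact hr.refl b
      · exact e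
    · rintro a b (e | ⟨ha, hb, e⟩)
      · exact .inl e.symm
      · exact .inr ⟨hb, ha, hr.symm e⟩
    · rintro a b c (rfl | ⟨ha, hb, e⟩) h2
      · exact h2
      rcases h2 with rfl | ⟨hb', hc, e'⟩
      · exact .inr ⟨ha, hb, e⟩
      · exact .inr ⟨ha, hc, hr.trans e e'⟩
    · rintro g hgR a ha b hb (rfl | ⟨ha', hb', e⟩)
      · exact .inl rfl
      · exact .inr ⟨hI g hgR a ha, hI g hgR b hb,
          hi (ψ ⟨g, hgR⟩) trivial ⟨a, ha'⟩ trivial ⟨b, hb'⟩ trivial e⟩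

end Cfsg.Agent.SFP
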