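import Cfsg.Agent.SFP.P3
import Cfsg.Agent.SFP.A1b
import Cfsg.Agent.SFP.A1c
import Cfsg.Agent.SFP.A2n
import Cfsg.Agent.SFP.A2b
import Cfsg.Agent.SFP.B1a
import Cfsg.Agent.SFP.B1b
import Cfsg.Agent.SFP.B2a
import Cfsg.Agent.SFP.B2b
import Cfsg.Agent.SFP.Imp
import Cfsg.Agent.SFP.Red

/-! SFP/Main: Theorem E (a group generated by its Sylow `p`-subgroups, acting without fixed points:
`p * fixed ≤ (p - 1) * moved` for a Sylow `p`-subgroup). -/

namespace Cfsg.Agent.SFP
open Subgroup MulAction Cfsg.Agent.PLocal.Amb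
open scoped Pointwise

universe u v

section p5
variable {G : Type u} [Group G] {Ω : Type v} [MulAction G Ω] [Finite G] [Finite Ω] {p : ℕ}
  [hp : Fact p.Prime] {S : Subgroup G}

theorem CA.card_eq (hA : CA p S Ω) (h : P5 p S Ω) : Nat.card S = p := by
  by_contra hc
  refine hA.a1b h hc fun β hβ U hU U' hU' h1 h2 => ?_
  by_contra hne
  obtain ⟨hq, V, hV, h3, h4⟩ := hA.a1c_num h hβ hU hU' hne h1 h2
  exact hA.a1c_geo h hq hV h3 h4

theorem CA.false (hA : CA p S Ω) (h : P5 p S Ω) : False := by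
  have hc := hA.card_eq h
  obtain ⟨α, hα⟩ := h.f1
  refine hA.a2n h hc hα fun β hβ => ?_
  by_contra hlt
  obtain ⟨Ω', _, _, π, hs⟩ := hA α hα β hβ
  obtain ⟨h1, h2, -⟩ := hs.count
  refine hA.a2b h hc hα hβ hs ?_
  by_contra h3
  have h4 : fx S (π '' orb (Ra p G α) β) ≤ 2 := by omega
  apply hlt
  rw [h2, mul_comm 2]
  exact Nat.mul_le_mul_left _ h4

theorem P5.false (h : P5 p S Ω) : False := by
  by_cases hA : CA p S Ω
  · exact hA.false h
  simp only [CA, not_forall] at hA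
  obtain ⟨α, hα, β', hβ', hns⟩ := hA
  have hP' := (h.res hα hβ').resolve_left hns
  have hc := h.b1a hα hβ' hP'
  have h5 := h.p5
  have ht := h.t_pos
  obtain ⟨γ, hγ, hγn⟩ := h.caseC hα hβ' hP'
  obtain ⟨⟨Ω', _, _, π, hs⟩, hle⟩ := h.bnum hα hβ' hP' hγ hγn
  have he1 := hs.ee_nonneg
  have hf0 : fx S (orb (Ra p G α) β') ≠ 0 := by
    intro h0
    rw [h0, Nat.zero_mod] at hle
    push_cast at hle
    omega
  obtain ⟨β, hβm, hβ⟩ := fx_ne_zero_iff.1 hf0
  have hβα := ne_of_mem_orb_ra hβ' hβm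
  rw [← orb_eq_of_mem hβm] at hP' hγn hle
  have he0 : ee p S (orb (Ra p G α) β) ≤ 2 * (p : ℤ) - 3 := by
    have := h.ee_le hα hβα
    omega
  obtain ⟨hq1, -, -, hee, -⟩ := hs.count
  have hlt : fx S (orb (Ra p G α) β) % p < p := Nat.mod_lt _ (by omega)
  have hml : fx S (orb (Ra p G α) β) % p ≤ fx S (orb (Ra p G α) β) := Nat.mod_le _ _
  have hfl := hs.bs.fx_lt
  have hge : (p : ℤ) - 1 - (fx S (π '' orb (Ra p G α) γ) : ℤ) ≤ ee p S (orb (Ra p G α) γ) := by
    rw [hee]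
    have h1 : (1 : ℤ) ≤ (qq p S (orb (Ra p G α) γ) : ℤ) := by exact_mod_cast hq1
    have h2 : (0 : ℤ) ≤ (p : ℤ) - 1 - (fx S (π '' orb (Ra p G α) γ) : ℤ) := by omega
    nlinarith
  rcases hP'.prm.normal (inv_orb _ _) (kr_le (Ra p G α) (π '' orb (Ra p G α) γ))
      (le_normalizer_kr hs.bs.inv) with hk | htr
  · by_cases hex : ∃ y ∈ π '' orb (Ra p G α) γ, Fx (og p (Ra p G α ⊓ stabilizer G β)) y
    · obtain ⟨y, hy, hfy⟩ := hex
      exact hs.bs.b2a h5 hβ hP'.prm hP'.two_le he0 hy hfy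
    · push Not at hex
      refine hs.bs.b2b h5 hc hβ (fun hf => hβα (h.eq_of_fx_ra hf)) hk hex (by omega) fun h2 => ?_
      omega
  · refine hs.bs.b1b h5 hc hβ (fun y hy => htr β (mem_orb_self _ _) y hy) hP'.two_le he0
      fun h2 => ?_
    omega

end p5

theorem ee_congr {G G' Ω Ω' : Type*} [Group G] [Group G'] [MulAction G Ω] [MulAction G' Ω']
    {p : ℕ} {S : Subgroup G} {S' : Subgroup G'} {Γ : Set Ω} {Γ' : Set Ω'}
    (h1 : fx S' Γ' = fx S Γ) (h2 : mv S' Γ' = mv S Γ) :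
    qq p S' Γ' = qq p S Γ ∧ ee p S' Γ' = ee p S Γ := by
  have : qq p S' Γ' = qq p S Γ := by rw [qq, qq, h2]
  exact ⟨this, by rw [ee, ee, this, h1]⟩

theorem std_of_bs {G : Type u} [Group G] {Ω : Type v} [MulAction G Ω] [Finite Ω] {p : ℕ}
    {R S : Subgroup G} {x : Ω} (h : Bs p R S (orb R x)) : Std p R S (orb R x) :=
  ⟨Ω, inferInstance, inferInstance, id, ⟨⟨x, rfl⟩, pm_id _ _ _, by rwa [Set.image_id]⟩⟩

theorem main (p : ℕ) [hp : Fact p.Prime] (n : ℕ) :
    ∀ (G : Type u) [Group G] [Finite G] (Ω : Type u) [MulAction G Ω] [Finite Ω]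
      (R S : Subgroup G) (x : Ω), Gn p R S → ¬ Fx R x → (orb R x).ncard = n →
      0 ≤ ee p S (orb R x) ∧ (5 ≤ p → Res p R S (orb R x)) := by
  induction n using Nat.strong_induction_on with
  | _ n ih =>
  intro G _ _ Ω _ _ R S x hg hx hn
  have hS : IsPGroup p S := hg.syl.pgrp
  have hSR : S ≤ R := hg.syl.le
  have hinv : Inv S (orb R x) := (inv_orb R x).mono hSR
  have hp2 := hp.out.two_le
  have hq1 : 1 ≤ qq p S (orb R x) := hg.one_le_qq hx
  have hmv := mv_eq hS hinv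
  have hp1 : (1 : ℤ) ≤ (p : ℤ) - 1 := by
    have : (2 : ℤ) ≤ p := by exact_mod_cast hp2
    omega
  by_cases hf : fx S (orb R x) = 0
  · have hq1' : (1 : ℤ) ≤ (qq p S (orb R x) : ℤ) := by exact_mod_cast hq1
    refine ⟨by rw [ee, hf]; push_cast; nlinarith, fun _ => ?_⟩
    rcases Nat.lt_or_ge 1 (qq p S (orb R x)) with h2 | h2
    · have h2' : (2 : ℤ) ≤ (qq p S (orb R x) : ℤ) := by exact_mod_cast h2
      refine Or.inr (Or.inr ?_)
      rw [ee, hf]; push_cast; nlinarith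
    · have hq : qq p S (orb R x) = 1 := by omega
      rw [hq, mul_one] at hmv
      have hc : (orb R x).ncard = p := by rw [← fx_add_mv S, hf, hmv, zero_add]
      exact Or.inl (std_of_bs (bs_of_mv hg (prm_of_prime (by rw [hc]; exact hp.out)) hmv))
  by_cases hprm : Prm R (orb R x)
  · -- primitive
    obtain ⟨G', _, _, Ω', _, _, S', hg', hfa, htr, hne, hcard, hfx, hmv', hpr⟩ := red hg x
    obtain ⟨hqq, hee⟩ := ee_congr (p := p) hfx hmv'
    have hlt : ∀ (R' : Subgroup G') (y : Ω'), orb R' y ≠ Set.univ → (orb R' y).ncard < n := by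
      intro R' y hy
      rw [← hn, ← hcard]
      exact Set.ncard_lt_ncard (Set.ssubset_univ_iff.2 hy) (Set.toFinite _)
    have hps : PS p S' Ω' :=
      { gn := hg'
        faith := hfa
        tr := htr
        prm := hpr hprm
        nt := by
          have h2 : 1 < (Set.univ : Set Ω').ncard := by
            rw [hcard, ← fx_add_mv S, hmv]
            have : p * 1 ≤ p * qq p S (orb R x) := Nat.mul_le_mul_left _ hq1
            omega
          rw [Set.ncard_univ] at h2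
          exact Finite.one_lt_card_iff_nontrivial.1 h2
        f1 := by
          obtain ⟨y, -, hy⟩ := fx_ne_zero_iff.1 (hfx ▸ hf)
          exact ⟨y, hy⟩
        ihE := fun R' T y h1 h2 h3 => (ih _ (hlt R' y h3) G' Ω' R' T y h1 h2 rfl).1 }
    have key : 5 ≤ p → Res p R S (orb R x) := by
      intro h5
      rcases Nat.lt_or_ge 1 (qq p S (orb R x)) with h2 | h2
      · refine Or.inr (Or.inl ⟨hprm, h2, ?_⟩)
        by_contra hb
        refine P5.false (p := p) (S := S') (Ω := Ω')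
          { hps with
            p5 := h5
            ih := fun R' T y h1 h2 h3 => (ih _ (hlt R' y h3) G' Ω' R' T y h1 h2 rfl).2 h5
            q2 := by rw [hqq]; exact h2
            bad := by rw [hee, hfx]; omega }
      · have hq : qq p S (orb R x) = 1 := by omega
        rw [hq, mul_one] at hmv
        exact Or.inl (std_of_bs (bs_of_mv hg hprm hmv))
    refine ⟨?_, key⟩
    rcases Nat.lt_or_ge p 5 with h5 | h5
    · rw [← hee]
      have h4 : p ≠ 4 := by
        rintro rfl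
        exact absurd hp.out (by decide)
      rcases (by omega : p = 2 ∨ p = 3) with h | h
      · exact hps.p2 h
      · exact hps.p3 h
    · exact (key h5).ee_nonneg
  · -- imprimitive
    rcases imp hg hf hprm (fun W T y h1 h2 h3 => (ih _ (hn ▸ h3) G Ω W T y h1 h2 rfl).1) with
      hbig | ⟨π, hpm, hni, hnf⟩
    · exact ⟨by omega, fun _ => Or.inr (Or.inr hbig)⟩
    obtain ⟨b, hb1, hfx, hmv', hcard, -, hb⟩ := hpm.count hS hSR
    have hb2 : 2 ≤ b := by
      have : b ≠ 1 := fun h => hni (hb.1 h)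
      omega
    have him := hpm.image_orb
    have hpos : 0 < (π '' orb R x).ncard := by
      rw [him]
      exact (Set.ncard_pos (Set.toFinite _)).2 ⟨_, mem_orb_self _ _⟩
    have hlt : (orb R (π x)).ncard < n := by
      rw [← him, ← hn, hcard]
      nlinarith
    obtain ⟨h0, hres⟩ := ih _ hlt G (Set Ω) R S (π x) hg hnf rfl
    have hmv2 := mv_eq hS ((inv_orb R (π x)).mono hSR)
    have hqq : qq p S (orb R x) = b * qq p S (orb R (π x)) := by
      apply Nat.eq_of_mul_eq_mul_left (by omega : 0 < p)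
      rw [← hmv, hmv', him, hmv2]; ring
    have hee : ee p S (orb R x) = (b : ℤ) * ee p S (orb R (π x)) := by
      rw [ee, ee, hqq, hfx, him]; push_cast; ring
    have hb2' : (2 : ℤ) ≤ b := by exact_mod_cast hb2
    refine ⟨by rw [hee]; positivity, fun h5 => ?_⟩
    rcases hres h5 with ⟨Ω', _, _, ρ, hs⟩ | hpt | hbig
    · refine Or.inl ⟨Ω', inferInstance, inferInstance, ρ ∘ π, ⟨⟨x, rfl⟩, hpm.comp (him ▸ hs.pm), ?_⟩⟩
      rw [Set.image_comp, him]
      exact hs.bs
    · have := hpt.le_ee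
      refine Or.inr (Or.inr ?_)
      rw [hee]; nlinarith
    · refine Or.inr (Or.inr ?_)
      rw [hee]; nlinarith

/-- Theorem E. -/
theorem thmE {G : Type u} [Group G] [Finite G] {Ω : Type v} [MulAction G Ω] [Finite Ω] {p : ℕ}
    [hp : Fact p.Prime] {R S : Subgroup G} (hg : Gn p R S) {Δ : Set Ω} (hΔ : Inv R Δ)
    (hno : ∀ x ∈ Δ, ¬ Fx R x) : p * fx S Δ ≤ (p - 1) * mv S Δ := by
  have hS : IsPGroup p S := hg.syl.pgrp
  have hSR : S ≤ R := hg.syl.le
  rw [← ee_nonneg_iff hS (hΔ.mono hSR)]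
  refine ee_nonneg hS hSR hΔ fun x hx => ?_
  obtain ⟨G', _, _, Ω', _, _, S', hg', -, htr, ⟨y⟩, -, hfx, hmv, -⟩ := red hg x
  obtain ⟨-, hee⟩ := ee_congr (p := p) hfx hmv
  have hy : ¬ Fx (⊤ : Subgroup G') y := by
    intro hy
    have h0 : mv S' (Set.univ : Set Ω') ≠ 0 := by
      rw [hmv]
      exact mv_ne_zero_iff.2 (hg.exists_moved (hno x hx))
    obtain ⟨z, -, hz⟩ := mv_ne_zero_iff.1 h0
    obtain ⟨g, rfl⟩ := htr y z
    rw [hy g trivial] at hz
    exact hz (hy.mono le_top)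
  have := (main p _ G' Ω' ⊤ S' y hg' hy rfl).1
  rwa [orb_top_eq_univ htr, hee] at this

end Cfsg.Agent.SFP
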