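import Cfsg.Agent.SFP.Defs

/-! SFP/A: elementary API for `orb`, `Inv`, `Fx` and transport by conjugation (all 1-8 lines). -/

namespace Cfsg.Agent.SFP
open Subgroup MulAction Cfsg.Agent.PLocal.Amb
open scoped Pointwise

variable {G : Type*} [Group G] {Ω : Type*} [MulAction G Ω] {p : ℕ} {R S T : Subgroup G}
  {Γ Δ : Set Ω} {x y z : Ω} {g : G}

theorem mem_orb_self (R : Subgroup G) (x : Ω) : x ∈ orb R x := ⟨1, one_mem _, one_smul _ _⟩
theorem smul_mem_orb (hg : g ∈ R) (hy : y ∈ orb R x) : g • y ∈ orb R x := by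
  obtain ⟨h, hh, rfl⟩ := hy
  exact ⟨g * h, mul_mem hg hh, mul_smul _ _ _⟩
theorem inv_orb (R : Subgroup G) (x : Ω) : Inv R (orb R x) := fun _ hg _ hy => smul_mem_orb hg hy
theorem mem_orb_symm (h : y ∈ orb R x) : x ∈ orb R y := by
  obtain ⟨h, hh, rfl⟩ := h
  exact ⟨h⁻¹, inv_mem hh, inv_smul_smul _ _⟩
theorem mem_orb_trans (h : y ∈ orb R x) (h' : z ∈ orb R y) : z ∈ orb R x := by
  obtain ⟨k, hk, rfl⟩ := h'
  exact smul_mem_orb hk h
theorem orb_eq_of_mem (h : y ∈ orb R x) : orb R y = orb R x :=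
  Set.ext fun _ => ⟨mem_orb_trans h, mem_orb_trans (mem_orb_symm h)⟩
theorem exists_smul_of_mem_orb (hy : y ∈ orb R x) (hz : z ∈ orb R x) : ∃ g ∈ R, g • y = z :=
  mem_orb_trans (mem_orb_symm hy) hz
theorem orb_subset (h : Inv R Γ) (hx : x ∈ Γ) : orb R x ⊆ Γ := by
  rintro _ ⟨k, hk, rfl⟩
  exact h k hk x hx
theorem orb_mono (h : S ≤ R) (x : Ω) : orb S x ⊆ orb R x := fun _ ⟨k, hk, e⟩ => ⟨k, h hk, e⟩
theorem disjoint_orb (h : y ∉ orb R x) : Disjoint (orb R x) (orb R y) :=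
  Set.disjoint_left.2 fun _ h1 h2 => h (mem_orb_trans h1 (mem_orb_symm h2))
theorem orb_top_eq_univ (h : ∀ x y : Ω, ∃ g : G, g • x = y) (x : Ω) :
    orb (⊤ : Subgroup G) x = Set.univ :=
  Set.eq_univ_of_forall fun y => (h x y).imp fun _ e => ⟨mem_top _, e⟩

theorem Inv.mono (h : Inv R Γ) (hS : S ≤ R) : Inv S Γ := fun g hg => h g (hS hg)
theorem Inv.smul_mem_iff (h : Inv R Γ) (hg : g ∈ R) : g • x ∈ Γ ↔ x ∈ Γ :=
  ⟨fun k => inv_smul_smul g x ▸ h _ (inv_mem hg) _ k, h g hg x⟩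
theorem Inv.smul_set (h : Inv R Γ) (hg : g ∈ R) : g • Γ = Γ :=
  Set.ext fun _ => Set.mem_smul_set_iff_inv_smul_mem.trans (h.smul_mem_iff (inv_mem hg))
theorem Inv.compl (h : Inv R Γ) : Inv R Γᶜ := fun _ hg _ hx => mt (h.smul_mem_iff hg).1 hx
theorem Inv.diff (h : Inv R Γ) (h' : Inv R Δ) : Inv R (Γ \ Δ) := fun g hg x hx =>
  ⟨h g hg x hx.1, h'.compl g hg x hx.2⟩
theorem Inv.union (h : Inv R Γ) (h' : Inv R Δ) : Inv R (Γ ∪ Δ) := fun g hg x hx =>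
  hx.imp (h g hg x) (h' g hg x)
theorem Inv.inter (h : Inv R Γ) (h' : Inv R Δ) : Inv R (Γ ∩ Δ) := fun g hg x hx =>
  ⟨h g hg x hx.1, h' g hg x hx.2⟩
theorem inv_univ (R : Subgroup G) : Inv R (Set.univ : Set Ω) := fun _ _ _ _ => trivial
theorem Inv.sup (h : Inv R Γ) (h' : Inv S Γ) : Inv (R ⊔ S) Γ := fun g hg x hx => by
  have : g • Γ = Γ := (sup_le (fun _ => h.smul_set) (fun _ => h'.smul_set) :
    R ⊔ S ≤ stabilizer G Γ) hg
  exact this ▸ Set.smul_mem_smul_set hx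

theorem fx_iff_le : Fx S x ↔ S ≤ stabilizer G x := Iff.rfl
theorem Fx.mono (h : Fx R x) (hS : S ≤ R) : Fx S x := fun g hg => h g (hS hg)
theorem Fx.sup (h : Fx R x) (h' : Fx S x) : Fx (R ⊔ S) x := fx_iff_le.2 (sup_le h h')
theorem Fx.inv_singleton (h : Fx R x) : Inv R ({x} : Set Ω) := by
  rintro g hg _ rfl
  exact h g hg
theorem fx_iff_orb : Fx R x ↔ orb R x = {x} :=
  ⟨fun h => (orb_subset h.inv_singleton rfl).antisymm (Set.singleton_subset_iff.2 (mem_orb_self R x)),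
    fun h _ hg => h.le (smul_mem_orb hg (mem_orb_self R x))⟩
theorem Fx.eq_of_mem_orb (h : Fx R x) (hy : x ∈ orb R y) : y = x := (fx_iff_orb.1 h).le (mem_orb_symm hy)
theorem not_fx_of_mem_orb (h : ¬ Fx R x) (hy : y ∈ orb R x) : ¬ Fx R y := fun k =>
  h (k.eq_of_mem_orb hy ▸ k)
theorem fx_cj : Fx cj(g, S) (g • x) ↔ Fx S x :=
  ⟨fun h s hs => MulAction.injective g (by
    simpa [mul_smul] using h (g * s * g⁻¹) ⟨s, hs, rfl⟩), by
    rintro h _ ⟨s, hs, rfl⟩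
    simp [mul_smul, h s hs]⟩
theorem fx_smul_iff_of_mem_normalizer (hn : g ∈ 𝐍[S]) : Fx S (g • x) ↔ Fx S x := by
  rw [← fx_cj (g := g) (x := x), cj_of_mem_normalizer hn]
/-- the fixed points of `S` are invariant under any group normalizing `S` -/
theorem inv_fixed (h : R ≤ 𝐍[S]) : Inv R {x : Ω | Fx S x} := fun _ hg _ hx =>
  (fx_smul_iff_of_mem_normalizer (h hg)).2 hx
theorem stabilizer_smul (g : G) (x : Ω) : stabilizer G (g • x) = cj(g, stabilizer G x) :=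
  stabilizer_smul_eq_stabilizer_map_conj g x
theorem orb_cj (g : G) (R : Subgroup G) (x : Ω) : orb cj(g, R) (g • x) = g • orb R x := by
  ext y
  constructor
  · rintro ⟨_, ⟨s, hs, rfl⟩, rfl⟩
    exact ⟨s • x, ⟨s, hs, rfl⟩, by simp [mul_smul]⟩
  · rintro ⟨_, ⟨s, hs, rfl⟩, rfl⟩
    exact ⟨_, ⟨s, hs, rfl⟩, by simp [mul_smul]⟩
theorem inv_cj (h : Inv R Γ) (g : G) : Inv cj(g, R) (g • Γ) := by
  rintro _ ⟨s, hs, rfl⟩ _ ⟨y, hy, rfl⟩
  exact ⟨s • y, h s hs y hy, by simp [mul_smul]⟩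

theorem fx_cj' (g : G) (S : Subgroup G) (Γ : Set Ω) : fx cj(g, S) (g • Γ) = fx S Γ := by
  rw [fx, fx, ← Set.ncard_smul_set g {x | x ∈ Γ ∧ Fx S x}]
  congr 1
  ext y
  obtain ⟨y, rfl⟩ := MulAction.surjective g y
  simp only [Set.mem_setOf_eq, Set.smul_mem_smul_set_iff, fx_cj]
theorem mv_cj (g : G) (S : Subgroup G) (Γ : Set Ω) : mv cj(g, S) (g • Γ) = mv S Γ := by
  rw [mv, mv, ← Set.ncard_smul_set g {x | x ∈ Γ ∧ ¬ Fx S x}]
  congr 1
  ext y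
  obtain ⟨y, rfl⟩ := MulAction.surjective g y
  simp only [Set.mem_setOf_eq, Set.smul_mem_smul_set_iff, fx_cj]
theorem qq_cj (g : G) (S : Subgroup G) (Γ : Set Ω) : qq p cj(g, S) (g • Γ) = qq p S Γ := by
  rw [qq, qq, mv_cj]
theorem ee_cj (g : G) (S : Subgroup G) (Γ : Set Ω) : ee p cj(g, S) (g • Γ) = ee p S Γ := by
  rw [ee, ee, qq_cj, fx_cj']

/-- orbit-stabilizer (use `MulAction.orbitEquivQuotientStabilizer ↥R x` / `index_stabilizer`) -/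
theorem ncard_orb (R : Subgroup G) (x : Ω) : (orb R x).ncard = (stabilizer G x).relIndex R := by
  rw [show (stabilizer G x).relIndex R = (stabilizer R x).index from rfl, index_stabilizer]
  exact congrArg _ (Set.ext fun _ => ⟨fun ⟨g, hg, e⟩ => ⟨⟨g, hg⟩, e⟩, fun ⟨g, e⟩ => ⟨g, g.2, e⟩⟩)

theorem pe_of_mem (hT : IsPGroup p T) (hg : g ∈ T) : PE p g := (hT ⟨g, hg⟩).imp fun _ => congrArg Subtype.val
theorem PE.isPGroup_zpowers (h : PE p g) : IsPGroup p (zpowers g) := by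
  rintro ⟨_, n, rfl⟩
  obtain ⟨k, hk⟩ := h
  exact ⟨k, Subtype.ext (by
    change (g ^ n) ^ p ^ k = 1
    rw [← zpow_natCast, ← zpow_mul, mul_comm, zpow_mul, zpow_natCast, hk, one_zpow])⟩
theorem PE.conj (h : PE p g) (k : G) : PE p (k * g * k⁻¹) := h.imp fun _ e => by
  rw [conj_pow, e, mul_one, mul_inv_cancel]
theorem PE.pow (h : PE p g) (n : ℕ) : PE p (g ^ n) := h.imp fun _ e => by
  rw [← pow_mul, mul_comm, pow_mul, e, one_pow]

/-- take `s₀ ∈ T` moving `x` and the largest `k` with `s₀^(p^k) • x ≠ x` (`Nat.find`). -/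
theorem exists_pcycle (hT : IsPGroup p T) (h : ¬ Fx T x) :
    ∃ s ∈ T, s • x ≠ x ∧ s ^ p • x = x := by
  classical
  obtain ⟨s, hs⟩ := not_forall.1 h
  obtain ⟨h1, h2⟩ := _root_.not_imp.1 hs
  have e : ∃ k, s ^ p ^ k • x = x := (pe_of_mem hT h1).imp fun _ e => by rw [e, one_smul]
  obtain ⟨k, hk⟩ := Nat.exists_eq_succ_of_ne_zero (n := Nat.find e) fun z =>
    h2 (by simpa [z] using Nat.find_spec e)
  exact ⟨s ^ p ^ k, pow_mem h1 _, Nat.find_min e (by omega), by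
    rw [← pow_mul, ← pow_succ, ← Nat.succ_eq_add_one, ← hk]; exact Nat.find_spec e⟩

end Cfsg.Agent.SFP
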