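import Cfsg.Agent.SFP.Loc
import Cfsg.Agent.SFP.J

/-! SFP/A1a: case A, the sets `DD p U Ω` for `U ∈ HH S Ω`. -/

namespace Cfsg.Agent.SFP
open Subgroup MulAction Cfsg.Agent.PLocal.Amb
open scoped Pointwise

universe u v

variable {G : Type u} [Group G] {Ω : Type v} [MulAction G Ω] [Finite G] [Finite Ω] {p : ℕ}
  [hp : Fact p.Prime] {S U : Subgroup G} {α β γ : Ω}

omit [Finite G] [Finite Ω] hp in
theorem hh_le (hU : U ∈ HH S Ω) : U ≤ S := by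
  obtain ⟨γ, -, rfl⟩ := hU
  exact inf_le_left
omit [Finite G] [Finite Ω] hp in
theorem hh_cj (hU : U ∈ HH S Ω) {n : G} (hn : n ∈ 𝐍[S]) : cj(n, U) ∈ HH S Ω := by
  obtain ⟨γ, hγ, rfl⟩ := hU
  exact ⟨n • γ, mt (fx_smul_iff_of_mem_normalizer hn).1 hγ, by
    rw [cj_inf, cj_of_mem_normalizer hn, stabilizer_smul]⟩
omit [Finite G] [Finite Ω] hp in
theorem dd_cj (g : G) (U : Subgroup G) : DD p cj(g, U) Ω = g • DD p U Ω := by
  ext x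
  obtain ⟨y, rfl⟩ := MulAction.surjective g x
  rw [Set.smul_mem_smul_set_iff]
  change Fx _ _ ∧ ¬ Fx _ _ ↔ Fx _ _ ∧ ¬ Fx _ _
  rw [normalizer_cj, og_cj, fx_cj, fx_cj]
omit [Finite G] [Finite Ω] hp in
theorem inv_dd (U : Subgroup G) : Inv 𝐍[U] (DD p U Ω) := fun g hg x hx => by
  have := Set.smul_mem_smul_set (a := g) hx
  rwa [← dd_cj, cj_of_mem_normalizer hg] at this
/-- `γ` moved lies in a standard orbit of `R_α` (`α` from `f1`); `Sd.stab`, `Bs.relIndex_kr` -/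
theorem CA.relIndex (hA : CA p S Ω) (h : P5 p S Ω) (hU : U ∈ HH S Ω) : U.relIndex S = p := by
  obtain ⟨γ, hγ, rfl⟩ := hU
  obtain ⟨α, hα⟩ := h.f1
  obtain ⟨Ω', _, _, π, hs⟩ := hA α hα γ fun e => hγ (e ▸ hα)
  rw [hs.stab (mem_orb_self _ _) hγ]
  exact hs.bs.relIndex_kr
/-- index `p` in a `p`-group -/
theorem CA.le_normalizer (hA : CA p S Ω) (h : P5 p S Ω) (hU : U ∈ HH S Ω) : S ≤ 𝐍[U] := by
  refine (normal_subgroupOf_iff_le_normalizer (hh_le hU)).1 (normal_of_index_eq_minFac_card ?_)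
  have e : (U.subgroupOf S).index = p := hA.relIndex h hU
  have d := (U.subgroupOf S).index_dvd_card
  obtain ⟨n, hn⟩ := IsPGroup.iff_card.1 h.gn.syl.pgrp
  rw [e, hn] at d ⊢
  refine (hp.out.pow_minFac ?_).symm
  rintro rfl
  exact hp.out.one_lt.ne' (Nat.dvd_one.1 d)
theorem CA.gn (hA : CA p S Ω) (h : P5 p S Ω) (hU : U ∈ HH S Ω) : Gn p (og p 𝐍[U]) S :=
  gn_og (h.gn.syl.mono (hA.le_normalizer h hU) le_top)
theorem CA.inv (hA : CA p S Ω) (h : P5 p S Ω) (hU : U ∈ HH S Ω) : Inv S (DD p U Ω) :=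
  (inv_dd U).mono (hA.le_normalizer h hU)
/-- `→`: `U ≤ S ⊓ stabilizer γ`, both of index `p`; `←`: `S ≤ og p 𝐍[U]` moves `γ` -/
theorem CA.mem_dd_iff (hA : CA p S Ω) (h : P5 p S Ω) (hU : U ∈ HH S Ω) (hγ : ¬ Fx S γ) :
    γ ∈ DD p U Ω ↔ S ⊓ stabilizer G γ = U := by
  refine ⟨fun k => ?_, fun e => ⟨fx_iff_le.2 (e.ge.trans inf_le_right),
    fun k => hγ (k.mono (hA.gn h hU).syl.le)⟩⟩
  have l : U ≤ S ⊓ stabilizer G γ := le_inf (hh_le hU) (fx_iff_le.1 k.1)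
  have e := relIndex_mul_relIndex U _ S l inf_le_left
  rw [hA.relIndex h hU, hA.relIndex h ⟨γ, hγ, rfl⟩] at e
  exact le_antisymm (relIndex_eq_one.1 (Nat.eq_of_mul_eq_mul_right hp.out.pos
    (e.trans (one_mul p).symm))) l
theorem CA.one_le_qq (hA : CA p S Ω) (h : P5 p S Ω) (hU : U ∈ HH S Ω) :
    1 ≤ qq p S (DD p U Ω) := by
  obtain ⟨γ, hγ, e⟩ := id hU
  exact (one_le_qq_iff h.gn.syl.pgrp (hA.inv h hU)).2 ⟨γ, (hA.mem_dd_iff h hU hγ).2 e.symm, hγ⟩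
/-- if `⊥ ∈ HH` then `card S = p` (`relIndex_bot_left`) -/
theorem CA.ne_bot (hA : CA p S Ω) (h : P5 p S Ω) (hc : Nat.card S ≠ p) (hU : U ∈ HH S Ω) :
    U ≠ ⊥ := by
  rintro rfl
  exact hc ((relIndex_bot_left S).symm.trans (hA.relIndex h hU))
/-- if `card S = p` every member of `HH` is `⊥` -/
theorem CA.eq_bot (hA : CA p S Ω) (h : P5 p S Ω) (hc : Nat.card S = p) (hU : U ∈ HH S Ω) :
    U = ⊥ := by
  have e := relIndex_mul_relIndex ⊥ U S bot_le (hh_le hU)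
  rw [relIndex_bot_left, relIndex_bot_left, hA.relIndex h hU, hc] at e
  exact card_eq_one.1 (Nat.eq_of_mul_eq_mul_right hp.out.pos (e.trans (one_mul p).symm))
/-- `W = og p 𝐍[U]` has no fixed point in `DD`, its orbits there consist of fixed points of
`U ≠ ⊥` so are `≠ univ` (`PS.eq_bot`); `ihE`, `ee_nonneg` -/
theorem CA.ee_dd (hA : CA p S Ω) (h : P5 p S Ω) (hU : U ∈ HH S Ω) (hne : U ≠ ⊥) :
    0 ≤ ee p S (DD p U Ω) := by
  have i : Inv (og p 𝐍[U]) (DD p U Ω) := (inv_dd U).mono (og_le _ _)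
  exact ee_nonneg h.gn.syl.pgrp (hA.gn h hU).syl.le i fun x hx =>
    h.ihE _ _ x (hA.gn h hU) hx.2 fun e => hne (h.toPS.eq_bot fun y =>
      (SFP.orb_subset i hx (e ▸ Set.mem_univ y)).1)
/-- `U = S ⊓ kr R (π '' Γ) = S ⊓ stabilizer σ` (`Sd.stab`, `σ ∈ Γ` moved); `Sd.j4`; `Sd.fratt`:
`cj(n,S) ≤ 𝐍[U]` is a `p`-group, so lies in `og p 𝐍[U]`, and moves `x`. -/
theorem CA.orb_subset (hA : CA p S Ω) (h : P5 p S Ω) (hα : Fx S α) (hβ : β ≠ α) :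
    ∃ U ∈ HH S Ω, orb (Ra p G α) β ⊆ DD p U Ω := by
  obtain ⟨Ω', _, _, π, hs⟩ := hA α hα β hβ
  obtain ⟨_, ⟨σ, hσ, rfl⟩, hm⟩ := hs.bs.exists_moved
  have hm' : ¬ Fx S σ := mt (hs.pm.fx_iff hs.bs.gn.syl.pgrp hs.bs.gn.syl.le hσ).2 hm
  refine ⟨_, ⟨σ, hm', rfl⟩, fun x hx => ⟨?_, fun k => ?_⟩⟩
  · rw [hs.stab hσ hm']
    exact hs.j4 hx
  · obtain ⟨n, -, hn, f⟩ := hs.fratt hx
    rw [← hs.stab hσ hm'] at hn
    exact f (k.mono (le_og_of_isPGroup (isPGroup_cj n h.gn.syl.pgrp)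
      (cj_le_of_mem (hA.le_normalizer h ⟨σ, hm', rfl⟩) hn)))
/-- moved: `U = S ⊓ stabilizer x`; fixed: `P5.exists_ne` and `orb_subset` -/
theorem CA.exists_mem_dd (hA : CA p S Ω) (h : P5 p S Ω) (x : Ω) :
    ∃ U ∈ HH S Ω, x ∈ DD p U Ω := by
  by_cases hx : Fx S x
  · obtain ⟨y, hy, hf⟩ := h.exists_ne x
    obtain ⟨U, hU, k⟩ := hA.orb_subset h hf hy.symm
    exact ⟨U, hU, k (mem_orb_self _ _)⟩
  · exact ⟨_, ⟨x, hx, rfl⟩, (hA.mem_dd_iff h ⟨x, hx, rfl⟩ hx).2 rfl⟩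
/-- the moved points are partitioned by `γ ↦ S ⊓ stabilizer γ` (`mem_dd_iff`,
`Finset.card_eq_sum_card_fiberwise`), and `mv = p * qq` (`mv_eq`) -/
theorem CA.sum_qq (hA : CA p S Ω) (h : P5 p S Ω) (H : Finset (Subgroup G))
    (hH : ∀ U, U ∈ H ↔ U ∈ HH S Ω) :
    ∑ U ∈ H, qq p S (DD p U Ω) = qq p S (Set.univ : Set Ω) := by
  classical
  refine Nat.eq_of_mul_eq_mul_left hp.out.pos ?_
  rw [← mv_eq h.gn.syl.pgrp (inv_univ S), Finset.mul_sum, mv, Set.ncard_eq_toFinset_card _,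
    Finset.card_eq_sum_card_fiberwise (f := fun γ => S ⊓ stabilizer G γ) (t := H) fun γ hγ =>
      (hH _).2 ⟨γ, ((Set.Finite.mem_toFinset _).1 hγ).2, rfl⟩]
  refine Finset.sum_congr rfl fun U hU => ?_
  rw [← mv_eq h.gn.syl.pgrp (hA.inv h ((hH U).1 hU)), mv, ← Set.ncard_coe_finset]
  congr 1
  ext γ
  simp only [Finset.coe_filter, Set.Finite.mem_toFinset, Set.mem_ofPred_eq, Set.mem_univ, true_and]
  exact ⟨fun k => ⟨k.2, (hA.mem_dd_iff h ((hH U).1 hU) k.2).1 k.1⟩,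
    fun k => ⟨(hA.mem_dd_iff h ((hH U).1 hU) k.1).2 k.2, k.1⟩⟩

end Cfsg.Agent.SFP
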