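import Cfsg.Agent.SFP.A

/-! SFP/A2: counting API for `fx`, `mv`, `qq`, `ee` (finite `Ω`). -/

namespace Cfsg.Agent.SFP
open Subgroup MulAction Cfsg.Agent.PLocal.Amb
open scoped Pointwise

variable {G : Type*} [Group G] {Ω : Type*} [MulAction G Ω] [Finite Ω] {p : ℕ}
  {R S T : Subgroup G} {Γ Δ : Set Ω} {x y z : Ω} {g : G}

theorem fx_add_mv (S : Subgroup G) (Γ : Set Ω) : fx S Γ + mv S Γ = Γ.ncard := by
  rw [fx, mv, ← Set.ncard_union_eq (by
    rw [Set.disjoint_left]; intro x hx hx'; exact hx'.2 hx.2)]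
  congr 1
  ext x
  by_cases h : Fx S x <;> simp [h]

theorem fx_union (S : Subgroup G) (h : Disjoint Γ Δ) : fx S (Γ ∪ Δ) = fx S Γ + fx S Δ := by
  rw [fx, fx, fx, ← Set.ncard_union_eq (h.mono (fun _ hx => hx.1) (fun _ hx => hx.1))]
  congr 1
  ext x
  simp only [Set.mem_ofPred_eq, Set.mem_union]
  tauto

theorem mv_union (S : Subgroup G) (h : Disjoint Γ Δ) : mv S (Γ ∪ Δ) = mv S Γ + mv S Δ := by
  rw [mv, mv, mv, ← Set.ncard_union_eq (h.mono (fun _ hx => hx.1) (fun _ hx => hx.1))]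
  congr 1
  ext x
  simp only [Set.mem_ofPred_eq, Set.mem_union]
  tauto

theorem fx_mono (S : Subgroup G) (h : Γ ⊆ Δ) : fx S Γ ≤ fx S Δ := 
  Set.ncard_le_ncard (fun _ hx => ⟨h hx.1, hx.2⟩)

theorem mv_mono (S : Subgroup G) (h : Γ ⊆ Δ) : mv S Γ ≤ mv S Δ := 
  Set.ncard_le_ncard (fun _ hx => ⟨h hx.1, hx.2⟩)

theorem qq_mono (S : Subgroup G) (h : Γ ⊆ Δ) : qq p S Γ ≤ qq p S Δ := 
  Nat.div_le_div_right (mv_mono S h)

theorem fx_ne_zero_iff : fx S Γ ≠ 0 ↔ ∃ x ∈ Γ, Fx S x := by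
  rw [fx, ← Nat.pos_iff_ne_zero, Set.ncard_pos]
  exact Iff.rfl

theorem mv_ne_zero_iff : mv S Γ ≠ 0 ↔ ∃ x ∈ Γ, ¬ Fx S x := by
  rw [mv, ← Nat.pos_iff_ne_zero, Set.ncard_pos]
  exact Iff.rfl

theorem fx_compl_singleton (h : Fx S x) :
    fx S ({x}ᶜ : Set Ω) + 1 = fx S (Set.univ : Set Ω) := by
  have h1 : fx S ({x} : Set Ω) = 1 := by
    rw [fx, Set.ncard_eq_one]
    refine ⟨x, ?_⟩
    ext y
    simp only [Set.mem_ofPred_eq, Set.mem_singleton_iff]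
    exact ⟨fun hy => hy.1, fun hy => ⟨hy, hy ▸ h⟩⟩
  rw [← h1, ← fx_union S disjoint_compl_left, Set.compl_union_self]

theorem mv_compl_singleton (h : Fx S x) :
    mv S ({x}ᶜ : Set Ω) = mv S (Set.univ : Set Ω) := by
  rw [mv, mv]
  congr 1
  ext y
  simp only [Set.mem_ofPred_eq, Set.mem_compl_iff, Set.mem_singleton_iff, Set.mem_univ, true_and]
  exact ⟨fun hy => hy.2, fun hy => ⟨fun e => hy (e ▸ h), hy⟩⟩

theorem qq_compl_singleton (h : Fx S x) :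
    qq p S ({x}ᶜ : Set Ω) = qq p S (Set.univ : Set Ω) := by
  rw [qq, qq, mv_compl_singleton h]

theorem ee_compl_singleton (h : Fx S x) :
    ee p S ({x}ᶜ : Set Ω) = ee p S (Set.univ : Set Ω) + 1 := by
  rw [ee, ee, qq_compl_singleton h, ← fx_compl_singleton h]
  push_cast
  ring


variable [hp : Fact p.Prime]

/-- `IsPGroup.card_modEq_card_fixedPoints` for `↥S` acting on `↥(sub h)`, `h` the invariance of the
moved points `{x | x ∈ Γ ∧ ¬ Fx S x}` (no fixed points there). -/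
theorem dvd_mv (hS : IsPGroup p S) (h : Inv S Γ) : p ∣ mv S Γ := by
  have hI : Inv S {x | x ∈ Γ ∧ ¬ Fx S x} := by
    intro g hg x hx
    refine ⟨h g hg x hx.1, fun hf => hx.2 ?_⟩
    have h1 := hf g⁻¹ (S.inv_mem hg)
    rw [inv_smul_smul] at h1
    rw [h1]
    exact hf
  have h1 := hS.card_modEq_card_fixedPoints ↥(sub hI)
  have h2 : Nat.card (fixedPoints ↥S ↥(sub hI)) = 0 := by
    rw [Nat.card_eq_zero]
    left
    refine ⟨fun a => a.1.2.2 fun g hg => ?_⟩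
    exact congrArg Subtype.val (a.2 ⟨g, hg⟩)
  rw [h2] at h1
  exact (Nat.modEq_zero_iff_dvd).1 h1

theorem mv_eq (hS : IsPGroup p S) (h : Inv S Γ) : mv S Γ = p * qq p S Γ := 
  (Nat.mul_div_cancel' (dvd_mv hS h)).symm

theorem ncard_eq (hS : IsPGroup p S) (h : Inv S Γ) : Γ.ncard = fx S Γ + p * qq p S Γ := by
  rw [← mv_eq hS h, fx_add_mv]

theorem one_le_qq_iff (hS : IsPGroup p S) (h : Inv S Γ) :
    1 ≤ qq p S Γ ↔ ∃ x ∈ Γ, ¬ Fx S x := by
  rw [← mv_ne_zero_iff, mv_eq hS h, Nat.one_le_iff_ne_zero]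
  simp [hp.out.ne_zero]

theorem qq_union (hS : IsPGroup p S) (h : Inv S Γ) (h' : Inv S Δ) (hd : Disjoint Γ Δ) :
    qq p S (Γ ∪ Δ) = qq p S Γ + qq p S Δ := by
  apply Nat.eq_of_mul_eq_mul_left hp.out.pos
  rw [mul_add, ← mv_eq hS h, ← mv_eq hS h', ← mv_eq hS (h.union h'), mv_union S hd]

theorem ee_union (hS : IsPGroup p S) (h : Inv S Γ) (h' : Inv S Δ) (hd : Disjoint Γ Δ) :
    ee p S (Γ ∪ Δ) = ee p S Γ + ee p S Δ := by
  rw [ee, ee, ee, qq_union hS h h' hd, fx_union S hd]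
  push_cast
  ring

theorem fx_of_small (hT : IsPGroup p T) (h : Inv T Γ) (hc : Γ.ncard < p) (hx : x ∈ Γ) :
    Fx T x := by
  by_contra hf
  have h1 : 1 ≤ qq p T Γ := (one_le_qq_iff hT h).2 ⟨x, hx, hf⟩
  have h2 := ncard_eq hT h
  have h3 : p ≤ p * qq p T Γ := Nat.le_mul_of_pos_right _ h1
  omega

theorem exists_fx (hT : IsPGroup p T) (h : Inv T Γ) (hc : ¬ p ∣ Γ.ncard) :
    ∃ x ∈ Γ, Fx T x := by
  rw [← fx_ne_zero_iff]
  intro h0
  apply hc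
  rw [ncard_eq hT h, h0, zero_add]
  exact Dvd.intro _ rfl

theorem dvd_ncard_orb (hS : IsPGroup p S) (h : ¬ Fx S x) : p ∣ (orb S x).ncard := by
  by_contra hc
  obtain ⟨y, hy, hf⟩ := exists_fx hS (inv_orb S x) hc
  exact not_fx_of_mem_orb h hy hf

theorem le_ncard_orb (hS : IsPGroup p S) (h : ¬ Fx S x) : p ≤ (orb S x).ncard := 
  Nat.le_of_dvd ((Set.ncard_pos).2 ⟨x, mem_orb_self S x⟩) (dvd_ncard_orb hS h)

/-- if only `p` points are moved they form one `S`-orbit (`orb S x ⊆` moved points, card `≥ p`) -/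
theorem mem_orb_of_mv (hS : IsPGroup p S) (h : Inv S Γ) (hm : mv S Γ = p) (hx : x ∈ Γ)
    (hy : y ∈ Γ) (hx' : ¬ Fx S x) (hy' : ¬ Fx S y) : y ∈ orb S x := by
  have h1 : orb S x ⊆ {x | x ∈ Γ ∧ ¬ Fx S x} :=
    fun z hz => ⟨orb_subset h hx hz, not_fx_of_mem_orb hx' hz⟩
  have h2 : orb S x = {x | x ∈ Γ ∧ ¬ Fx S x} :=
    Set.eq_of_subset_of_ncard_le h1 (by
      have := le_ncard_orb hS hx'
      rw [← hm] at this
      exact this)
  rw [h2]
  exact ⟨hy, hy'⟩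


/-- Sum over orbits.  Strong induction on `Δ.ncard`: if `x ∈ Δ`, `Δ = orb R x ∪ (Δ \ orb R x)`
(`orb_subset`, `Inv.diff`), use `fx_union`, `qq_union`; `Δ = ∅` gives `0`. -/
theorem sum_orbits (hS : IsPGroup p S) (hSR : S ≤ R) (h : Inv R Δ) (a b : ℤ)
    (H : ∀ x ∈ Δ, 0 ≤ a * (qq p S (orb R x) : ℤ) + b * (fx S (orb R x) : ℤ)) :
    0 ≤ a * (qq p S Δ : ℤ) + b * (fx S Δ : ℤ) := by
  induction hn : Δ.ncard using Nat.strong_induction_on generalizing Δ with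
  | _ n ih =>
    rcases Δ.eq_empty_or_nonempty with rfl | ⟨x, hx⟩
    · simp [qq, mv, fx]
    · have hs : orb R x ⊆ Δ := orb_subset h hx
      have hd : Inv R (Δ \ orb R x) := h.diff (inv_orb R x)
      have hlt : (Δ \ orb R x).ncard < n := by
        rw [← hn]
        exact Set.ncard_lt_ncard ⟨Set.sdiff_subset, fun hh => (hh hx).2 (mem_orb_self R x)⟩
      have h1 := ih _ hlt hd (fun y hy => H y hy.1) rfl
      have h2 := H x hx
      have e : Δ = orb R x ∪ (Δ \ orb R x) := (Set.union_sdiff_cancel hs).symm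
      have h3 := qq_union hS ((inv_orb R x).mono hSR) (hd.mono hSR) Set.disjoint_sdiff_right
      have h4 := fx_union S (Set.disjoint_sdiff_right (s := orb R x) (t := Δ))
      rw [← e] at h3 h4
      rw [h3, h4]
      push_cast
      linarith

theorem ee_nonneg (hS : IsPGroup p S) (hSR : S ≤ R) (h : Inv R Δ)
    (H : ∀ x ∈ Δ, 0 ≤ ee p S (orb R x)) : 0 ≤ ee p S Δ := by
  have := sum_orbits hS hSR h ((p : ℤ) - 1) (-1) (fun x hx => by
    have := H x hx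
    rw [ee] at this
    linarith)
  rw [ee]
  linarith

/-- `Δ = Γ ∪ (Δ \ Γ)` -/
theorem ee_mono (hS : IsPGroup p S) (hSR : S ≤ R) (h : Inv R Δ) (h' : Inv R Γ) (hs : Γ ⊆ Δ)
    (H : ∀ x ∈ Δ, 0 ≤ ee p S (orb R x)) : ee p S Γ ≤ ee p S Δ := by
  have hd : Inv R (Δ \ Γ) := h.diff h'
  have h1 := ee_nonneg hS hSR hd (fun y hy => H y hy.1)
  have h2 := ee_union hS (h'.mono hSR) (hd.mono hSR) Set.disjoint_sdiff_right
  rw [Set.union_sdiff_cancel hs] at h2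
  linarith

/-- two different orbits -/
theorem ee_two_le (hS : IsPGroup p S) (hSR : S ≤ R) (h : Inv R Δ) (hx : x ∈ Δ) (hy : y ∈ Δ)
    (hxy : y ∉ orb R x) (H : ∀ x ∈ Δ, 0 ≤ ee p S (orb R x)) :
    ee p S (orb R x) + ee p S (orb R y) ≤ ee p S Δ := by
  rw [← ee_union hS ((inv_orb R x).mono hSR) ((inv_orb R y).mono hSR) (disjoint_orb hxy)]
  exact ee_mono hS hSR h ((inv_orb R x).union (inv_orb R y))
    (Set.union_subset (orb_subset h hx) (orb_subset h hy)) H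

/-- `p * e = (p-1) m - p f` -/
theorem ee_nonneg_iff (hS : IsPGroup p S) (h : Inv S Γ) :
    0 ≤ ee p S Γ ↔ p * fx S Γ ≤ (p - 1) * mv S Γ := by
  rw [mv_eq hS h, ee, sub_nonneg, mul_left_comm, Nat.mul_le_mul_left_iff hp.out.pos]
  have h1 : ((p : ℤ) - 1) = ((p - 1 : ℕ) : ℤ) := by
    rw [Nat.cast_sub hp.out.one_le]; simp
  rw [h1]
  exact_mod_cast Iff.rfl


end Cfsg.Agent.SFP
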