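import Cfsg.Agent.SFP.A2

/-! SFP/B: API for `og`, `Gn`, and the classical Sylow/fixed point facts F1, F2, F3, CoT, DC.
Use `Cfsg.Agent.PLocal.AmbSyl` (`IsSyl.exists_cj_eq`, `exists_isSyl_ge`, `IsSyl.cj`, `IsSyl.mono`,
`IsSyl.of_le_of_isSyl`, `IsSyl.exists_le_cj`, `IsSyl.not_dvd_relIndex`, ...). -/

set_option linter.unusedSectionVars false

namespace Cfsg.Agent.SFP
open Subgroup MulAction Cfsg.Agent.PLocal.Amb
open scoped Pointwise

variable {G : Type*} [Group G] {Ω : Type*} [MulAction G Ω] {p : ℕ} {R S T K L N Q D : Subgroup G}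
  {Γ Δ : Set Ω} {x y z : Ω} {g : G}

theorem le_og (h : IsSyl p T L) : T ≤ og p L := le_iSup₂_of_le T h le_rfl
theorem og_le (p : ℕ) (L : Subgroup G) : og p L ≤ L := iSup₂_le fun _ h => h.le
theorem og_le_iff : og p L ≤ K ↔ ∀ T, IsSyl p T L → T ≤ K := iSup₂_le_iff
theorem le_og_of_isPGroup (hQ : IsPGroup p Q) (h : Q ≤ L) : Q ≤ og p L :=
  let ⟨_, h1, h2⟩ := exists_isSyl_ge hQ h
  h2.trans (le_og h1)
theorem og_mono (h : K ≤ L) : og p K ≤ og p L :=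
  og_le_iff.2 fun _ hT => le_og_of_isPGroup hT.pgrp (hT.le.trans h)
theorem og_cj (g : G) (L : Subgroup G) : og p cj(g, L) = cj(g, og p L) := by
  have key : ∀ (g : G) (L : Subgroup G), cj(g, og p L) ≤ og p cj(g, L) := fun g L =>
    cj_le_iff.2 (og_le_iff.2 fun T h => cj_le_iff.1 (le_og (h.cj g)))
  exact le_antisymm (le_cj_iff.2 ((key g⁻¹ _).trans (by rw [cj_inv_cj]))) (key g L)
theorem normalizer_le_normalizer_og (p : ℕ) (L : Subgroup G) : 𝐍[L] ≤ 𝐍[og p L] :=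
  fun g hg => by rw [← cj_eq_iff, ← og_cj, cj_of_mem_normalizer hg]
theorem le_normalizer_og (p : ℕ) (L : Subgroup G) : L ≤ 𝐍[og p L] :=
  le_normalizer.trans (normalizer_le_normalizer_og p L)
/-- `←`: `IsSyl.mono`; `→`: `T ≤ T'` Sylow in `L`, `T' ≤ og p L`, `IsSyl.eq`. -/
theorem isSyl_og_iff : IsSyl p T (og p L) ↔ IsSyl p T L := by
  refine ⟨fun h => ?_, fun h => h.mono (le_og h) (og_le p L)⟩
  obtain ⟨T', h1, h2⟩ := exists_isSyl_ge h.pgrp (h.le.trans (og_le p L))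
  exact h.eq h1.pgrp h2 (le_og h1) ▸ h1
theorem og_og (p : ℕ) (L : Subgroup G) : og p (og p L) = og p L :=
  le_antisymm (og_le p _) (og_le_iff.2 fun _ h => le_og (isSyl_og_iff.2 h))
theorem gn_og (h : IsSyl p T L) : Gn p (og p L) T := ⟨isSyl_og_iff.2 h, og_og p L⟩
theorem fx_og_iff : Fx (og p L) x ↔ ∀ T, IsSyl p T L → Fx T x := by
  simp only [fx_iff_le, og_le_iff]
theorem Gn.cj (h : Gn p R S) (g : G) : Gn p cj(g, R) cj(g, S) := ⟨h.syl.cj g, by rw [og_cj, h.gen]⟩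
theorem Gn.of_syl (h : Gn p R S) (hT : IsSyl p T R) : Gn p R T := ⟨hT, h.gen⟩

variable [Finite G] [hp : Fact p.Prime]

/-- every Sylow of `R` is an `R`-conjugate of `S`, so lies in `N` -/
theorem Gn.le_of_normal (h : Gn p R S) (hN : R ≤ 𝐍[N]) (hS : S ≤ N) : R ≤ N :=
  h.gen.ge.trans (og_le_iff.2 fun _ hT =>
    let ⟨_, h1, h2⟩ := h.syl.exists_le_cj hT.pgrp hT.le
    h2.trans (cj_le_of_mem_normalizer hS (hN h1)))
/-- if `S` fixes an `R`-invariant set pointwise, so does every conjugate, so does `R` -/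
theorem Gn.fx_of_forall (h : Gn p R S) (hΓ : Inv R Γ) (H : ∀ y ∈ Γ, Fx S y) (hx : x ∈ Γ) :
    Fx R x := by
  refine (fx_og_iff.2 fun T hT => ?_).mono h.gen.ge
  obtain ⟨g, hg, rfl⟩ := hT.exists_cj_eq h.syl
  rw [← smul_inv_smul g x]
  exact fx_cj.2 (H _ (hΓ _ (inv_mem hg) _ hx))
theorem Gn.exists_moved (h : Gn p R S) (hx : ¬ Fx R x) : ∃ y ∈ orb R x, ¬ Fx S y := by
  by_contra! c
  exact hx (h.fx_of_forall (inv_orb R x) c (mem_orb_self R x))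
theorem Gn.one_le_qq [Finite Ω] (h : Gn p R S) (hx : ¬ Fx R x) : 1 ≤ qq p S (orb R x) :=
  (one_le_qq_iff h.syl.pgrp ((inv_orb R x).mono h.syl.le)).2 (h.exists_moved hx)
theorem fx_syl_eq (hS : IsSyl p S R) (hT : IsSyl p T R) (hΓ : Inv R Γ) : fx T Γ = fx S Γ := by
  obtain ⟨g, hg, rfl⟩ := hT.exists_cj_eq hS
  rw [← fx_cj' g S, hΓ.smul_set hg]
theorem mv_syl_eq (hS : IsSyl p S R) (hT : IsSyl p T R) (hΓ : Inv R Γ) : mv T Γ = mv S Γ := by
  obtain ⟨g, hg, rfl⟩ := hT.exists_cj_eq hS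
  rw [← mv_cj g S, hΓ.smul_set hg]
theorem ee_syl_eq (hS : IsSyl p S R) (hT : IsSyl p T R) (hΓ : Inv R Γ) :
    ee p T Γ = ee p S Γ := by
  obtain ⟨g, hg, rfl⟩ := hT.exists_cj_eq hS
  rw [← ee_cj g S, hΓ.smul_set hg]
theorem isSyl_iff_of_le (hS : IsSyl p S R) (hSK : S ≤ K) (hK : K ≤ R) :
    IsSyl p T K ↔ IsSyl p T R ∧ T ≤ K :=
  ⟨fun h => ⟨h.of_le_of_isSyl hK hS hSK, h.le⟩, fun h => h.1.mono h.2 hK⟩
theorem isSyl_inf_stab (hS : IsSyl p S R) (hx : Fx S x) :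
    IsSyl p T (R ⊓ stabilizer G x) ↔ IsSyl p T R ∧ Fx T x := by
  rw [isSyl_iff_of_le hS (le_inf hS.le (fx_iff_le.1 hx)) inf_le_left, le_inf_iff, fx_iff_le]
  exact and_congr_right fun h => and_iff_right h.le
theorem exists_syl_fx (hS : IsSyl p S R) (hx : Fx S x) (hy : y ∈ orb R x) :
    ∃ T, IsSyl p T R ∧ Fx T y := by
  obtain ⟨g, hg, rfl⟩ := hy
  exact ⟨_, hS.cj_of_mem hg, fx_cj.2 hx⟩

/-- F1 for tuples.  `S` and `cj(g,S)` are Sylow in `K = R ⊓ ⨅ i, stabilizer G (b i)`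
(`IsSyl.mono`, `fx_cj`), so `cj(k, cj(g,S)) = S` with `k ∈ K`; `n = k * g`. -/
theorem f1' {ι : Type*} (hS : IsSyl p S R) {a b : ι → Ω} (ha : ∀ i, Fx S (a i))
    (hb : ∀ i, Fx S (b i)) (hg : g ∈ R) (hab : ∀ i, g • a i = b i) :
    ∃ n ∈ R, n ∈ 𝐍[S] ∧ ∀ i, n • a i = b i := by
  have k : ∀ {T}, IsSyl p T R → (∀ i, Fx T (b i)) → IsSyl p T (R ⊓ ⨅ i, stabilizer G (b i)) :=
    fun h1 h2 => h1.mono (le_inf h1.le (le_iInf fun i => fx_iff_le.1 (h2 i))) inf_le_left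
  obtain ⟨k, hk, e⟩ := (k hS hb).exists_cj_eq (k (hS.cj_of_mem hg) fun i => hab i ▸ fx_cj.2 (ha i))
  rw [← cj_mul] at e
  exact ⟨k * g, mul_mem (mem_inf.1 hk).1 hg, cj_eq_iff.1 e, fun i => by
    rw [mul_smul, hab, mem_stabilizer_iff.1 (mem_iInf.1 (mem_inf.1 hk).2 i)]⟩
/-- F1 -/
theorem f1 (hS : IsSyl p S R) (hx : Fx S x) (hy : Fx S y) (hxy : y ∈ orb R x) :
    ∃ n ∈ R, n ∈ 𝐍[S] ∧ n • x = y := by
  obtain ⟨g, hg, e⟩ := hxy
  obtain ⟨n, h1, h2, h3⟩ := f1' (ι := Unit) hS (fun _ => hx) (fun _ => hy) hg fun _ => e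
  exact ⟨n, h1, h2, h3 ()⟩
/-- F2: `ncard_orb`, `S ≤ R ⊓ stabilizer`, `IsSyl.not_dvd_relIndex`, `relIndex_dvd_of_le_left` -/
theorem f2 (hS : IsSyl p S R) (hy : y ∈ orb R x) (hf : Fx S y) : ¬ p ∣ (orb R x).ncard := by
  rw [← orb_eq_of_mem hy, ncard_orb]
  exact fun h => hS.not_dvd_relIndex (h.trans (relIndex_dvd_of_le_left R (fx_iff_le.1 hf)))
theorem f2' [Finite Ω] (hS : IsSyl p S R) (hy : y ∈ orb R x) (hf : Fx S y) :
    ¬ p ∣ fx S (orb R x) := fun h => f2 hS hy hf (by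
  rw [ncard_eq hS.pgrp ((inv_orb R x).mono hS.le)]
  exact dvd_add h (dvd_mul_right _ _))
/-- F3.  `K = {k ∈ R | ∀ x, x ∈ X ↔ k • x ∈ X}` (= `R ⊓ stabilizer G X`, pointwise action on sets)
contains `T` and `s` (`s` has finite order, so `s • X ⊆ X` gives `s⁻¹ • X ⊆ X`); `T` is Sylow in `K`
so `zpowers s ≤ cj(k,T)` with `k ∈ K` (`IsSyl.exists_le_cj`), and `cj(k,T)` fixes `k • X = X`
pointwise. -/
theorem f3 (hT : IsSyl p T R) {X : Set Ω} (hfix : ∀ x ∈ X, Fx T x) {s : G} (hs : s ∈ R)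
    (hpe : PE p s) (hX : ∀ x ∈ X, s • x ∈ X) (hx : x ∈ X) : s • x = x := by
  have h1 : Inv (T ⊔ zpowers s) X := Inv.sup (fun g hg x hx => (hfix x hx g hg).symm ▸ hx) fun g hg => by
    obtain ⟨n, rfl⟩ := mem_powers_iff_mem_zpowers.2 hg
    induction n with
    | zero => simp
    | succ n ih => exact fun x hx => by simpa only [pow_succ', mul_smul] using hX _ (ih ⟨n, by simp⟩ x hx)
  obtain ⟨k, hk, e⟩ := (hT.mono le_sup_left (sup_le hT.le (zpowers_le.2 hs))).exists_le_cj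
    hpe.isPGroup_zpowers le_sup_right
  rw [← smul_inv_smul k x]
  exact fx_cj.2 (hfix _ (h1 _ (inv_mem hk) _ hx)) _ (e (mem_zpowers s))
/-- CoT (coprime transitivity).  `S` is Sylow in `R = D ⊔ S` (`isSyl_of_not_dvd_relIndex`; the index
divides `card D`), F1 gives `n ∈ R ∩ N(S)`, `n = d * s` (`mem_sup_of_le_normalizer_left`), so
`d ∈ D ∩ N(S)` maps `x` to `y`; and `⁅d, t⁆ ∈ D ⊓ S = ⊥` for `t ∈ S`. -/
theorem cot (hS : IsPGroup p S) (hn : S ≤ 𝐍[D]) (hD : ¬ p ∣ Nat.card D) (hx : Fx S x)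
    (hy : Fx S y) (hxy : y ∈ orb D x) : ∃ c ∈ D, c ∈ 𝐂[S] ∧ c • x = y := by
  have k : ∀ {T : Subgroup G} {d}, IsPGroup p T → d ∈ T → d ∈ D → d = 1 := fun hT h1 h2 =>
    eq_one_of_isPGroup_of_coprime hT h1
      (((hp.out.coprime_iff_not_dvd).2 hD).symm.coprime_dvd_left (D.orderOf_dvd_natCard h2))
  obtain ⟨n, h1, h2, h3⟩ := f1 (R := D ⊔ S) ⟨le_sup_right, hS, fun T hT h1 h2 t ht => by
    obtain ⟨d, hd, s, hs, rfl⟩ := (mem_sup_of_le_normalizer_left hn).1 (h2 ht)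
    rwa [k hT ((mul_mem_cancel_right (h1 hs)).1 ht) hd, one_mul]⟩ hx hy (orb_mono le_sup_left x hxy)
  obtain ⟨d, hd, s, hs, rfl⟩ := (mem_sup_of_le_normalizer_left hn).1 h1
  rw [mul_mem_cancel_right (le_normalizer hs)] at h2
  refine ⟨d, hd, mem_centralizer_iff.2 fun t ht => ?_, by rwa [mul_smul, hx s hs] at h3⟩
  have := k hS (mul_mem (inv_mem ht) (conj_mem_of_mem_normalizer h2 ht)) (by
    simpa only [mul_assoc] using mul_mem (inv_conj_mem_of_mem_normalizer (hn ht) hd) (inv_mem hd))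
  rw [inv_mul_eq_one, eq_mul_inv_iff_mul_eq] at this
  exact this
/-- DC (double counting of pairs `(T, z)`, `T` Sylow in `R`, `z ∈ orb R x` fixed by `T`): each `T`
has `fx T = fx S` (`fx_syl_eq`) and each `z = g • y` is fixed by as many Sylows as `y`
(bijection `T ↦ cj(g,T)`).  `Finset.card_mul_eq_card_mul` / `sum_card_bipartiteAbove_eq_...`. -/
theorem dc [Finite Ω] (hS : IsSyl p S R) (hy : y ∈ orb R x) :
    {T | IsSyl p T R ∧ Fx T y}.ncard * (orb R x).ncard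
      = {T | IsSyl p T R}.ncard * fx S (orb R x) := by
  classical
  have := Finset.card_mul_eq_card_mul (s := (Set.toFinite {T | IsSyl p T R}).toFinset)
    (t := (Set.toFinite (orb R x)).toFinset) (fun T z => Fx T z) (m := fx S (orb R x))
    (n := {T | IsSyl p T R ∧ Fx T y}.ncard) (fun T hT => by
      rw [← fx_syl_eq hS (by simpa using hT) (inv_orb R x), fx, ← Set.ncard_coe_finset]
      congr 1
      ext
      simp) fun z hz => by
      obtain ⟨g, hg, rfl⟩ := exists_smul_of_mem_orb hy ((Set.Finite.mem_toFinset _).1 hz)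
      rw [← Set.ncard_coe_finset, ← Set.ncard_image_of_injective {T | IsSyl p T R ∧ Fx T y}
        fun _ _ => (cj_inj (g := g)).1]
      congr 1
      ext T
      simp only [Finset.coe_bipartiteBelow, Set.Finite.mem_toFinset, Set.mem_ofPred_eq]
      refine ⟨fun h => ⟨cj(g⁻¹, T), ⟨h.1.cj_of_mem (inv_mem hg), ?_⟩, cj_cj_inv g T⟩, ?_⟩
      · rw [← inv_smul_smul g y]
        exact fx_cj.2 h.2
      · rintro ⟨T, h, rfl⟩
        exact ⟨h.1.cj_of_mem hg, fx_cj.2 h.2⟩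
  rw [← Set.ncard_eq_toFinset_card, ← Set.ncard_eq_toFinset_card] at this
  rw [this, mul_comm]
/-- a Sylow `p`-subgroup of `N` cannot fix `x` by F2 -/
theorem exists_pe_moving (h : p ∣ (orb N x).ncard) : ∃ g ∈ N, PE p g ∧ g • x ≠ x := by
  obtain ⟨T, hT⟩ := exists_isSyl p N
  by_contra! c
  exact f2 hT (mem_orb_self N x) (fun g hg => c g (hT.le hg) (pe_of_mem hT.pgrp hg)) h

end Cfsg.Agent.SFP
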