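import Cfsg.Agent.SFP.B

/-! SFP/C: API for `Prm`, `kr`, the bridge `sub` to Mathlib, `Pm`, `Sd`, `Res`. -/

set_option linter.unusedSectionVars false

namespace Cfsg.Agent.SFP
open Subgroup MulAction Cfsg.Agent.PLocal.Amb
open scoped Pointwise

section
variable {G : Type*} [Group G] {Ω : Type*} [MulAction G Ω] {Ω' : Type*} [MulAction G Ω']
  {p : ℕ} {R S T D Y : Subgroup G} {Γ : Set Ω} {x y : Ω} {g : G} {π : Ω → Ω'}

theorem Prm.inj_or_const (h : Prm R Γ) {X : Type*} (φ : Ω → X)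
    (H : ∀ g ∈ R, ∀ x ∈ Γ, ∀ y ∈ Γ, φ x = φ y → φ (g • x) = φ (g • y)) :
    Set.InjOn φ Γ ∨ ∀ x ∈ Γ, ∀ y ∈ Γ, φ x = φ y :=
  (h (fun a b => φ a = φ b) ⟨fun _ => rfl, Eq.symm, Eq.trans⟩ H).imp_left fun k a ha b hb => k a ha b hb

theorem Prm.normal (h : Prm R Γ) (hΓ : Inv R Γ) (hD : D ≤ R) (hn : R ≤ 𝐍[D]) :
    D ≤ kr R Γ ∨ ∀ x ∈ Γ, ∀ y ∈ Γ, y ∈ orb D x :=
  (h (fun a b => b ∈ orb D a) ⟨mem_orb_self D, mem_orb_symm, mem_orb_trans⟩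
    fun g hg a _ _ _ ⟨d, hd, e⟩ => ⟨g * d * g⁻¹, conj_mem_of_mem_normalizer (hn hg) hd, by
      rw [← e, mul_smul, mul_smul, inv_smul_smul]⟩).imp_left fun k d hd =>
    mem_kr.2 ⟨hD hd, fun a ha => (k a ha _ (hΓ d (hD hd) a ha) ⟨d, hd, rfl⟩).symm⟩

/-- point stabilizers are maximal -/
theorem Prm.max (h : Prm R (orb R x)) (hY : R ⊓ stabilizer G x ≤ Y) (hYR : Y ≤ R) :
    Fx Y x ∨ R ≤ Y := by
  let φ : Ω → Set G := fun y => {c | ∃ g ∈ R, g • x = y ∧ g⁻¹ * c ∈ Y}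
  have key : ∀ g ∈ R, ∀ c, c ∈ φ (g • x) ↔ g⁻¹ * c ∈ Y := fun g hg c =>
    ⟨fun ⟨k, hk, e, m⟩ => by
      simpa only [mul_assoc, mul_inv_cancel_left] using mul_mem (hY (mem_inf.2 ⟨mul_mem (inv_mem hg) hk,
        mem_stabilizer_iff.2 (by rw [mul_smul, e, inv_smul_smul])⟩)) m, fun m => ⟨g, hg, rfl, m⟩⟩
  have k1 : ∀ c, c ∈ φ x ↔ c ∈ Y := fun c => by simpa using key 1 (one_mem R) c
  rcases h.inj_or_const φ (by
    rintro g hg _ ⟨a, ha, rfl⟩ _ ⟨b, hb, rfl⟩ e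
    ext c
    rw [← mul_smul, ← mul_smul, key _ (mul_mem hg ha), key _ (mul_mem hg hb), mul_inv_rev, mul_inv_rev,
      mul_assoc, mul_assoc, ← key a ha, ← key b hb, e]) with k | k
  · refine Or.inl fun a ha => k ⟨a, hYR ha, rfl⟩ (mem_orb_self R x) (Set.ext fun c => ?_)
    rw [key a (hYR ha), k1, mul_mem_cancel_left (inv_mem ha)]
  · exact Or.inr fun g hg => (k1 g).1 ((k _ ⟨g, hg, rfl⟩ _ (mem_orb_self R x)).le
      ((key g hg g).2 (by simp)))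

theorem kr_le (R : Subgroup G) (Γ : Set Ω) : kr R Γ ≤ R := inf_le_left
theorem fx_kr (hx : x ∈ Γ) : Fx (kr R Γ) x := fun _ hg => (mem_kr.1 hg).2 x hx
theorem le_kr_iff : D ≤ kr R Γ ↔ D ≤ R ∧ ∀ x ∈ Γ, Fx D x :=
  ⟨fun h => ⟨h.trans (kr_le R Γ), fun _ hx => (fx_kr hx).mono h⟩,
    fun h g hg => mem_kr.2 ⟨h.1 hg, fun x hx => h.2 x hx g hg⟩⟩
theorem le_normalizer_kr (h : Inv R Γ) : R ≤ 𝐍[kr R Γ] :=
  le_normalizer_iff.2 fun g hg k hk => mem_kr.2 ⟨mul_mem (mul_mem hg (kr_le R Γ hk)) (inv_mem hg),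
    fun x hx => by rw [mul_smul, mul_smul, fx_kr (h _ (inv_mem hg) x hx) k hk, smul_inv_smul]⟩
theorem isSyl_kr [Finite G] [Fact p.Prime] (hS : IsSyl p S R) (h : Inv R Γ) :
    IsSyl p (S ⊓ kr R Γ) (kr R Γ) := hS.inf_of_le (kr_le R Γ) (le_normalizer_kr h)
theorem ker_toPermHom (h : Inv R Γ) :
    (MulAction.toPermHom ↥R ↥(sub h)).ker = (kr R Γ).subgroupOf R := by
  ext g
  rw [MonoidHom.mem_ker, mem_subgroupOf, mem_kr, Equiv.ext_iff]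
  exact ⟨fun k => ⟨g.2, fun x hx => congrArg Subtype.val (k ⟨x, hx⟩)⟩, fun k x => Subtype.ext (k.2 x x.2)⟩
theorem card_sub (h : Inv R Γ) : Nat.card ↥(sub h) = Γ.ncard := Nat.card_coe_set_eq Γ
theorem relIndex_kr_eq (h : Inv R Γ) :
    (kr R Γ).relIndex R = Nat.card ↥(MulAction.toPermHom ↥R ↥(sub h)).range := by
  rw [relIndex, ← ker_toPermHom h, index_ker]
theorem relIndex_kr_dvd [Finite Ω] (h : Inv R Γ) :
    (kr R Γ).relIndex R ∣ Γ.ncard.factorial := by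
  rw [relIndex_kr_eq h, ← card_sub h, ← Nat.card_perm]
  exact card_subgroup_dvd_card _
theorem ncard_dvd_relIndex_kr (R : Subgroup G) (x : Ω) :
    (orb R x).ncard ∣ (kr R (orb R x)).relIndex R :=
  ncard_orb R x ▸ relIndex_dvd_of_le_left R (fx_iff_le.1 (fx_kr (mem_orb_self R x)))
theorem isPretransitive_sub (R : Subgroup G) (x : Ω) :
    IsPretransitive ↥R ↥(sub (inv_orb R x)) :=
  ⟨fun a b => (exists_smul_of_mem_orb a.2 b.2).elim fun g hg => ⟨⟨g, hg.1⟩, Subtype.ext hg.2⟩⟩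
theorem Prm.isPreprimitive (h : Prm R (orb R x)) : IsPreprimitive ↥R ↥(sub (inv_orb R x)) := by
  have := isPretransitive_sub R x
  refine ⟨fun {B} hB => ?_⟩
  have m : ∀ (g : R) (a : sub (inv_orb R x)), (g : G) • (a : Ω) ∈ Subtype.val '' B ↔ g • a ∈ B :=
    fun g a => Subtype.val_injective.mem_set_image (a := g • a)
  rcases h.inj_or_const (fun y => {g : R | (g : G) • y ∈ Subtype.val '' B}) (fun k hk a _ b _ e =>
    Set.ext fun g => by simpa only [Set.mem_setOf_eq, coe_mul, mul_smul] using Set.ext_iff.1 e (g * ⟨k, hk⟩))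
    with k | k
  · have c : ∀ a ∈ B, ∀ b ∈ B, ∀ g : R, g • a ∈ B → g • b ∈ B := fun a ha b hb g e =>
      hB.smul_eq_of_mem ha e ▸ Set.smul_mem_smul_set hb
    exact Or.inl fun a ha b hb => Subtype.ext (k a.2 b.2 (Set.ext fun g =>
      (m g a).trans (Iff.trans ⟨c a ha b hb g, c b hb a ha g⟩ (m g b).symm)))
  · rcases B.eq_empty_or_nonempty with rfl | ⟨a, ha⟩
    · exact Or.inl Set.subsingleton_empty
    · refine Or.inr (Set.eq_univ_of_forall fun b => ?_)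
      have := (m 1 a).symm.trans ((Set.ext_iff.1 (k _ a.2 _ b.2) 1).trans (m 1 b))
      rw [one_smul, one_smul] at this
      exact this.1 ha
theorem prm_of_isPreprimitive (h : IsPreprimitive ↥R ↥(sub (inv_orb R x))) :
    Prm R (orb R x) := fun r hr H => by
  have c : ∀ (g : R) (a b : sub (inv_orb R x)), r x a → r x (g • a :) → r x b → r x (g • b :) :=
    fun g a b ha e hb => hr.trans e (H g g.2 _ a.2 _ b.2 (hr.trans (hr.symm ha) hb))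
  refine (h.isTrivialBlock_of_isBlock (B := {y | r x y}) (isBlock_iff_smul_eq_of_mem.2
    fun g a ha e => Set.Subset.antisymm ?_ fun b hb => Set.mem_smul_set_iff_inv_smul_mem.2
      (c g⁻¹ _ b e (by rwa [inv_smul_smul]) hb))).imp ?_ fun k a ha b hb =>
      hr.trans (hr.symm (k.ge (Set.mem_univ ⟨a, ha⟩))) (k.ge (Set.mem_univ ⟨b, hb⟩))
  · rintro _ ⟨b, hb, rfl⟩
    exact c g a b ha e hb
  · rintro k _ ⟨g, hg, rfl⟩ z hz e
    have := H _ (inv_mem hg) _ ⟨g, hg, rfl⟩ _ hz e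
    rw [inv_smul_smul] at this
    exact eq_inv_smul_iff.1 (congrArg Subtype.val (k (x := ⟨x, mem_orb_self R x⟩) (hr.refl x)
      (y := ⟨_, smul_mem_orb (inv_mem hg) hz⟩) this))
theorem prm_of_prime (h : (orb R x).ncard.Prime) : Prm R (orb R x) :=
  have := isPretransitive_sub R x
  prm_of_isPreprimitive (.of_prime_card ((card_sub (inv_orb R x)).symm ▸ h))

theorem pm_id (p : ℕ) (R : Subgroup G) (Γ : Set Ω) : Pm p R Γ (id : Ω → Ω) :=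
  ⟨fun _ _ _ _ => rfl, fun _ _ _ _ _ e => e⟩
theorem Pm.image_orb (h : Pm p R (orb R x) π) : π '' orb R x = orb R (π x) :=
  Set.ext fun _ => ⟨fun ⟨_, ⟨g, hg, e⟩, e'⟩ => ⟨g, hg, by rw [← h.eqv g hg x (mem_orb_self R x), e, e']⟩,
    fun ⟨g, hg, e⟩ => ⟨_, ⟨g, hg, rfl⟩, (h.eqv g hg x (mem_orb_self R x)).trans e⟩⟩
theorem Pm.fx_iff (h : Pm p R Γ π) (hT : IsPGroup p T) (hTR : T ≤ R) (hx : x ∈ Γ) :
    Fx T (π x) ↔ Fx T x :=
  ⟨fun k g hg => h.pm g (hTR hg) (pe_of_mem hT hg) x hx (k g hg),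
    fun k g hg => by rw [← h.eqv g (hTR hg) x hx, k g hg]⟩
theorem Pm.comp {Ω'' : Type*} [MulAction G Ω''] {ρ : Ω' → Ω''} (h : Pm p R Γ π)
    (h' : Pm p R (π '' Γ) ρ) : Pm p R Γ (ρ ∘ π) :=
  ⟨fun g hg x hx => (congrArg ρ (h.eqv g hg x hx)).trans (h'.eqv g hg _ ⟨x, hx, rfl⟩),
    fun g hg e x hx k => h.pm g hg e x hx (h'.pm g hg e _ ⟨x, hx, rfl⟩ k)⟩

theorem c_cnt {s : Set Ω} (hs : s.Finite) {b : ℕ} (hb : ∀ z ∈ s, {y | y ∈ s ∧ π y = π z}.ncard = b) :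
    s.ncard = b * (π '' s).ncard := by
  classical
  lift s to Finset Ω using hs
  rw [← Finset.coe_image, Set.ncard_coe_finset, Set.ncard_coe_finset, Finset.card_eq_sum_card_image π s,
    mul_comm]
  refine Finset.sum_const_nat fun c hc => ?_
  obtain ⟨z, hz, rfl⟩ := Finset.mem_image.1 hc
  rw [← hb z hz, ← Set.ncard_coe_finset, Finset.coe_filter]
  rfl

theorem Pm.count [Finite Ω] (h : Pm p R (orb R x) π) (hS : IsPGroup p S) (hSR : S ≤ R) :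
    ∃ b : ℕ, 1 ≤ b ∧ fx S (orb R x) = b * fx S (π '' orb R x) ∧
      mv S (orb R x) = b * mv S (π '' orb R x) ∧
      (orb R x).ncard = b * (π '' orb R x).ncard ∧
      (∀ z ∈ orb R x, {y | y ∈ orb R x ∧ π y = π z}.ncard = b) ∧
      (b = 1 ↔ Set.InjOn π (orb R x)) := by
  have x0 := mem_orb_self R x
  have F : ∀ z ∈ orb R x, {y | y ∈ orb R x ∧ π y = π z}.ncard = {y | y ∈ orb R x ∧ π y = π x}.ncard := by
    rintro _ ⟨g, hg, rfl⟩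
    rw [← Set.ncard_smul_set g⁻¹]
    refine congrArg _ (Set.ext fun y => ?_)
    rw [Set.mem_inv_smul_set_iff, Set.mem_setOf_eq, (inv_orb R x).smul_mem_iff hg]
    exact and_congr_right fun hy => by rw [h.eqv g hg y hy, h.eqv g hg x x0, smul_left_cancel_iff]
  have C : ∀ (P : Ω → Prop) (P' : Ω' → Prop), (∀ y ∈ orb R x, P' (π y) ↔ P y) → {y | y ∈ orb R x ∧ P y}.ncard =
      {y | y ∈ orb R x ∧ π y = π x}.ncard * {c | c ∈ π '' orb R x ∧ P' c}.ncard := fun P P' k => by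
    refine (c_cnt (π := π) (Set.toFinite _) fun z hz => Eq.trans (congrArg _ (Set.ext fun y => ?_))
      (F z hz.1)).trans (congrArg _ (congrArg _ (Set.ext fun c => ?_)))
    · exact ⟨fun e => ⟨e.1.1, e.2⟩, fun e => ⟨⟨e.1, (k y e.1).1 (e.2 ▸ (k z hz.1).2 hz.2)⟩, e.2⟩⟩
    · exact ⟨fun ⟨y, hy, e⟩ => ⟨⟨y, hy.1, e⟩, e ▸ (k y hy.1).2 hy.2⟩,
        fun ⟨⟨y, hy, e⟩, l⟩ => ⟨y, ⟨hy, (k y hy).1 (e ▸ l)⟩, e⟩⟩
  refine ⟨{y | y ∈ orb R x ∧ π y = π x}.ncard, (Set.ncard_pos (Set.toFinite _)).2 ⟨x, x0, rfl⟩, C _ _ fun y => h.fx_iff hS hSR,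
    C _ (¬ Fx S ·) fun y hy => (h.fx_iff hS hSR hy).not, c_cnt (Set.toFinite _) F, F,
    fun e y hy z hz k => ?_, fun k => Set.ncard_eq_one.2 ⟨x, Set.eq_singleton_iff_unique_mem.2
      ⟨⟨x0, rfl⟩, fun y hy => k hy.1 x0 hy.2⟩⟩⟩
  exact (Set.ncard_le_one (Set.toFinite _)).1 ((F z hz).trans e).le y ⟨hy, k⟩ z ⟨hz, rfl⟩

theorem Sd.inv (h : Sd p R S Γ π) : Inv R Γ := h.isOrb.elim fun x e => e ▸ inv_orb R x
variable [Finite Ω] [Finite Ω'] [hp : Fact p.Prime]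
theorem Sd.count (h : Sd p R S Γ π) :
    1 ≤ qq p S Γ ∧ fx S Γ = qq p S Γ * fx S (π '' Γ) ∧
      Γ.ncard = qq p S Γ * (p + fx S (π '' Γ)) ∧
      ee p S Γ = (qq p S Γ : ℤ) * ((p : ℤ) - 1 - (fx S (π '' Γ) : ℤ)) ∧
      (∀ z ∈ Γ, {y | y ∈ Γ ∧ π y = π z}.ncard = qq p S Γ) := by
  obtain ⟨x, rfl⟩ := h.isOrb
  obtain ⟨b, h1, h2, h3, h4, h5, -⟩ := h.pm.count h.bs.gn.syl.pgrp h.bs.gn.syl.le
  have e : qq p S (orb R x) = b := by rw [qq, h3, h.bs.mv_eq, Nat.mul_div_cancel _ hp.out.pos]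
  rw [ee, e]
  exact ⟨h1, h2, by rw [h4, ← fx_add_mv S, h.bs.mv_eq, add_comm], by rw [h2]; push_cast; ring, h5⟩
theorem Sd.ee_nonneg (h : Sd p R S Γ π) : 0 ≤ ee p S Γ :=
  h.count.2.2.2.1 ▸ mul_nonneg (Nat.cast_nonneg _) (by have := h.bs.fx_lt; omega)
end

universe u v
variable {G : Type u} [Group G] {Ω : Type v} [MulAction G Ω] [Finite Ω] {p : ℕ} [hp : Fact p.Prime]
  {R S : Subgroup G} {Γ : Set Ω}

theorem PT.le_ee (h : PT p R S Γ) : (p : ℤ) - 1 ≤ ee p S Γ := by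
  have := h.big
  have := Nat.mod_lt (fx S Γ) hp.out.pos
  omega
theorem Res.ee_nonneg (h : Res p R S Γ) : 0 ≤ ee p S Γ := by
  have := hp.out.pos
  rcases h with ⟨_, _, _, _, h⟩ | h | h
  · exact h.ee_nonneg
  · have := h.le_ee
    omega
  · omega

end Cfsg.Agent.SFP
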