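import Mathlib
import Cfsg.Agent.PLocal.AmbSyl

/-!
# SFP: fixed points of Sylow subgroups (S4181, S3580) -- definitions

Everything is "ambient": `G` acts on `Ω`, `R S T` are subgroups of `G`, `Γ : Set Ω` is usually an
`R`-orbit `orb R x`.  `f = fx S Γ` points fixed by `S`, `m = mv S Γ` points moved, `q = qq = m / p`,
`e = ee = (p-1) q - f`.  Goal (Theorem E): `Gn p R S`, `x` not fixed by `R` ⟹ `0 ≤ ee p S (orb R x)`.
-/

namespace Cfsg.Agent.SFP
open Subgroup MulAction Cfsg.Agent.PLocal.Amb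
open scoped Pointwise

universe u v

section basic
variable {G : Type*} [Group G] {Ω : Type*} [MulAction G Ω]

/-- the `R`-orbit of `x` -/
def orb (R : Subgroup G) (x : Ω) : Set Ω := {y | ∃ g ∈ R, g • x = y}

/-- `S` fixes the point `x` -/
def Fx (S : Subgroup G) (x : Ω) : Prop := ∀ g ∈ S, g • x = x

/-- `Γ` is `R`-invariant -/
def Inv (R : Subgroup G) (Γ : Set Ω) : Prop := ∀ g ∈ R, ∀ x ∈ Γ, g • x ∈ Γ

/-- number of points of `Γ` fixed by `S` -/
noncomputable def fx (S : Subgroup G) (Γ : Set Ω) : ℕ := {x | x ∈ Γ ∧ Fx S x}.ncard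

/-- number of points of `Γ` moved by `S` -/
noncomputable def mv (S : Subgroup G) (Γ : Set Ω) : ℕ := {x | x ∈ Γ ∧ ¬ Fx S x}.ncard

/-- `q = m / p` -/
noncomputable def qq (p : ℕ) (S : Subgroup G) (Γ : Set Ω) : ℕ := mv S Γ / p

/-- the excess `e = (p-1) q - f` -/
noncomputable def ee (p : ℕ) (S : Subgroup G) (Γ : Set Ω) : ℤ :=
  ((p : ℤ) - 1) * (qq p S Γ : ℤ) - (fx S Γ : ℤ)

/-- kernel of `R` on `Γ` -/
def kr (R : Subgroup G) (Γ : Set Ω) : Subgroup G := R ⊓ fixingSubgroup G Γ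

theorem mem_kr {R : Subgroup G} {Γ : Set Ω} {g : G} :
    g ∈ kr R Γ ↔ g ∈ R ∧ ∀ x ∈ Γ, g • x = x := by
  rw [kr, mem_inf, mem_fixingSubgroup_iff]

/-- `O^{p'}(L)`: the subgroup generated by the Sylow `p`-subgroups of `L` -/
def og (p : ℕ) (L : Subgroup G) : Subgroup G := ⨆ (T : Subgroup G) (_ : IsSyl p T L), T

/-- `R` is generated by its Sylow `p`-subgroups, and `S` is one of them -/
structure Gn (p : ℕ) (R S : Subgroup G) : Prop where
  syl : IsSyl p S R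
  gen : og p R = R

/-- `g` is a `p`-element -/
def PE (p : ℕ) (g : G) : Prop := ∃ k : ℕ, g ^ p ^ k = 1

/-- primitivity of `R` on `Γ`: invariant equivalence relations are trivial or total on `Γ` -/
def Prm (R : Subgroup G) (Γ : Set Ω) : Prop :=
  ∀ r : Ω → Ω → Prop, Equivalence r →
    (∀ g ∈ R, ∀ x ∈ Γ, ∀ y ∈ Γ, r x y → r (g • x) (g • y)) →
    (∀ x ∈ Γ, ∀ y ∈ Γ, r x y → x = y) ∨ (∀ x ∈ Γ, ∀ y ∈ Γ, r x y)

/-- `R` is `j`-transitive on `Γ` for every `j ≤ k` -/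
def Ktr (R : Subgroup G) (Γ : Set Ω) (k : ℕ) : Prop :=
  ∀ j ≤ k, ∀ a b : Fin j → Ω, Function.Injective a → Function.Injective b →
    (∀ i, a i ∈ Γ) → (∀ i, b i ∈ Γ) → ∃ g ∈ R, ∀ i, g • a i = b i

/-- an invariant set as a `SubMulAction` of `↥R` (for the bridge to Mathlib's typed theory) -/
def sub {R : Subgroup G} {Γ : Set Ω} (h : Inv R Γ) : SubMulAction ↥R Ω where
  carrier := Γ
  smul_mem' := fun g _ hx => h g g.2 _ hx

theorem mem_sub {R : Subgroup G} {Γ : Set Ω} (h : Inv R Γ) {x : Ω} : x ∈ sub h ↔ x ∈ Γ := Iff.rfl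

/-- base: `R` is primitive on the orbit `B`, `S` moves exactly `p` points and fixes at most `p-1` -/
structure Bs (p : ℕ) (R S : Subgroup G) (B : Set Ω) : Prop where
  gn : Gn p R S
  isOrb : ∃ x, B = orb R x
  prm : Prm R B
  mv_eq : mv S B = p
  fx_lt : fx S B < p

/-- `P`-map: `R`-equivariant on `Γ`, and a `p`-element of `R` fixing `π x` fixes `x` -/
structure Pm (p : ℕ) (R : Subgroup G) (Γ : Set Ω) {Ω' : Type*} [MulAction G Ω'] (π : Ω → Ω') :
    Prop where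
  eqv : ∀ g ∈ R, ∀ x ∈ Γ, π (g • x) = g • π x
  pm : ∀ g ∈ R, PE p g → ∀ x ∈ Γ, g • π x = π x → g • x = x

/-- standard orbit data: a `P`-map onto a base -/
structure Sd (p : ℕ) (R S : Subgroup G) (Γ : Set Ω) {Ω' : Type*} [MulAction G Ω'] (π : Ω → Ω') :
    Prop where
  isOrb : ∃ x, Γ = orb R x
  pm : Pm p R Γ π
  bs : Bs p R S (π '' Γ)

/-- `R_α`: generated by the Sylow `p`-subgroups of the point stabilizer -/
def Ra (p : ℕ) (G : Type*) [Group G] {Ω : Type*} [MulAction G Ω] (α : Ω) : Subgroup G :=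
  og p (stabilizer G α)

/-- Sylow `p`-subgroups of `G` fixing `x` and `y` -/
def SS (p : ℕ) (G : Type*) [Group G] {Ω : Type*} [MulAction G Ω] (x y : Ω) : Set (Subgroup G) :=
  {T | IsSyl p T ⊤ ∧ Fx T x ∧ Fx T y}

/-- the "line": points fixed by all Sylow `p`-subgroups fixing `x` and `y` -/
def Ln (p : ℕ) (G : Type*) [Group G] {Ω : Type*} [MulAction G Ω] (x y : Ω) : Set Ω :=
  {z | ∀ T ∈ SS p G x y, Fx T z}

/-- all pairs of points are fixed by the same positive number of Sylow `p`-subgroups -/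
def EqP (p : ℕ) (G : Type*) [Group G] (Ω : Type*) [MulAction G Ω] : Prop :=
  ∃ l : ℕ, 0 < l ∧ ∀ x y : Ω, x ≠ y → (SS p G x y).ncard = l

/-- stabilizers in `S` of the moved points -/
def HH (S : Subgroup G) (Ω : Type*) [MulAction G Ω] : Set (Subgroup G) :=
  {U | ∃ γ : Ω, ¬ Fx S γ ∧ U = S ⊓ stabilizer G γ}

/-- points fixed by `U` but not by `O^{p'}(N(U))` -/
def DD (p : ℕ) (U : Subgroup G) (Ω : Type*) [MulAction G Ω] : Set Ω :=
  {x | Fx U x ∧ ¬ Fx (og p 𝐍[U]) x}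

end basic

section res
variable {G : Type u} [Group G] {Ω : Type v} [MulAction G Ω]

/-- standard orbit -/
def Std (p : ℕ) (R S : Subgroup G) (Γ : Set Ω) : Prop :=
  ∃ (Ω' : Type v) (_ : MulAction G Ω') (_ : Finite Ω') (π : Ω → Ω'), Sd p R S Γ π

/-- primitive non-standard type -/
structure PT (p : ℕ) (R S : Subgroup G) (Γ : Set Ω) : Prop where
  prm : Prm R Γ
  two_le : 2 ≤ qq p S Γ
  big : 2 * ((p : ℤ) - 1) ≤ ee p S Γ + ((fx S Γ % p : ℕ) : ℤ)

/-- the inductive statement for `p ≥ 5` -/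
def Res (p : ℕ) (R S : Subgroup G) (Γ : Set Ω) : Prop :=
  Std p R S Γ ∨ PT p R S Γ ∨ 2 * ((p : ℤ) - 1) ≤ ee p S Γ

end res

/-- the faithful primitive situation with a fixed point, Theorem E known for proper orbits -/
structure PS (p : ℕ) {G : Type u} [Group G] (S : Subgroup G) (Ω : Type v) [MulAction G Ω] :
    Prop where
  gn : Gn p ⊤ S
  faith : ∀ g : G, (∀ x : Ω, g • x = x) → g = 1
  tr : ∀ x y : Ω, ∃ g : G, g • x = y
  prm : Prm (⊤ : Subgroup G) (Set.univ : Set Ω)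
  nt : Nontrivial Ω
  f1 : ∃ x : Ω, Fx S x
  ihE : ∀ (R T : Subgroup G) (x : Ω), Gn p R T → ¬ Fx R x → orb R x ≠ Set.univ →
    0 ≤ ee p T (orb R x)

/-- the minimal counterexample for `p ≥ 5` -/
structure P5 (p : ℕ) {G : Type u} [Group G] (S : Subgroup G) (Ω : Type v) [MulAction G Ω] :
    Prop extends PS p S Ω where
  p5 : 5 ≤ p
  ih : ∀ (R T : Subgroup G) (x : Ω), Gn p R T → ¬ Fx R x → orb R x ≠ Set.univ →
    Res p R T (orb R x)
  q2 : 2 ≤ qq p S (Set.univ : Set Ω)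
  bad : ee p S (Set.univ : Set Ω) + ((fx S (Set.univ : Set Ω) % p : ℕ) : ℤ) ≤ 2 * (p : ℤ) - 3

/-- case A: at every fixed point of `S` all orbits of `R_α` on `Ω \ {α}` are standard -/
def CA (p : ℕ) {G : Type u} [Group G] (S : Subgroup G) (Ω : Type v) [MulAction G Ω] : Prop :=
  ∀ α : Ω, Fx S α → ∀ β : Ω, β ≠ α → Std p (Ra p G α) S (orb (Ra p G α) β)

end Cfsg.Agent.SFP
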