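import Cfsg.Agent.SFP.C

/-! SFP/Jor: Jordan's multiple transitivity theorem in ambient form, and consequences. -/

namespace Cfsg.Agent.SFP
open Subgroup MulAction Cfsg.Agent.PLocal.Amb
open scoped Pointwise

variable {G : Type*} [Group G] {Ω : Type*} [MulAction G Ω] {p : ℕ} {R S : Subgroup G}
  {Γ A B : Set Ω} {x : Ω} {k : ℕ}

theorem Ktr.mono (h : Ktr R Γ k) {j : ℕ} (hj : j ≤ k) : Ktr R Γ j := fun i hi => h i (hi.trans hj)
theorem Ktr.two (h : Ktr R Γ k) (hk : 2 ≤ k) {a b a' b' : Ω} (hab : a ≠ b) (hab' : a' ≠ b')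
    (ha : a ∈ Γ) (hb : b ∈ Γ) (ha' : a' ∈ Γ) (hb' : b' ∈ Γ) :
    ∃ g ∈ R, g • a = a' ∧ g • b = b' := by
  obtain ⟨g, hg, e⟩ := h 2 hk ![a, b] ![a', b']
    (fun i j => by fin_cases i <;> fin_cases j <;> simp [hab, hab.symm])
    (fun i j => by fin_cases i <;> fin_cases j <;> simp [hab', hab'.symm])
    (fun i => by fin_cases i <;> simpa) (fun i => by fin_cases i <;> simpa)
  exact ⟨g, hg, e 0, e 1⟩
theorem Ktr.three (h : Ktr R Γ k) (hk : 3 ≤ k) {a b c a' b' c' : Ω} (hab : a ≠ b) (hac : a ≠ c)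
    (hbc : b ≠ c) (hab' : a' ≠ b') (hac' : a' ≠ c') (hbc' : b' ≠ c')
    (ha : a ∈ Γ) (hb : b ∈ Γ) (hc : c ∈ Γ) (ha' : a' ∈ Γ) (hb' : b' ∈ Γ) (hc' : c' ∈ Γ) :
    ∃ g ∈ R, g • a = a' ∧ g • b = b' ∧ g • c = c' := by
  obtain ⟨g, hg, e⟩ := h 3 hk ![a, b, c] ![a', b', c']
    (fun i j => by
      fin_cases i <;> fin_cases j <;> simp [hab, hab.symm, hac, hac.symm, hbc, hbc.symm])
    (fun i j => by
      fin_cases i <;> fin_cases j <;> simp [hab', hab'.symm, hac', hac'.symm, hbc', hbc'.symm])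
    (fun i => by fin_cases i <;> simpa) (fun i => by fin_cases i <;> simpa)
  exact ⟨g, hg, e 0, e 1, e 2⟩
/-- enumerate `A` and `B` by `Fin j` (`Set.Finite.equivFin`-like, `Finite.equivFinOfCardEq`) -/
theorem Ktr.set [Finite Ω] (h : Ktr R Γ k) (hA : A ⊆ Γ) (hB : B ⊆ Γ) (hc : A.ncard = B.ncard)
    (hk : A.ncard ≤ k) : ∃ g ∈ R, g • A = B := by
  let ea : A ≃ Fin A.ncard := Finite.equivFinOfCardEq (Nat.card_coe_set_eq A)
  let eb : B ≃ Fin A.ncard := Finite.equivFinOfCardEq ((Nat.card_coe_set_eq B).trans hc.symm)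
  obtain ⟨g, hg, e⟩ := h _ hk (fun i => ea.symm i) (fun i => eb.symm i)
    (Subtype.val_injective.comp ea.symm.injective) (Subtype.val_injective.comp eb.symm.injective)
    (fun i => hA (ea.symm i).2) fun i => hB (eb.symm i).2
  refine ⟨g, hg, Set.Subset.antisymm ?_ fun y hy => ⟨_, (ea.symm (eb ⟨y, hy⟩)).2, ?_⟩⟩
  · rintro _ ⟨y, hy, rfl⟩
    have := e (ea ⟨y, hy⟩)
    rw [ea.symm_apply_apply] at this
    show g • y ∈ B
    rw [show g • y = _ from this]
    exact (eb.symm _).2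
  · simpa using e (eb ⟨y, hy⟩)

/-- Jordan.  If `A = ∅` this is transitivity.  Otherwise apply Mathlib's
`MulAction.IsPreprimitive.isMultiplyPreprimitive` to `↥R` on `α = ↥(sub (inv_orb R x))`
(`Prm.isPreprimitive`, `card_sub`) with `s = Subtype.val ⁻¹' A`, `n + 1 = A.ncard`;
`ofFixingSubgroup` has prime cardinality and is pretransitive by `htr`, so it is preprimitive
(`IsPreprimitive.of_prime_card`); then `isMultiplyPretransitive_of_le` and
`isMultiplyPretransitive_iff` (embeddings `Fin j ↪ α`).  See `Cfsg/Agent/S0713.lean` for a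
worked example of the same calls. -/
theorem jord [Finite Ω] (hp : Prm R (orb R x)) (hA : A ⊆ orb R x)
    (hpr : (orb R x \ A).ncard.Prime)
    (htr : ∀ y ∈ orb R x \ A, ∀ z ∈ orb R x \ A, ∃ g ∈ R, (∀ a ∈ A, g • a = a) ∧ g • y = z) :
    Ktr R (orb R x) (A.ncard + 1) := by
  let s : Set ↥(sub (inv_orb R x)) := Subtype.val ⁻¹' A
  have c1 : s.ncard = A.ncard := by
    rw [← Set.ncard_image_of_injective s Subtype.val_injective]
    exact congrArg _ (Set.Subset.antisymm (Set.image_preimage_subset _ _) fun y hy => ⟨⟨y, hA hy⟩, hy, rfl⟩)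
  have c2 : Nat.card (SubMulAction.ofFixingSubgroup R s) = (orb R x \ A).ncard := by
    refine (Nat.card_coe_set_eq sᶜ).trans ?_
    rw [← Set.ncard_image_of_injective sᶜ Subtype.val_injective]
    exact congrArg _ (Set.Subset.antisymm (by rintro _ ⟨y, hy, rfl⟩; exact ⟨y.2, hy⟩)
      fun y hy => ⟨⟨y, hy.1⟩, hy.2, rfl⟩)
  have c3 : A.ncard + 1 < Nat.card ↥(sub (inv_orb R x)) := by
    have := hpr.two_le
    rw [card_sub, ← Set.ncard_sdiff_add_ncard_of_subset hA]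
    omega
  have : IsPretransitive (fixingSubgroup R s) (SubMulAction.ofFixingSubgroup R s) := ⟨fun y z => by
    obtain ⟨g, hg, h1, h2⟩ := htr y ⟨y.1.2, y.2⟩ z ⟨z.1.2, z.2⟩
    exact ⟨⟨⟨g, hg⟩, (mem_fixingSubgroup_iff _).2 fun a ha => Subtype.ext (h1 a ha)⟩,
      Subtype.ext (Subtype.ext h2)⟩⟩
  have : IsMultiplyPretransitive R ↥(sub (inv_orb R x)) (A.ncard + 1) := by
    obtain e | ⟨n, e⟩ := Nat.eq_zero_or_eq_succ_pred A.ncard |>.imp_right fun e => (⟨_, e⟩ : ∃ n, _ = n + 1)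
    · rw [e]; exact is_one_pretransitive_iff.2 (isPretransitive_sub R x)
    · rw [e] at c3 ⊢
      exact (hp.isPreprimitive.isMultiplyPreprimitive (c1.trans e) c3
        (IsPreprimitive.of_prime_card (c2 ▸ hpr))).isMultiplyPretransitive
  intro j hj a b ha hb ma mb
  obtain ⟨g, hg⟩ := isMultiplyPretransitive_iff.1
    (isMultiplyPretransitive_of_le (G := R) (α := ↥(sub (inv_orb R x))) hj c3.le)
    ⟨fun i => ⟨a i, ma i⟩, fun i j e => ha (congrArg Subtype.val e)⟩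
    ⟨fun i => ⟨b i, mb i⟩, fun i j e => hb (congrArg Subtype.val e)⟩
  exact ⟨g, g.2, fun i => congrArg Subtype.val (DFunLike.congr_fun hg i)⟩

variable [Finite G] [Finite Ω] [hp : Fact p.Prime]

/-- Take `y ∈ Γ` moved by `S`, `s ∈ S` with `s • y ≠ y`, `s ^ p • y = y` (`exists_pcycle`);
`X = orb (zpowers s) y ⊆ Γ` has at most `p` points (image of `range p` under `i ↦ s ^ i • y`);
choose a subset `B` of the fixed points in `Γ` with the same card (`Set.exists_subset_card_eq`),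
`g • X = B` (`Ktr.set`); F3 (`f3`) for `S`, `B`, `g * s * g⁻¹` says `g s g⁻¹` fixes `g • y`. -/
theorem not_ktr (hS : IsSyl p S R) (hΓ : Inv R Γ) (hm : mv S Γ ≠ 0) (hf : p ≤ fx S Γ)
    (h : Ktr R Γ p) : False := by
  obtain ⟨y, hy, hy'⟩ := mv_ne_zero_iff.1 hm
  obtain ⟨s, hs, s1, sp⟩ := exists_pcycle hS.pgrp hy'
  let X : Set Ω := (fun i : ℕ => s ^ i • y) '' (Finset.range p : Set ℕ)
  have c : X.ncard ≤ p := (Set.ncard_image_le (Set.toFinite _)).trans (by simp)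
  have y0 : y ∈ X := ⟨0, by simpa using hp.out.pos, by simp⟩
  obtain ⟨B, hB, cB⟩ := Set.exists_subset_card_eq (c.trans hf)
  obtain ⟨g, hg, rfl⟩ := h.set (A := X) (B := B)
    (by rintro _ ⟨i, -, rfl⟩; exact hΓ _ (hS.le (pow_mem hs i)) _ hy) (fun b hb => (hB hb).1) cB.symm c
  have := f3 hS (fun b hb => (hB hb).2) (mul_mem (mul_mem hg (hS.le hs)) (inv_mem hg))
    ((pe_of_mem hS.pgrp hs).conj g) (by
      rintro _ ⟨_, ⟨i, hi, rfl⟩, rfl⟩
      simp only [mul_smul, inv_smul_smul]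
      refine Set.smul_mem_smul_set ?_
      rw [← mul_smul, ← pow_succ']
      rcases (Nat.succ_le_of_lt (Finset.mem_range.1 hi)).eq_or_lt with e | e
      · rw [show i + 1 = p from e, sp]; exact y0
      · exact ⟨i + 1, Finset.mem_range.2 e, rfl⟩) (Set.smul_mem_smul_set y0)
  exact s1 (by simpa [mul_smul] using this)
/-- `jord` with `A` = fixed points of `S` in the orbit; `S` is transitive on the `p` moved points
(`mem_orb_of_mv`). -/
theorem ktr_of_mv (hS : IsSyl p S R) (hprm : Prm R (orb R x)) (hm : mv S (orb R x) = p) :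
    Ktr R (orb R x) (fx S (orb R x) + 1) := by
  have e : orb R x \ {y | y ∈ orb R x ∧ Fx S y} = {y | y ∈ orb R x ∧ ¬ Fx S y} :=
    Set.ext fun y => ⟨fun h => ⟨h.1, fun k => h.2 ⟨h.1, k⟩⟩, fun h => ⟨h.1, fun k => h.2 k.2⟩⟩
  refine jord hprm (fun _ h => h.1) (by rw [e]; exact (hm.symm ▸ hp.out : (mv S (orb R x)).Prime)) ?_
  rw [e]
  intro y hy z hz
  obtain ⟨g, hg, k⟩ := mem_orb_of_mv hS.pgrp ((inv_orb R x).mono hS.le) hm hy.1 hz.1 hy.2 hz.2
  exact ⟨g, hS.le hg, fun a ha => ha.2 g hg, k⟩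
/-- `fx < p` by `not_ktr` and `ktr_of_mv` -/
theorem bs_of_mv (hg : Gn p R S) (hprm : Prm R (orb R x)) (hm : mv S (orb R x) = p) :
    Bs p R S (orb R x) :=
  ⟨hg, ⟨x, rfl⟩, hprm, hm, lt_of_not_ge fun h => not_ktr hg.syl (inv_orb R x) (hm ▸ hp.out.ne_zero) h
    ((ktr_of_mv hg.syl hprm hm).mono (h.trans (Nat.le_succ _)))⟩
theorem Bs.ktr (h : Bs p R S B) : Ktr R B (fx S B + 1) := by
  obtain ⟨x, rfl⟩ := h.isOrb
  exact ktr_of_mv h.gn.syl h.prm h.mv_eq

end Cfsg.Agent.SFP
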