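import Cfsg.Agent.SFP.Loc

/-! SFP/Lin: the sets `SS x y`, lines `Ln x y`, and the case `p = 2`. -/

namespace Cfsg.Agent.SFP
open Subgroup MulAction Cfsg.Agent.PLocal.Amb
open scoped Pointwise

universe u v

section
variable {G : Type u} [Group G] {Ω : Type v} [MulAction G Ω] {p : ℕ} {T : Subgroup G}
  {x y z w : Ω}

theorem ss_comm (x y : Ω) : SS p G x y = SS p G y x := Set.ext fun _ =>
  ⟨fun h => ⟨h.1, h.2.2, h.2.1⟩, fun h => ⟨h.1, h.2.2, h.2.1⟩⟩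

theorem cj_mem_ss (g : G) : cj(g, T) ∈ SS p G (g • x) (g • y) ↔ T ∈ SS p G x y :=
  and_congr ⟨fun h => by simpa only [cj_inv_cj, cj_top] using h.cj g⁻¹,
    fun h => h.cj_of_mem (mem_top g)⟩ (and_congr fx_cj fx_cj)

theorem ncard_ss_smul (g : G) (x y : Ω) :
    (SS p G (g • x) (g • y)).ncard = (SS p G x y).ncard := by
  rw [← Set.ncard_image_of_injective (SS p G x y) (f := fun T => cj(g, T)) fun _ _ => cj_inj.1]
  congr 1
  refine Set.ext fun T => ⟨fun h => ⟨cj(g⁻¹, T), (cj_mem_ss g).1 (by rwa [cj_cj_inv]), cj_cj_inv g T⟩, ?_⟩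
  rintro ⟨T, h, rfl⟩
  exact (cj_mem_ss g).2 h

theorem mem_ln_left (x y : Ω) : x ∈ Ln p G x y := fun _ h => h.2.1

theorem mem_ln_right (x y : Ω) : y ∈ Ln p G x y := fun _ h => h.2.2

theorem ln_comm (x y : Ω) : Ln p G x y = Ln p G y x := by rw [Ln, ss_comm]; rfl

theorem smul_mem_ln (g : G) : g • z ∈ Ln p G (g • x) (g • y) ↔ z ∈ Ln p G x y :=
  ⟨fun h T hT => fx_cj.1 (h _ ((cj_mem_ss g).2 hT)), fun h T hT => by
    rw [← cj_cj_inv g T] at hT ⊢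
    exact fx_cj.2 (h _ ((cj_mem_ss g).1 hT))⟩

theorem ln_smul (g : G) (x y : Ω) : Ln p G (g • x) (g • y) = g • Ln p G x y := Set.ext fun z => by
  rw [Set.mem_smul_set_iff_inv_smul_mem, ← smul_mem_ln (x := x) g, smul_inv_smul]

theorem EqP.nonempty (h : EqP p G Ω) (hxy : x ≠ y) : (SS p G x y).Nonempty :=
  h.elim fun _ h => Set.nonempty_of_ncard_ne_zero (h.2 x y hxy ▸ h.1.ne')

/-- `SS x y ⊆ SS z w`, same finite card (`Set.eq_of_subset_of_ncard_le`) -/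
theorem EqP.ss_eq [Finite G] (h : EqP p G Ω) (hxy : x ≠ y) (hz : z ∈ Ln p G x y)
    (hw : w ∈ Ln p G x y) (hzw : z ≠ w) : SS p G z w = SS p G x y :=
  h.elim fun _ h => (Set.eq_of_subset_of_ncard_le (fun T hT => And.intro hT.1 ⟨hz T hT, hw T hT⟩)
    ((h.2 z w hzw).trans (h.2 x y hxy).symm).le).symm

theorem EqP.ln_eq [Finite G] (h : EqP p G Ω) (hxy : x ≠ y) (hz : z ∈ Ln p G x y)
    (hw : w ∈ Ln p G x y) (hzw : z ≠ w) : Ln p G z w = Ln p G x y := by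
  rw [Ln, h.ss_eq hxy hz hw hzw]; rfl

end

variable {G : Type u} [Group G] {Ω : Type v} [MulAction G Ω] [Finite G] [Finite Ω] {p : ℕ}
  [hp : Fact p.Prime] {S : Subgroup G} {α : Ω}

/-- `r = #{T | IsSyl p T ⊤ ∧ Fx T α} ≥ 1`; `ncard_ss` gives `N * |SS α β| = M * r` for all `β ≠ α`
(cancel `|orb| > 0`); `N > 0`; transport any pair `x ≠ y` to `(α, g • y)` by `ncard_ss_smul`.
Take `l = M * r / N`. -/
theorem PS.eqp (h : PS p S Ω) (hα : Fx S α) (M N : ℕ) (hM : 0 < M)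
    (H : ∀ β, β ≠ α → N * fx S (orb (Ra p G α) β) = M * (orb (Ra p G α) β).ncard) :
    EqP p G Ω := by
  have r : 0 < M * {T : Subgroup G | IsSyl p T ⊤ ∧ Fx T α}.ncard :=
    Nat.mul_pos hM ((Set.ncard_pos (Set.toFinite _)).2 ⟨S, h.gn.syl, hα⟩)
  have key : ∀ β, β ≠ α → N * (SS p G α β).ncard =
      M * {T : Subgroup G | IsSyl p T ⊤ ∧ Fx T α}.ncard := fun β hβ =>
    Nat.eq_of_mul_eq_mul_right ((Set.ncard_pos (Set.toFinite _)).2 ⟨β, mem_orb_self (Ra p G α) β⟩) (by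
      rw [mul_assoc, h.ncard_ss hα, mul_left_comm, H β hβ]
      ring)
  have := h.nt
  obtain ⟨β, hβ⟩ := exists_ne α
  rw [← key β hβ] at r
  refine ⟨_, Nat.pos_of_mul_pos_left r, fun x y hxy => ?_⟩
  obtain ⟨g, rfl⟩ := h.tr x α
  rw [← ncard_ss_smul g]
  exact Nat.eq_of_mul_eq_mul_left (Nat.pos_of_mul_pos_right r)
    ((key _ fun e => hxy (smul_left_cancel g e).symm).trans (key β hβ).symm)

/-- if `e < 0` all orbits are tight: `f_i = (p-1) q_i`, `|Γ_i| = (2p-1) q_i` (`tight`, `ncard_eq`),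
so `eqp` with `M = p - 1`, `N = 2p - 1`. -/
theorem PS.eqp_of_neg (h : PS p S Ω) (hneg : ee p S (Set.univ : Set Ω) < 0) : EqP p G Ω := by
  obtain ⟨α, hα⟩ := h.f1
  have h2 := hp.out.two_le
  refine h.eqp hα (p - 1) (2 * p - 1) (by omega) fun β hβ => ?_
  have e := (h.tight hα hβ hneg).1
  rw [ncard_eq h.isPGroup ((inv_orb _ β).mono (le_ra h.isPGroup hα))]
  rw [ee] at e
  zify [show 1 ≤ p by omega, show 1 ≤ 2 * p by omega]
  linear_combination (-p : ℤ) * e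

/-- `p = 2`: `s ∈ S`, `s • x ≠ x`, `s ^ 2 • x = x` (`exists_pcycle`); some Sylow fixes `x` and `s • x`
(`EqP.nonempty`), F3 (`f3`) with `X = {x, s • x}` gives `s • x = x`. -/
theorem PS.p2 (h : PS p S Ω) (h2 : p = 2) : 0 ≤ ee p S (Set.univ : Set Ω) := by
  by_contra! hneg
  obtain ⟨x, hx⟩ := h.exists_moved
  obtain ⟨s, hs, s1, s2⟩ := exists_pcycle h.isPGroup hx
  obtain ⟨T, t1, t2, t3⟩ := (h.eqp_of_neg hneg).nonempty s1
  refine s1 (f3 t1 (X := {x, s • x}) ?_ (mem_top s) (pe_of_mem h.isPGroup hs) ?_ (.inl rfl))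
  · rintro _ (rfl | rfl)
    exacts [t3, t2]
  · rintro _ (rfl | rfl)
    · exact .inr rfl
    · exact .inl (by rwa [h2, pow_two, mul_smul] at s2)

end Cfsg.Agent.SFP
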