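import Cfsg.Agent.SFP.C

/-! SFP/Loc: local structure at a point `α` in the primitive situation `PS` / `P5`.
`R_α = Ra p G α`; `f = fx S univ`, `e = ee p S univ`, `t = f % p`. -/

namespace Cfsg.Agent.SFP
open Subgroup MulAction Cfsg.Agent.PLocal.Amb
open scoped Pointwise

universe u v

section
variable {G : Type u} [Group G] {Ω : Type v} [MulAction G Ω] {p : ℕ} {Q T : Subgroup G}
  {α β : Ω}
theorem ra_le_stab (p : ℕ) (α : Ω) : Ra p G α ≤ stabilizer G α := og_le p _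
theorem fx_ra_self (p : ℕ) (α : Ω) : Fx (Ra p G α) α := fx_iff_le.2 (ra_le_stab p α)
theorem ra_smul (g : G) (α : Ω) : Ra p G (g • α) = cj(g, Ra p G α) := by
  rw [Ra, stabilizer_smul, og_cj, Ra]
theorem orb_ra_smul (g : G) (α β : Ω) :
    orb (Ra p G (g • α)) (g • β) = g • orb (Ra p G α) β := by
  rw [ra_smul, orb_cj]
theorem stab_le_normalizer_ra (p : ℕ) (α : Ω) : stabilizer G α ≤ 𝐍[Ra p G α] := le_normalizer_og p _
theorem le_ra (hQ : IsPGroup p Q) (h : Fx Q α) : Q ≤ Ra p G α := le_og_of_isPGroup hQ (fx_iff_le.1 h)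
theorem gn_ra (hT : IsSyl p T ⊤) (h : Fx T α) : Gn p (Ra p G α) T :=
  gn_og (hT.mono (fx_iff_le.1 h) le_top)
theorem inv_ra_compl (p : ℕ) (α : Ω) : Inv (Ra p G α) ({α}ᶜ : Set Ω) :=
  (fx_ra_self p α).inv_singleton.compl
theorem orb_ra_subset (h : β ≠ α) : orb (Ra p G α) β ⊆ ({α}ᶜ : Set Ω) :=
  orb_subset (inv_ra_compl p α) h
theorem ne_of_mem_orb_ra (h : β ≠ α) {γ : Ω} (hγ : γ ∈ orb (Ra p G α) β) : γ ≠ α := orb_ra_subset h hγ
end

variable {G : Type u} [Group G] {Ω : Type v} [MulAction G Ω] [Finite G] [Finite Ω] {p : ℕ}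
  [hp : Fact p.Prime] {S T W : Subgroup G} {α β γ x y : Ω} {Δ : Set Ω}

theorem PS.orb_top (h : PS p S Ω) (x : Ω) : orb (⊤ : Subgroup G) x = Set.univ := orb_top_eq_univ h.tr x
theorem PS.isPGroup (h : PS p S Ω) : IsPGroup p S := h.gn.syl.pgrp
theorem PS.exists_syl (h : PS p S Ω) (x : Ω) : ∃ T : Subgroup G, IsSyl p T ⊤ ∧ Fx T x :=
  let ⟨y, hy⟩ := h.f1
  exists_syl_fx h.gn.syl hy (h.orb_top y ▸ Set.mem_univ x)
theorem PS.isSyl_ra (h : PS p S Ω) : IsSyl p T (Ra p G α) ↔ IsSyl p T ⊤ ∧ Fx T α :=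
  isSyl_og_iff.trans ⟨fun a => by
    obtain ⟨U, h1, h2⟩ := h.exists_syl α
    exact (isSyl_inf_stab h1 h2).1 (by rwa [top_inf_eq]), fun a => a.1.mono (fx_iff_le.1 a.2) le_top⟩
theorem PS.exists_moved (h : PS p S Ω) : ∃ x : Ω, ¬ Fx S x := by
  obtain ⟨x, y, e⟩ := h.nt
  obtain ⟨g, rfl⟩ := h.tr x y
  obtain ⟨z, -, hz⟩ := h.gn.exists_moved (x := x) fun a => e (a g trivial).symm
  exact ⟨z, hz⟩
theorem PS.eq_bot (h : PS p S Ω) {U : Subgroup G} (hU : ∀ x : Ω, Fx U x) : U = ⊥ :=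
  eq_bot_iff.2 fun g hg => h.faith g fun x => hU x g hg
theorem PS.exists_norm (h : PS p S Ω) (hx : Fx S x) (hy : Fx S y) : ∃ n ∈ 𝐍[S], n • x = y :=
  let ⟨n, _, a⟩ := SFP.f1 h.gn.syl hx hy (h.orb_top x ▸ Set.mem_univ y)
  ⟨n, a⟩
theorem PS.not_dvd (h : PS p S Ω) : ¬ p ∣ fx S (Set.univ : Set Ω) :=
  let ⟨x, hx⟩ := h.f1
  h.orb_top x ▸ f2' h.gn.syl (mem_orb_self ⊤ x) hx
/-- EQ: `Prm.inj_or_const` for `Z`; constant is impossible (`y ∈ Z α = Z y`). -/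
theorem PS.eq_inj (h : PS p S Ω) (Z : Ω → Set Ω) (hZ : ∀ (g : G) (x : Ω), Z (g • x) = g • Z x)
    (h1 : ∀ x, x ∉ Z x) (hne : (Z α).Nonempty) (he : Z α = Z β) : α = β := by
  rcases h.prm.inj_or_const Z fun g _ x _ y _ e => by rw [hZ, hZ, e] with a | a
  · exact a trivial trivial he
  · obtain ⟨y, hy⟩ := hne
    exact absurd (a α trivial y trivial ▸ hy) (h1 y)
/-- If `R_α` fixes `β` then `R_α ≤ R_β` (`og_og`, `og_mono`), and both have the same card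
(conjugate, `ra_smul`), so `R_α = R_β`.  `Prm.inj_or_const` for `φ = Ra p G`: constant would make
`S ≤ R_{x₀} = R_y` fix every `y`, against `exists_moved`. -/
theorem PS.eq_of_fx_ra (h : PS p S Ω) (hf : Fx (Ra p G α) β) : β = α := by
  have e : Ra p G α = Ra p G β := by
    obtain ⟨g, rfl⟩ := h.tr α β
    refine eq_of_le_of_card_ge ((og_og p _).ge.trans (og_mono (fx_iff_le.1 hf))) ?_
    rw [ra_smul, card_cj]
  rcases h.prm.inj_or_const (Ra p G) fun g _ x _ y _ e => by rw [ra_smul, ra_smul, e] with a | a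
  · exact a trivial trivial e.symm
  · obtain ⟨x, hx⟩ := h.f1
    obtain ⟨y, hy⟩ := h.exists_moved
    exact absurd ((fx_ra_self p y).mono (a x trivial y trivial ▸ le_ra h.isPGroup hx)) hy
/-- Theorem E for a group with a fixed point (its orbits are `≠ univ`; `ihE`, `ee_nonneg`) -/
theorem PS.ee_nonneg_of (h : PS p S Ω) (hW : Gn p W T) (hy : Fx W y) (hΔ : Inv W Δ)
    (hno : ∀ x ∈ Δ, ¬ Fx W x) : 0 ≤ ee p T Δ :=
  ee_nonneg hW.syl.pgrp hW.syl.le hΔ fun x hx => h.ihE W T x hW (hno x hx) fun e =>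
    not_fx_of_mem_orb (hno x hx) (e ▸ Set.mem_univ y) hy
theorem PS.ee_orb_nonneg (h : PS p S Ω) (hα : Fx S α) (hβ : β ≠ α) :
    0 ≤ ee p S (orb (Ra p G α) β) :=
  h.ee_nonneg_of (gn_ra h.gn.syl hα) (fx_ra_self p α) (inv_orb _ _) fun _ hx e =>
    ne_of_mem_orb_ra hβ hx (h.eq_of_fx_ra e)
/-- `ee_mono`, `ee_compl_singleton` -/
theorem PS.ee_orb_le (h : PS p S Ω) (hα : Fx S α) (hβ : β ≠ α) :
    ee p S (orb (Ra p G α) β) ≤ ee p S (Set.univ : Set Ω) + 1 :=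
  ee_compl_singleton (p := p) hα ▸ ee_mono h.isPGroup (le_ra h.isPGroup hα) (inv_ra_compl p α) (inv_orb _ _)
    (orb_ra_subset hβ) fun _ hx => h.ee_orb_nonneg hα hx
theorem PS.ee_two (h : PS p S Ω) (hα : Fx S α) (hβ : β ≠ α) (hγ : γ ≠ α)
    (hn : γ ∉ orb (Ra p G α) β) :
    ee p S (orb (Ra p G α) β) + ee p S (orb (Ra p G α) γ) ≤ ee p S (Set.univ : Set Ω) + 1 :=
  ee_compl_singleton (p := p) hα ▸ ee_two_le h.isPGroup (le_ra h.isPGroup hα) (inv_ra_compl p α) hβ hγ hn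
    fun _ hx => h.ee_orb_nonneg hα hx
theorem PS.one_le_qq (h : PS p S Ω) (hα : Fx S α) (hβ : β ≠ α) :
    1 ≤ qq p S (orb (Ra p G α) β) :=
  (gn_ra h.gn.syl hα).one_le_qq fun e => hβ (h.eq_of_fx_ra e)
theorem PS.tight (h : PS p S Ω) (hα : Fx S α) (hβ : β ≠ α) (hneg : ee p S (Set.univ : Set Ω) < 0) :
    ee p S (orb (Ra p G α) β) = 0 ∧ ee p S (Set.univ : Set Ω) = -1 := by
  have := h.ee_orb_nonneg hα hβ
  have := h.ee_orb_le hα hβ
  omega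
/-- `dc` for `R_α` and `isSyl_ra` -/
theorem PS.ncard_ss (h : PS p S Ω) (hα : Fx S α) (β : Ω) :
    (SS p G α β).ncard * (orb (Ra p G α) β).ncard
      = {T : Subgroup G | IsSyl p T ⊤ ∧ Fx T α}.ncard * fx S (orb (Ra p G α) β) := by
  have := dc (gn_ra h.gn.syl hα).syl (mem_orb_self _ β)
  simp only [h.isSyl_ra, and_assoc] at this
  exact this

theorem P5.t_pos (h : P5 p S Ω) : 1 ≤ fx S (Set.univ : Set Ω) % p :=
  Nat.pos_of_ne_zero fun e => h.toPS.not_dvd (Nat.dvd_of_mod_eq_zero e)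
/-- `f = (p-1) q - e ≥ 2p - 2 - (2p - 3 - t) > t` -/
theorem P5.f_ge (h : P5 p S Ω) :
    p + fx S (Set.univ : Set Ω) % p ≤ fx S (Set.univ : Set Ω) := by
  have b := h.bad
  have q : (2 : ℤ) ≤ qq p S (Set.univ : Set Ω) := by exact_mod_cast h.q2
  have p5 : (5 : ℤ) ≤ p := by exact_mod_cast h.p5
  have e := Nat.div_add_mod (fx S (Set.univ : Set Ω)) p
  rw [ee] at b
  have : 0 < fx S (Set.univ : Set Ω) / p := Nat.pos_of_ne_zero fun k => by
    rw [k, mul_zero, zero_add] at e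
    rw [e] at b
    nlinarith
  nlinarith
theorem P5.exists_ne (h : P5 p S Ω) (x : Ω) : ∃ y, y ≠ x ∧ Fx S y := by
  have := h.f_ge
  have := h.p5
  obtain ⟨y, hy, e⟩ := Set.exists_ne_of_one_lt_ncard
    (show 1 < fx S (Set.univ : Set Ω) by omega) x
  exact ⟨y, e, hy.2⟩
theorem P5.ee_le (h : P5 p S Ω) (hα : Fx S α) (hβ : β ≠ α) :
    ee p S (orb (Ra p G α) β) + ((fx S (Set.univ : Set Ω) % p : ℕ) : ℤ) ≤ 2 * (p : ℤ) - 2 := by
  have := h.toPS.ee_orb_le hα hβ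
  have := h.bad
  omega
/-- `ih`; the third alternative is excluded by `ee_le`, `t_pos` -/
theorem P5.res (h : P5 p S Ω) (hα : Fx S α) (hβ : β ≠ α) :
    Std p (Ra p G α) S (orb (Ra p G α) β) ∨ PT p (Ra p G α) S (orb (Ra p G α) β) := by
  have := h.ee_le hα hβ
  have := h.t_pos
  rcases h.ih _ S β (gn_ra h.gn.syl hα) (fun e => hβ (h.toPS.eq_of_fx_ra e))
    fun e => ne_of_mem_orb_ra hβ (e ▸ Set.mem_univ α) rfl with a | a | a
  exacts [.inl a, .inr a, by omega]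
/-- `ee_two` -/
theorem P5.mem_of_big (h : P5 p S Ω) (hα : Fx S α) (hβ : β ≠ α) (hγ : γ ≠ α)
    (h1 : (p : ℤ) - 1 ≤ ee p S (orb (Ra p G α) β)) (h2 : (p : ℤ) - 1 ≤ ee p S (orb (Ra p G α) γ)) :
    γ ∈ orb (Ra p G α) β := by
  by_contra hn
  have := h.toPS.ee_two hα hβ hγ hn
  have := h.t_pos
  have := h.bad
  omega
/-- case C: if the orbit were `{α}ᶜ` then `e₀ = e + 1`, `f₀ = f - 1`, `f₀ % p = t - 1`, against
`PT.big` and `bad`. -/
theorem P5.caseC (h : P5 p S Ω) (hα : Fx S α) (hβ : β ≠ α)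
    (hP : PT p (Ra p G α) S (orb (Ra p G α) β)) : ∃ γ, γ ≠ α ∧ γ ∉ orb (Ra p G α) β := by
  by_contra! hn
  have b := hP.big
  have := h.t_pos
  have := h.bad
  rw [(orb_ra_subset hβ).antisymm hn, ee_compl_singleton hα] at b
  rw [← fx_compl_singleton hα, ← Nat.mod_add_mod] at *
  have l := Nat.mod_lt (fx S ({α}ᶜ : Set Ω)) hp.out.pos
  generalize fx S ({α}ᶜ : Set Ω) % p = r at *
  rcases (Nat.succ_le_of_lt l).eq_or_lt with e | e
  · rw [show r + 1 = p from e, Nat.mod_self] at *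
    omega
  · rw [Nat.mod_eq_of_lt e] at *
    omega
/-- `res`, `PT.le_ee`, `mem_of_big`; `ee_two`, `PT.big`, `bad` -/
theorem P5.bnum (h : P5 p S Ω) (hα : Fx S α) (hβ : β ≠ α)
    (hP : PT p (Ra p G α) S (orb (Ra p G α) β)) (hγ : γ ≠ α) (hn : γ ∉ orb (Ra p G α) β) :
    Std p (Ra p G α) S (orb (Ra p G α) γ) ∧
      ee p S (orb (Ra p G α) γ) + ((fx S (Set.univ : Set Ω) % p : ℕ) : ℤ)
        ≤ ((fx S (orb (Ra p G α) β) % p : ℕ) : ℤ) := by
  have := h.toPS.ee_two hα hβ hγ hn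
  have := hP.big
  have := h.bad
  exact ⟨(h.res hα hγ).resolve_right fun e => hn (h.mem_of_big hα hβ hγ hP.le_ee e.le_ee), by omega⟩

end Cfsg.Agent.SFP
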