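import Cfsg.Agent.SFP.Lin

/-! SFP/P3: the case `p = 3`. -/

namespace Cfsg.Agent.SFP
open Subgroup MulAction Cfsg.Agent.PLocal.Amb
open scoped Pointwise

universe u v

variable {G : Type u} [Group G] {Ω : Type v} [MulAction G Ω] [Finite G] [Finite Ω] {p : ℕ}
  [hp : Fact p.Prime] {S : Subgroup G}

/-- Suppose `e < 0`: `e = -1` (`tight`) and `EqP` (`eqp_of_neg`).  Take `s ∈ S`, `x₁ = s • x₀ ≠ x₀`,
`x₂ = s • x₁`, `s • x₂ = x₀` (`exists_pcycle`; the three points are distinct).  By F3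
(`X = {x₀,x₁,x₂}`) no Sylow fixes all three.  Let `T ∈ SS x₀ x₁`, `Λ = Ln x₀ x₁`, `ℓ = |Λ|`;
`W = og 3 (stabilizer x₀ ⊓ stabilizer x₁)`, `Gn 3 W T`; Sylows of `W` = `SS x₀ x₁`
(`isSyl_og_iff`, `isSyl_iff_of_le`), so `Fx W z ↔ z ∈ Λ` (`fx_og_iff`).
`Z = {z | ∀ T' ∈ SS x₀ x₁, ¬ Fx T' z}` is `W`-invariant (`fx_cj`), disjoint from `Λ`, `x₂ ∈ Z`,
`fx T Z = 0`, so `|Z| = 3 z`, `ee T Z = 2 z`.  `univ = Λ ∪ Z ∪ Δ`, `Δ = (Λ ∪ Z)ᶜ`; `ee T Λ = -ℓ`,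
`0 ≤ ee T Δ` (`ee_nonneg_of`), `ee T univ = ee S univ = -1` (`ee_syl_eq`), so `2 z ≤ ℓ - 1`
(`ee_union`).  For `a ∈ Λ`, `y ∈ Z`: `Ln a y \ {a} ⊆ Z` (if `T' ∈ SS x₀ x₁` fixes `w ∈ Ln a y`,
`w ≠ a`, then `T' ∈ SS a w = SS a y` (`EqP.ss_eq`) fixes `y`).  The lines `L₀ = Ln x₀ x₂`,
`L₁ = Ln x₁ x₂` have `ℓ` points (`ln_smul` by `s`, `ln_comm`), and meet only in `x₂` (else equal by
`EqP.ln_eq`, and then `x₁ ∈ Ln x₀ x₂`, a Sylow fixes all three points).  So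
`3 z ≥ 2 (ℓ - 1) - 1`, `z ≥ 1`: `ℓ = 3`, `|Z| = 3`.  Take `u ∈ T` with `u • x₂ ≠ x₂`.
`A = L₀ \ {x₀}` and `u • A = Ln x₀ (u • x₂) \ {x₀}` are 2-subsets of `Z`, so share `w ≠ x₀`, so
`Ln x₀ (u • x₂) = Ln x₀ w = L₀`, `u • A = A`; `zpowers u` is a 3-group preserving the 2-set `A`, so
fixes `x₂` (`fx_of_small`), contradiction. -/
theorem PS.p3 (h : PS p S Ω) (h3 : p = 3) : 0 ≤ ee p S (Set.univ : Set Ω) := by
  subst h3
  by_contra hneg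
  rw [not_le] at hneg
  have E := h.eqp_of_neg hneg
  obtain ⟨α, hα⟩ := h.f1
  have := h.nt
  obtain ⟨β, hβ⟩ := exists_ne α
  have e1 := (h.tight hα hβ hneg).2
  obtain ⟨x₀, m0⟩ := h.exists_moved
  obtain ⟨s, hs, n10, s3⟩ := exists_pcycle h.isPGroup m0
  obtain ⟨x₁, d1⟩ : ∃ x₁, s • x₀ = x₁ := ⟨_, rfl⟩
  obtain ⟨x₂, d2⟩ : ∃ x₂, s • x₁ = x₂ := ⟨_, rfl⟩
  have d0 : s • x₂ = x₀ := by
    rw [← d2, ← d1, smul_smul, smul_smul, ← pow_three', s3]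
  rw [d1] at n10
  have n21 : x₁ ≠ x₂ := fun e => n10 ((smul_left_cancel_iff s).1 (by rw [d1, d2, e]))
  have n02 : x₀ ≠ x₂ := fun e => n21 ((smul_left_cancel_iff s).1 (by rw [d0, d2, e]))
  have no3 : ∀ T : Subgroup G, IsSyl 3 T ⊤ → Fx T x₀ → Fx T x₁ → Fx T x₂ → False :=
    fun T hT f0 f1 f2 => n10 (d1 ▸ f3 hT (X := {x₀, x₁, x₂}) (by
      rintro x (rfl | rfl | rfl) <;> assumption) (mem_top s) (pe_of_mem h.isPGroup hs) (by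
      rintro x (rfl | rfl | rfl)
      · exact Or.inr (Or.inl d1)
      · exact Or.inr (Or.inr d2)
      · exact Or.inl d0) (Or.inl rfl))
  obtain ⟨T, hT⟩ := E.nonempty n10.symm
  have syK : ∀ T' : Subgroup G, IsSyl 3 T' (stabilizer G x₀ ⊓ stabilizer G x₁) ↔
      T' ∈ SS 3 G x₀ x₁ := fun T' => by
    rw [isSyl_iff_of_le hT.1 (le_inf (fx_iff_le.1 hT.2.1) (fx_iff_le.1 hT.2.2)) le_top, le_inf_iff,
      ← fx_iff_le, ← fx_iff_le]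
    rfl
  have gW := gn_og ((syK T).2 hT)
  have WK := og_le 3 (stabilizer G x₀ ⊓ stabilizer G x₁)
  have fW : ∀ z, Fx (og 3 (stabilizer G x₀ ⊓ stabilizer G x₁)) z ↔ z ∈ Ln 3 G x₀ x₁ := fun z => by
    rw [fx_og_iff]
    exact forall_congr' fun T' => by rw [syK]
  generalize og 3 (stabilizer G x₀ ⊓ stabilizer G x₁) = W at gW WK fW
  obtain ⟨Z, hZ⟩ : ∃ Z : Set Ω, ∀ z, z ∈ Z ↔ ∀ T' ∈ SS 3 G x₀ x₁, ¬ Fx T' z := ⟨{z | _}, fun _ => Iff.rfl⟩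
  have iZ : Inv W Z := fun g hg z hz => (hZ _).2 fun T' hT' f => by
    have g0 : g⁻¹ • x₀ = x₀ := (mem_inf.1 (WK (inv_mem hg))).1
    have g1 : g⁻¹ • x₁ = x₁ := (mem_inf.1 (WK (inv_mem hg))).2
    have k := (cj_mem_ss g⁻¹).2 hT'
    rw [g0, g1] at k
    refine (hZ z).1 hz _ k ?_
    have := (fx_cj (g := g⁻¹)).2 f
    rwa [inv_smul_smul] at this
  have iL : Inv W (Ln 3 G x₀ x₁) := fun g hg z hz => by rwa [(fW z).2 hz g hg]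
  have dj : Disjoint (Ln 3 G x₀ x₁) Z :=
    Set.disjoint_left.2 fun z h1 h2 => (hZ z).1 h2 T hT (h1 T hT)
  have z2 : x₂ ∈ Z := (hZ _).2 fun T' hT' => no3 T' hT'.1 hT'.2.1 hT'.2.2
  have TW := gW.syl.le
  have pT := gW.syl.pgrp
  have c1 : fx T Z = 0 := by
    by_contra c
    obtain ⟨z, hz, f⟩ := fx_ne_zero_iff.1 c
    exact (hZ z).1 hz T hT f
  have c2 : mv T (Ln 3 G x₀ x₁) = 0 := by
    by_contra c
    obtain ⟨z, hz, f⟩ := mv_ne_zero_iff.1 c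
    exact f (hz T hT)
  have c3 := ncard_eq pT (iZ.mono TW)
  have c4 := fx_add_mv T (Ln 3 G x₀ x₁)
  have c5 := h.ee_nonneg_of gW ((fW x₀).2 (mem_ln_left _ _)) (iL.union iZ).compl
    fun x hx f => hx (Or.inl ((fW x).1 f))
  have c6 := ee_union pT ((iL.union iZ).mono TW) ((iL.union iZ).compl.mono TW) disjoint_compl_right
  rw [Set.union_compl_self, ee_syl_eq h.gn.syl hT.1 (inv_univ _), e1,
    ee_union pT (iL.mono TW) (iZ.mono TW) dj] at c6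
  have c7 : ee 3 T (Ln 3 G x₀ x₁) = -((Ln 3 G x₀ x₁).ncard : ℤ) := by
    rw [ee, qq, c2, ← c4, c2]; simp
  have c8 : ee 3 T Z = 2 * (qq 3 T Z : ℤ) := by rw [ee, c1]; simp
  have ln : ∀ a ∈ Ln 3 G x₀ x₁, ∀ y ∈ Z, Ln 3 G a y \ {a} ⊆ Z := fun a ha y hy w hw =>
    (hZ w).2 fun T' hT' f => by
      have ay : a ≠ y := fun e => Set.disjoint_left.1 dj ha (e ▸ hy)
      have k : T' ∈ SS 3 G a w := ⟨hT'.1, ha T' hT', f⟩
      rw [E.ss_eq ay (mem_ln_left _ _) hw.1 (Ne.symm hw.2)] at k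
      exact (hZ y).1 hy T' hT' k.2.2
  have l1 : (Ln 3 G x₁ x₂).ncard = (Ln 3 G x₀ x₁).ncard := by
    have := ln_smul (p := 3) s x₀ x₁
    rw [d1, d2] at this
    rw [this, Set.ncard_smul_set]
  have l0 : (Ln 3 G x₀ x₂).ncard = (Ln 3 G x₀ x₁).ncard := by
    have := ln_smul (p := 3) s x₁ x₂
    rw [d2, d0] at this
    rw [ln_comm, this, Set.ncard_smul_set, l1]
  have a0 := Set.ncard_sdiff_singleton_add_one (mem_ln_left (p := 3) (G := G) x₀ x₂)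
  have a1 := Set.ncard_sdiff_singleton_add_one (mem_ln_left (p := 3) (G := G) x₁ x₂)
  have b0 := ln x₀ (mem_ln_left _ _) x₂ z2
  have b1 := ln x₁ (mem_ln_right _ _) x₂ z2
  have a2 := Set.ncard_union_add_ncard_inter (Ln 3 G x₀ x₂ \ {x₀}) (Ln 3 G x₁ x₂ \ {x₁})
  have a3 := Set.ncard_le_ncard (Set.union_subset b0 b1)
  have a4 : ((Ln 3 G x₀ x₂ \ {x₀}) ∩ (Ln 3 G x₁ x₂ \ {x₁})).ncard ≤ 1 := by
    rw [← Set.ncard_singleton x₂]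
    refine Set.ncard_le_ncard fun w hw => ?_
    by_contra c
    obtain ⟨T', hT'⟩ := E.nonempty n02
    have k := mem_ln_left (p := 3) (G := G) x₁ x₂
    rw [← E.ln_eq n21 hw.2.1 (mem_ln_right _ _) c, E.ln_eq n02 hw.1.1 (mem_ln_right _ _) c] at k
    exact no3 T' hT'.1 hT'.2.1 (k T' hT') hT'.2.2
  have a5 : 0 < Z.ncard := (Set.ncard_pos (Set.toFinite _)).2 ⟨_, z2⟩
  have l3 : (Ln 3 G x₀ x₁).ncard = 3 ∧ Z.ncard = 3 := by omega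
  obtain ⟨u, hu, un⟩ : ∃ u ∈ T, u • x₂ ≠ x₂ := by
    by_contra c
    exact (hZ _).1 z2 T hT fun u hu => not_not.1 fun k => c ⟨u, hu, k⟩
  have u0 := hT.2.1 u hu
  have u2 := iZ u (TW hu) _ z2
  have u3 := ln_smul (p := 3) u x₀ x₂
  rw [u0] at u3
  have b2 := ln x₀ (mem_ln_left _ _) _ u2
  have a6 := Set.ncard_sdiff_singleton_add_one (mem_ln_left (p := 3) (G := G) x₀ (u • x₂))
  have a7 : (Ln 3 G x₀ (u • x₂)).ncard = (Ln 3 G x₀ x₂).ncard := by rw [u3, Set.ncard_smul_set]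
  have a8 := Set.ncard_union_add_ncard_inter (Ln 3 G x₀ x₂ \ {x₀}) (Ln 3 G x₀ (u • x₂) \ {x₀})
  have a9 := Set.ncard_le_ncard (Set.union_subset b0 b2)
  obtain ⟨w, w1, w2⟩ := (Set.ncard_pos (Set.toFinite ((Ln 3 G x₀ x₂ \ {x₀}) ∩
    (Ln 3 G x₀ (u • x₂) \ {x₀})))).1 (by omega)
  have n0u : x₀ ≠ u • x₂ := fun e => n02 ((smul_left_cancel_iff u).1 (u0.trans e))
  rw [← E.ln_eq n0u (mem_ln_left _ _) w2.1 (Ne.symm w1.2),
    E.ln_eq n02 (mem_ln_left _ _) w1.1 (Ne.symm w1.2)] at u3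
  refine un (fx_of_small (T := T ⊓ stabilizer G (Ln 3 G x₀ x₂)) (Γ := Ln 3 G x₀ x₂ \ {x₀})
    (pT.to_le inf_le_left) (fun g hg y hy => ⟨?_, fun e => hy.2 ?_⟩) (by omega)
    ⟨mem_ln_right _ _, n02.symm⟩ u (mem_inf.2 ⟨hu, u3.symm⟩))
  · rw [← mem_stabilizer_iff.1 (mem_inf.1 hg).2]
    exact Set.smul_mem_smul_set hy.1
  · exact (smul_left_cancel_iff g).1 (Eq.trans e (hT.2.1 g (mem_inf.1 hg).1).symm)

end Cfsg.Agent.SFP
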